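/-
Project FIX6 (S5720: a non-identity element with fixed space of dimension at least one sixth).
Interface: definitions and the steps of the proof as propositions.  The proofs are in the table `jobs` (titles FIX6-*).
-/
import Cfsg.Agent.Base
import Cfsg.Prelude.Def_RootSubgroups

set_option autoImplicit false
open Module Subgroup

namespace CL.Fix6

universe u u' v w

/-- `SL₂(p)` -/
abbrev SL (p : ℕ) := Matrix.SpecialLinearGroup (Fin 2) (ZMod p)

/-- the transvection -/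
def uu (p : ℕ) : SL p := ⟨!![1, 1; 0, 1], by simp [Matrix.det_fin_two_of]⟩

/-- the split torus -/
def dd {p : ℕ} (a : (ZMod p)ˣ) : SL p := ⟨!![(a : ZMod p), 0; 0, (a⁻¹ : (ZMod p)ˣ)], by simp [Matrix.det_fin_two_of]⟩

/-- elements of order three -/
def xa {p : ℕ} (a : (ZMod p)ˣ) : SL p :=
  ⟨!![0, -(a : ZMod p); (a⁻¹ : (ZMod p)ˣ), -1], by simp [Matrix.det_fin_two_of]⟩

section Rep

variable {K : Type*} [Field K] {G : Type*} [Group G] {V : Type*} [AddCommGroup V] [Module K V]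

/-- the dimension of an eigenspace -/
noncomputable def ed (ρ : Representation K G V) (g : G) (l : K) : ℕ := finrank K (End.eigenspace (ρ g) l)

/-- simple modules -/
def Simp (ρ : Representation K G V) : Prop :=
  Nontrivial V ∧ ∀ U : Submodule K V, (∀ g, ∀ x ∈ U, ρ g x ∈ U) → U = ⊥ ∨ U = ⊤

/-- a counterexample -/
def Bad (ρ : Representation K G V) : Prop := ∀ h : G, h ≠ 1 → 6 * ed ρ h 1 < finrank K V

end Rep

/-- at most one involution -/
def OneInv (G : Type u) [Group G] : Prop := ∀ z z' : G, z * z = 1 → z' * z' = 1 → z ≠ 1 → z' ≠ 1 → z = z'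

/-- no subgroup `C_r × C_r` -/
def NoRk (G : Type u) [Group G] (r : ℕ) : Prop :=
  ∀ a b : G, a ^ r = 1 → b ^ r = 1 → a * b = b * a → a ≠ 1 → b ∈ zpowers a

/-- a minimal cover of `SL₂(p)` with kernel of odd order -/
structure Cov {p : ℕ} {G : Type u} [Group G] (π : G →* SL p) : Prop where
  surj : Function.Surjective π
  odd : Odd (Nat.card π.ker)
  min : ∀ M : Subgroup G, M.map π = ⊤ → M = ⊤

/-- `x` of order three acts without fixed points on the abelian group `A` -/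
structure FrC {G : Type u} [Group G] (A : Subgroup G) (x : G) : Prop where
  comm : ∀ a ∈ A, ∀ b ∈ A, a * b = b * a
  cop : Nat.Coprime 3 (Nat.card A)
  cube : x ^ 3 = 1
  conj : ∀ a ∈ A, x * a * x⁻¹ ∈ A
  norm : ∀ a ∈ A, a * (x * a * x⁻¹) * (x * (x * a * x⁻¹) * x⁻¹) = 1

section Steps

/-- (DEV) An inequality between dimensions of eigenspaces of elements of order prime to the characteristic holds for all
modules of `G` if it holds for the simple modules of the quotient by a normal subgroup of characteristic power order. -/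
def Dev : Prop :=
  ∀ {G : Type u} {Γ : Type u'} [Group G] [Finite G] [Group Γ] (π : G →* Γ), Function.Surjective π →
    ∀ {K : Type v} [Field K], (∀ n ∈ π.ker, ∃ k, n ^ ringExpChar K ^ k = 1) →
    ∀ {ι : Type} [Fintype ι] (c : ι → ℤ) (g : ι → G) (l : ι → K) (c₀ : ℤ), (∀ i, ∃ m : ℕ, (m : K) ≠ 0 ∧ g i ^ m = 1) →
    (∀ (W : Type w) [AddCommGroup W] [Module K W] [FiniteDimensional K W] (σ : Representation K Γ W), Simp σ →
      c₀ * finrank K W ≤ ∑ i, c i * ed σ (π (g i)) (l i)) →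
    ∀ (V : Type w) [AddCommGroup V] [Module K V] [FiniteDimensional K V] (ρ : Representation K G V),
      c₀ * finrank K V ≤ ∑ i, c i * ed ρ (g i) (l i)

/-- (BAD) -/
def BadThm : Prop :=
  ∀ {G : Type u} [Group G] {K : Type v} [Field K] {V : Type w} [AddCommGroup V] [Module K V] [FiniteDimensional K V]
    (ρ : Representation K G V), Bad ρ →
    (∀ (r : ℕ) (g : G), r.Prime → r ≤ 6 → (r : K) = 0 → g ^ r = 1 → g = 1) ∧ OneInv G ∧ NoRk G 3 ∧ NoRk G 5

/-- (FROB) -/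
def Frob : Prop :=
  ∀ {G : Type u} [Group G] [Finite G] {K : Type v} [Field K] [IsAlgClosed K] {V : Type w} [AddCommGroup V] [Module K V]
    [FiniteDimensional K V] (ρ : Representation K G V) (A : Subgroup G) (x : G), FrC A x → (3 : K) ≠ 0 →
    (Nat.card A : K) ≠ 0 → ∀ a ∈ A, finrank K V ≤ 3 * ed ρ x 1 + ed ρ a 1

/-- (RED) -/
def Red : Prop :=
  ∀ {H : Type u} [Group H] [Finite H], 120 < (Cfsg.solvableRadical H).index → OneInv H → NoRk H 3 → NoRk H 5 →
    ∃ (p : ℕ) (L : Subgroup H) (π : L →* SL p), p.Prime ∧ 7 ≤ p ∧ Cov π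

/-- (KER) -/
def Ker : Prop :=
  ∀ {G : Type u} [Group G] [Finite G] {p : ℕ} (π : G →* SL p), p.Prime → 7 ≤ p → Cov π → OneInv G → NoRk G 3 →
    ∀ r : ℕ, r.Prime → r ∣ Nat.card π.ker → r ≠ 3 ∧ ∃ (A : Subgroup G) (x : G), A ≠ ⊥ ∧ IsPGroup r A ∧ FrC A x

/-- (GK) The Gelfand-Kazhdan trick. -/
def GK : Prop :=
  ∀ {Γ : Type u} [Group Γ] {K : Type v} [Field K] [IsAlgClosed K] {W : Type w} [AddCommGroup W] [Module K W]
    [FiniteDimensional K W] (σ : Representation K Γ W), Simp σ → ∀ (t : Γ) (st : Γ → Γ),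
    (∀ g h, st (g * h) = st h * st g) → (∀ g, st (st g) = g) → (∀ g, ∃ s ∈ zpowers t, st g = s * g * s⁻¹) →
    ∀ l, ed σ t l ≤ 1

/-- (CG) Simple modules of `GL₂(p)` in cross characteristic. -/
def CrossG : Prop :=
  ∀ (p : ℕ) [Fact p.Prime], 11 ≤ p → p % 3 = 2 → ∀ {K : Type v} [Field K] [IsAlgClosed K], (p : K) ≠ 0 → (3 : K) ≠ 0 →
    ∀ (W : Type w) [AddCommGroup W] [Module K W] [FiniteDimensional K W]
      (τ : Representation K (GL (Fin 2) (ZMod p)) W), Simp τ →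
      finrank K W ≤ 6 * ed τ (Matrix.SpecialLinearGroup.toGL (xa 1)) 1

/-- (CI) Induction from `SL₂(p)` to `GL₂(p)`. -/
def CrossI : Prop :=
  ∀ (p : ℕ) [Fact p.Prime] {K : Type v} [Field K],
    (∀ (W : Type w) [AddCommGroup W] [Module K W] [FiniteDimensional K W]
      (τ : Representation K (GL (Fin 2) (ZMod p)) W), finrank K W ≤ 6 * ed τ (Matrix.SpecialLinearGroup.toGL (xa 1)) 1) →
    ∀ (W : Type w) [AddCommGroup W] [Module K W] [FiniteDimensional K W] (σ : Representation K (SL p) W),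
      (p - 1) * finrank K W ≤ ∑ a : (ZMod p)ˣ, 6 * ed σ (xa a) 1

open Classical in
/-- (WTS) The simple modules of `SL₂(p)` in characteristic `p`. -/
def Wts : Prop :=
  ∀ (p : ℕ) [Fact p.Prime], 5 ≤ p → ∀ {K : Type v} [Field K] [IsAlgClosed K] [CharP K p]
    (W : Type w) [AddCommGroup W] [Module K W] [FiniteDimensional K W] (σ : Representation K (SL p) W), Simp σ →
    ∃ k < p, finrank K W = k + 1 ∧
      (∀ (a : (ZMod p)ˣ) (l : K), ed σ (dd a) l = ((Finset.range (k + 1)).filter fun j =>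
        ZMod.castHom (dvd_refl p) K a ^ j * (ZMod.castHom (dvd_refl p) K a)⁻¹ ^ (k - j) = l).card) ∧
      ((Finset.range (k + 1)).filter fun j => (j + 2 * (k - j)) % 3 = 0).card ≤ ed σ (xa 1) 1

/-- (WTA) -/
def WtA : Prop :=
  ∀ (p : ℕ) [Fact p.Prime], 7 ≤ p → p ≠ 11 → ∀ {K : Type v} [Field K] [IsAlgClosed K] [CharP K p]
    (W : Type w) [AddCommGroup W] [Module K W] [FiniteDimensional K W] (σ : Representation K (SL p) W), Simp σ →
    ∀ (a : (ZMod p)ˣ) (l : K), orderOf a = p - 1 → l = ZMod.castHom (dvd_refl p) K a →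
      finrank K W + 2 * ed σ (dd a) (l ^ 3) + ed σ (dd a) (l ^ 6) ≤
        2 * ed σ (dd a) l + ed σ (dd a) (l ^ 4) + 4 * ed σ (xa 1) 1

/-- (WTB) -/
def WtB : Prop :=
  ∀ {K : Type v} [Field K] [IsAlgClosed K] [CharP K 11]
    (W : Type w) [AddCommGroup W] [Module K W] [FiniteDimensional K W] (σ : Representation K (SL 11) W), Simp σ →
    ∀ (a : (ZMod 11)ˣ) (l : K), orderOf a = 10 → l = ZMod.castHom (dvd_refl 11) K a →
      finrank K W + ed σ (dd a) (l ^ 13) + ed σ (dd a) (l ^ 5) ≤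
        ed σ (dd a) (l ^ 9) + ed σ (dd a) l + 5 * ed σ (xa 1) 1

/-- (LIFT) A cyclic torus-invariant lift of the Sylow `p`-subgroup. -/
def Lift : Prop :=
  ∀ {G : Type u} [Group G] [Finite G] {p : ℕ} (π : G →* SL p), p.Prime → 5 ≤ p → Cov π → IsPGroup p π.ker →
    ∀ a : (ZMod p)ˣ, ∃ (t y : G) (m : ℕ), π t = dd a ∧ t ^ (p - 1) = 1 ∧ π y ≠ 1 ∧ (∃ k, y ^ p ^ k = 1) ∧
      t * y * t⁻¹ = y ^ m ∧ (m : ZMod p) = a ^ 2 ∧ (π.ker ≠ ⊥ → y ^ p ≠ 1)

/-- (RAISE) The raising operator. -/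
def Raise : Prop :=
  ∀ {G : Type u} [Group G] {K : Type v} [Field K] (p : ℕ) [Fact p.Prime] [CharP K p] {V : Type w} [AddCommGroup V]
    [Module K V] [FiniteDimensional K V] (ρ : Representation K G V) (t y : G) (m k : ℕ), t ^ (p - 1) = 1 →
    y ^ p ^ k = 1 → t * y * t⁻¹ = y ^ m → (m : K) ≠ 0 → (m : K) ≠ 1 →
    (∀ l, ed ρ t l ≤ ed ρ y 1 + ed ρ t (m * l)) ∧ ∀ l l', l ≠ l' →
      ed ρ t l + ed ρ t l' ≤ ed ρ y 1 + ed ρ t (m * l) + ed ρ t (m * l') ∧
      ed ρ t l + ed ρ t l' ≤ ed ρ (y ^ p) 1 + ed ρ t (m ^ 2 * l) + ed ρ t (m ^ 2 * l')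

/-- (C11) -/
def C11 : Prop :=
  ∀ {K : Type v} [Field K] [CharP K 11] (W : Type w) [AddCommGroup W] [Module K W] [FiniteDimensional K W]
    (σ : Representation K (SL 11) W), ¬ Bad σ

end Steps

end CL.Fix6
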