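/-
Project FIX6: the subgroups excluded in a counterexample, and the Frobenius group inequality.
-/
import Cfsg.Agent.Fix6.Defs
import Cfsg.Agent.Fgs.FixDimA

set_option autoImplicit false
open Module Subgroup

namespace CL.Fix6

universe u v w

namespace BadL

variable {K : Type*} [Field K] {V : Type*} [AddCommGroup V] [Module K V] [FiniteDimensional K V]

theorem le_map_add (f : End K V) (U : Submodule K V) :
    finrank K U ≤ finrank K (U.map f) + finrank K (LinearMap.ker f) := by
  rw [← LinearMap.finrank_range_add_finrank_ker (f.domRestrict U), LinearMap.range_domRestrict,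
    LinearMap.ker_domRestrict, ← Submodule.finrank_map_subtype_eq, Submodule.map_comap_subtype]
  exact Nat.add_le_add_left (Submodule.finrank_mono inf_le_right) _

theorem le_pow_add (f : End K V) (k : ℕ) :
    finrank K V ≤ finrank K (LinearMap.range (f ^ k)) + k * finrank K (LinearMap.ker f) := by
  induction k with
  | zero => rw [pow_zero, End.one_eq_id, LinearMap.range_id, finrank_top]; simp
  | succ k ih =>
    have := le_map_add f (LinearMap.range (f ^ k))
    rw [← LinearMap.range_comp, ← End.mul_eq_comp, ← pow_succ'] at this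
    linarith

theorem sup_le_sum {ι : Type*} (s : Finset ι) (U : ι → Submodule K V) :
    finrank K (s.sup U : Submodule K V) ≤ ∑ i ∈ s, finrank K (U i) := by
  classical
  induction s using Finset.induction_on with
  | empty => simp
  | insert i s hi ih =>
    rw [Finset.sup_insert, Finset.sum_insert hi]
    exact (Submodule.finrank_add_le_finrank_add_finrank _ _).trans (Nat.add_le_add_left ih _)

theorem sum_pow_mul {G X : Type*} [Monoid G] [AddCommMonoid X] (f : G → X) {b : G} {r j : ℕ} (hb : b ^ r = 1)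
    (hj : r.Coprime j) : ∑ i ∈ Finset.range r, f (b ^ (i * j)) = ∑ i ∈ Finset.range r, f (b ^ i) := by
  have h1 : ∀ i ∈ Finset.range r, i * j % r ∈ Finset.range r := fun i hi =>
    Finset.mem_range.2 (Nat.mod_lt _ (by have := Finset.mem_range.1 hi; omega))
  have h2 : ∀ i ∈ Finset.range r, ∀ i' ∈ Finset.range r, i * j % r = i' * j % r → i = i' := fun i hi i' hi' e =>
    Nat.ModEq.eq_of_lt_of_lt (Nat.ModEq.cancel_right_of_coprime hj e) (Finset.mem_range.1 hi) (Finset.mem_range.1 hi')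
  refine Finset.sum_bij (fun i _ => i * j % r) h1 h2 (fun i hi => ?_) fun i _ => ?_
  · obtain ⟨i', hi', e⟩ := Finset.surj_on_of_inj_on_of_card_le (fun i _ => i * j % r) h1
      (fun i i' hi hi' => h2 i hi i' hi') le_rfl i hi
    exact ⟨i', hi', e.symm⟩
  · rw [← pow_eq_pow_mod _ hb]

variable {G : Type*} [Group G] {ρ : Representation K G V}

theorem mem_fx {g : G} {v : V} : v ∈ End.eigenspace (ρ g) 1 ↔ ρ g v = v := by
  rw [End.mem_eigenspace_iff, one_smul]

theorem unip (h : Bad ρ) (r : ℕ) (g : G) (hr : r.Prime) (h6 : r ≤ 6) (h0 : (r : K) = 0) (hg : g ^ r = 1) : g = 1 := by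
  by_contra h1
  have := Fact.mk hr
  have : CharP K r := (CharP.charP_iff_prime_eq_zero hr).2 h0
  have h2 := h g h1
  have : Nontrivial V := finrank_pos_iff.1 (by omega : 0 < finrank K V)
  have : CharP (End K V) r := charP_of_injective_algebraMap (algebraMap K (End K V)).injective r
  have h3 := le_pow_add (ρ g - 1) r
  rw [sub_pow_char_of_commute r (Commute.one_right _), ← map_pow, hg, map_one, one_pow, sub_self, LinearMap.range_zero,
    finrank_bot] at h3
  rw [ed, End.eigenspace_def, one_smul] at h2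
  nlinarith

theorem oneInv (h : Bad ρ) : OneInv G := by
  intro z z' h1 h2 h3 h4
  by_contra h5
  have h0 : (2 : K) ≠ 0 := fun e => h3 (unip h 2 z Nat.prime_two (by norm_num) (by simpa using e) (by rw [sq, h1]))
  have key : ∀ y : G, y * y = 1 → finrank K V ≤ ed ρ y 1 + ed ρ y (-1) := fun y hy => by
    refine le_trans ?_ (Submodule.finrank_add_le_finrank_add_finrank _ _)
    rw [← finrank_top]
    refine Submodule.finrank_mono fun v _ => ?_
    have e : ρ y (ρ y v) = v := by rw [← End.mul_apply, ← map_mul, hy, map_one, End.one_apply]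
    refine Submodule.mem_sup.2 ⟨(2 : K)⁻¹ • (v + ρ y v), mem_fx.2 (by simp [e, add_comm]), (2 : K)⁻¹ • (v - ρ y v),
      End.mem_eigenspace_iff.2 (by simp only [map_smul, map_sub, e, neg_smul, one_smul, ← smul_neg, neg_sub]), ?_⟩
    rw [← smul_add, add_add_sub_cancel, ← two_smul K, inv_smul_smul₀ h0]
  have k1 := Submodule.finrank_sup_add_finrank_inf_eq (End.eigenspace (ρ z) (-1)) (End.eigenspace (ρ z') (-1))
  have k2 : finrank K ↥(End.eigenspace (ρ z) (-1) ⊓ End.eigenspace (ρ z') (-1)) ≤ ed ρ (z * z') 1 :=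
    Submodule.finrank_mono fun v hv => mem_fx.2 (by
      rw [map_mul, End.mul_apply, End.mem_eigenspace_iff.1 hv.2, map_smul, End.mem_eigenspace_iff.1 hv.1]; simp)
  have k3 := Submodule.finrank_le (End.eigenspace (ρ z) (-1) ⊔ End.eigenspace (ρ z') (-1))
  have k4 := h (z * z') fun e => h5 (mul_left_cancel (h1.trans e.symm))
  have k5 := key z h1
  have k6 := key z' h2
  have k7 := h z h3
  have k8 := h z' h4
  unfold ed at *
  omega

theorem noRk (h : Bad ρ) {r : ℕ} (hr : r.Prime) (h5 : r ≤ 5) : NoRk G r := by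
  intro a b ha hb hab a1
  by_contra hn
  have h0 : (r : K) ≠ 0 := fun e => a1 (unip h r a hr (by omega) e ha)
  have hc : Commute a b := hab
  let N : G → End K V := fun g => ∑ j ∈ Finset.range r, ρ (g ^ j)
  have hN : ∀ g, g ^ r = 1 → ∀ v, N g v ∈ End.eigenspace (ρ g) 1 := fun g hg v => by
    have e := Finset.sum_range_succ (fun j => ρ (g ^ j)) r
    rw [Finset.sum_range_succ', hg, pow_zero, add_left_inj] at e
    have e' : ρ g * N g = N g := by
      simp only [N, Finset.mul_sum, ← map_mul, ← pow_succ']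
      exact e
    rw [mem_fx, ← End.mul_apply, e']
  have e1 : ∑ i ∈ Finset.range r, N (a * b ^ i) + N b = (r : K) • 1 + N b * N a := by
    obtain ⟨r, rfl⟩ : ∃ s, r = s + 1 := ⟨r - 1, by have := hr.pos; omega⟩
    have e2 : ∀ j ∈ Finset.range r, ∑ i ∈ Finset.range (r + 1), ρ ((a * b ^ i) ^ (j + 1)) = N b * ρ (a ^ (j + 1)) :=
      fun j hj => by
        rw [Finset.sum_mul, ← sum_pow_mul (fun y => ρ y * ρ (a ^ (j + 1))) hb (j := j + 1)
          (hr.coprime_iff_not_dvd.2 (Nat.not_dvd_of_pos_of_lt (Nat.succ_pos j)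
            (by have := Finset.mem_range.1 hj; omega)))]
        refine Finset.sum_congr rfl fun i _ => ?_
        rw [(hc.pow_right i).mul_pow, ← pow_mul, ← map_mul, (hc.pow_pow _ _).eq]
    rw [Finset.sum_comm, Finset.sum_range_succ', Finset.sum_congr rfl e2, ← Finset.mul_sum]
    simp only [N]
    rw [Finset.sum_range_succ' (fun j => ρ (a ^ j))]
    simp [mul_add, add_comm, add_left_comm, add_smul, Nat.cast_smul_eq_nsmul]
  have h1 : finrank K V ≤ ed ρ b 1 + ∑ i ∈ Finset.range r, ed ρ (a * b ^ i) 1 := by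
    refine le_trans ?_ ((Submodule.finrank_add_le_finrank_add_finrank (End.eigenspace (ρ b) 1)
      ((Finset.range r).sup fun i => End.eigenspace (ρ (a * b ^ i)) 1)).trans
      (Nat.add_le_add_left (sup_le_sum (Finset.range r) fun i => End.eigenspace (ρ (a * b ^ i)) 1) _))
    rw [← finrank_top]
    refine Submodule.finrank_mono fun v _ => ?_
    have e2 := congrArg (fun f : End K V => f v) e1
    simp only [LinearMap.add_apply, LinearMap.sum_apply, LinearMap.smul_apply, End.one_apply, End.mul_apply] at e2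
    rw [← Submodule.smul_mem_iff _ h0, ← sub_eq_iff_eq_add.2 e2]
    refine sub_mem (add_mem (sum_mem fun i hi => ?_) (Submodule.mem_sup_left (hN b hb v)))
      (Submodule.mem_sup_left (hN b hb _))
    exact Submodule.mem_sup_right (Finset.le_sup (f := fun i => End.eigenspace (ρ (a * b ^ i)) 1) hi
      (hN _ (by rw [(hc.pow_right i).mul_pow, ha, ← pow_mul, mul_comm i, pow_mul, hb, one_pow, one_mul]) v))
  have b1 : b ≠ 1 := fun e => hn (e ▸ one_mem _)
  have h2 : ∀ i ∈ Finset.range r, 6 * ed ρ (a * b ^ i) 1 + 1 ≤ finrank K V := fun i hi => h _ fun e => by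
    have := Fact.mk hr
    have e2 : b ^ i = a⁻¹ := eq_inv_of_mul_eq_one_right e
    have e3 : a ∈ zpowers b := inv_mem_iff.1 (e2 ▸ pow_mem (mem_zpowers b) i)
    have : Finite (zpowers b) := Nat.finite_of_card_ne_zero (by rw [Nat.card_zpowers, orderOf_eq_prime hb b1]; exact hr.ne_zero)
    have e4 : zpowers a = zpowers b := Subgroup.eq_of_le_of_card_ge (zpowers_le.2 e3) (by
      rw [Nat.card_zpowers, Nat.card_zpowers, orderOf_eq_prime hb b1, orderOf_eq_prime ha a1])
    exact hn (e4 ▸ mem_zpowers b)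
  have h3 := Finset.sum_le_sum h2
  have h4 := h b b1
  rw [Finset.sum_add_distrib, ← Finset.mul_sum, Finset.sum_const, Finset.sum_const, Finset.card_range, smul_eq_mul,
    smul_eq_mul] at h3
  nlinarith

theorem core [Finite G] [IsAlgClosed K] (σ : Representation K G V) {A : Subgroup G} {x : G} (hF : FrC A x)
    (hA : (Nat.card A : K) ≠ 0) (hg : ∀ g, ∃ a ∈ A, ∃ i : ℕ, g = a * x ^ i) (hs : Simp σ) {a : G} (ha : a ∈ A) :
    finrank K V ≤ 3 * ed σ x 1 + ed σ a 1 := by
  have := hs.1
  obtain ⟨b, μ, hμ⟩ := CL.Fgs.FD.exists_simul_basis (fun c : A => σ c)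
    (fun c d => by simp only [← map_mul, hF.comm _ c.2 _ d.2]) hA
    (fun c => by rw [← map_pow, ← coe_pow, pow_card_eq_one', coe_one, map_one])
  obtain ⟨v, v0, χ, hχ⟩ : ∃ v : V, v ≠ 0 ∧ ∃ χ : G → K, ∀ c ∈ A, σ c v = χ c • v := by
    classical
    have i : Fin (finrank K V) := ⟨0, finrank_pos⟩
    exact ⟨b i, b.ne_zero i, fun c => if h : c ∈ A then μ i ⟨c, h⟩ else 0, fun c h => by
      simp only [h, dif_pos]; exact hμ i ⟨c, h⟩⟩
  have inv : ∀ U : Submodule K V, (∀ c ∈ A, ∀ y ∈ U, σ c y ∈ U) → (∀ y ∈ U, σ x y ∈ U) → U ≠ ⊥ → U = ⊤ :=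
    fun U h1 h2 h3 => (hs.2 U fun g y hy => by
      obtain ⟨c, hc, i, rfl⟩ := hg g
      rw [map_mul, End.mul_apply]
      refine h1 c hc _ ?_
      induction i with
      | zero => simpa using hy
      | succ i ih => rw [pow_succ', map_mul, End.mul_apply]; exact h2 _ ih).resolve_left h3
  have x3 : x * x * x = 1 := by rw [← hF.cube, pow_three']
  have xi : x⁻¹ = x * x := inv_eq_of_mul_eq_one_left x3
  have c2 : ∀ c ∈ A, x⁻¹ * c * x ∈ A := fun c hc => by
    have := hF.conj _ (hF.conj c hc)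
    rwa [show x * (x * c * x⁻¹) * x⁻¹ = (x * x) * c * (x * x)⁻¹ by group, ← xi, inv_inv] at this
  have sw : ∀ c y, σ c (σ x y) = σ x (σ (x⁻¹ * c * x) y) := fun c y => by
    simp only [← End.mul_apply, ← map_mul]; congr 2; group
  by_cases h1 : ∀ c ∈ A, χ c = 1
  · have h2 := inv (⨅ c : A, End.eigenspace (σ c) 1) (fun c hc y hy => (Submodule.mem_iInf _).2 fun d => by
        rw [mem_fx.1 ((Submodule.mem_iInf _).1 hy ⟨c, hc⟩)]; exact (Submodule.mem_iInf _).1 hy d)
      (fun y hy => (Submodule.mem_iInf _).2 fun d => mem_fx.2 (by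
        rw [sw, mem_fx.1 ((Submodule.mem_iInf _).1 hy ⟨_, c2 d d.2⟩)]))
      ((Submodule.ne_bot_iff _).2 ⟨v, (Submodule.mem_iInf _).2 fun d => mem_fx.2 (by
        rw [hχ _ d.2, h1 _ d.2, one_smul]), v0⟩)
    refine le_add_left ?_
    rw [← finrank_top, ← h2]
    exact Submodule.finrank_mono (iInf_le (fun c : A => End.eigenspace (σ c) 1) ⟨a, ha⟩)
  have mul : ∀ c ∈ A, ∀ d ∈ A, χ (c * d) = χ c * χ d := fun c hc d hd => smul_left_injective K v0 (by
    simp only
    rw [← hχ _ (mul_mem hc hd), map_mul, End.mul_apply, hχ d hd, map_smul, hχ c hc, smul_smul, mul_comm])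
  have one : χ 1 = 1 := smul_left_injective K v0 (by simp only; rw [← hχ _ (one_mem A), map_one, one_smul, End.one_apply])
  have pw : ∀ c ∈ A, ∀ k : ℕ, χ (c ^ k) = χ c ^ k := fun c hc k => by
    induction k with
    | zero => simpa using one
    | succ k ih => rw [pow_succ, mul _ (pow_mem hc k) _ hc, ih, pow_succ]
  obtain ⟨d, hd, hne⟩ : ∃ d ∈ A, χ (x * d * x⁻¹) ≠ χ d := by
    by_contra! h2
    refine h1 fun c hc => ?_
    have h3 := congrArg χ (hF.norm c hc)
    rw [mul _ (mul_mem hc (hF.conj c hc)) _ (hF.conj _ (hF.conj c hc)), mul _ hc _ (hF.conj c hc),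
      h2 _ (hF.conj c hc), h2 c hc, one, ← pow_three'] at h3
    have h4 : χ c ^ Nat.card A = 1 := by
      rw [← pw c hc, ← one]; exact congrArg χ (congrArg Subtype.val (pow_card_eq_one' (x := (⟨c, hc⟩ : A))))
    simpa [hF.cop.gcd_eq_one] using pow_gcd_eq_one.2 ⟨h3, h4⟩
  have e1 : ∀ c ∈ A, σ c (σ x v) = χ (x⁻¹ * c * x) • σ x v := fun c hc => by rw [sw, hχ _ (c2 c hc), map_smul]
  have e2 : ∀ c ∈ A, σ c (σ x (σ x v)) = χ (x * c * x⁻¹) • σ x (σ x v) := fun c hc => by
    rw [sw, e1 _ (c2 c hc), map_smul]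
    congr 2
    rw [show x⁻¹ * (x⁻¹ * c * x) * x = (x * x)⁻¹ * c * (x * x) by group, ← xi, inv_inv]
  have e3 : σ x (σ x (σ x v)) = v := by simp only [← End.mul_apply, ← map_mul]; rw [← mul_assoc, x3, map_one, End.one_apply]
  have h3 : finrank K V ≤ 3 := by
    let f : Fin 3 → V := ![v, σ x v, σ x (σ x v)]
    have m : ∀ i, f i ∈ Submodule.span K (Set.range f) := fun i => Submodule.subset_span ⟨i, rfl⟩
    have st : ∀ g, (∀ i, σ g (f i) ∈ Submodule.span K (Set.range f)) → ∀ y ∈ Submodule.span K (Set.range f),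
        σ g y ∈ Submodule.span K (Set.range f) := fun g h y hy =>
      (Submodule.span_le (p := (Submodule.span K (Set.range f)).comap (σ g))).2 (by rintro _ ⟨i, rfl⟩; exact h i) hy
    have h4 := inv (Submodule.span K (Set.range f)) (fun c hc => st c fun i => by
        fin_cases i
        · exact (hχ c hc).symm ▸ Submodule.smul_mem _ _ (m 0)
        · exact (e1 c hc).symm ▸ Submodule.smul_mem _ _ (m 1)
        · exact (e2 c hc).symm ▸ Submodule.smul_mem _ _ (m 2))
      (st x fun i => by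
        fin_cases i
        · exact m 1
        · exact m 2
        · exact e3.symm ▸ m 0) ((Submodule.ne_bot_iff _).2 ⟨v, m 0, v0⟩)
    rw [← finrank_top, ← h4]
    exact (finrank_range_le_card f).trans (by simp)
  have h4 : v + σ x v + σ x (σ x v) ≠ 0 := fun e => by
    have k1 := congrArg (σ (x * d * x⁻¹)) e
    rw [map_add, map_add, hχ _ (hF.conj d hd), e1 _ (hF.conj d hd), e2 _ (hF.conj d hd), map_zero,
      show x⁻¹ * (x * d * x⁻¹) * x = d by group] at k1
    have k2 := congrArg (σ d) k1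
    simp only [map_add, map_smul, map_zero, hχ d hd, e1 d hd, e2 d hd] at k2
    have k3 := congrArg (σ d) e
    simp only [map_add, map_zero, hχ d hd, e1 d hd, e2 d hd] at k3
    refine v0 ((smul_eq_zero.1 (?_ : ((χ (x * d * x⁻¹) - χ d) * (χ d - χ (x * d * x⁻¹))) • v = 0)).resolve_left
      (mul_ne_zero (sub_ne_zero.2 hne) (sub_ne_zero.2 hne.symm)))
    linear_combination (norm := module) k2 - χ d • k3 - χ (x * d * x⁻¹) • k1 + (χ (x * d * x⁻¹) * χ d) • e
  have h5 : 0 < ed σ x 1 := finrank_pos_iff_exists_ne_zero.2 ⟨⟨_, mem_fx.2 (by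
    rw [map_add, map_add, e3]; abel : σ x (v + σ x v + σ x (σ x v)) = _)⟩, fun e => h4 (congrArg Subtype.val e)⟩
  omega

end BadL

theorem badThm : BadThm.{u, v, w} := fun _ h =>
  ⟨BadL.unip h, BadL.oneInv h, BadL.noRk h Nat.prime_three (by norm_num), BadL.noRk h Nat.prime_five le_rfl⟩

theorem frob_of (h : Dev.{u, u, v, w}) : Frob.{u, v, w} := by
  intro G _ _ K _ _ V _ _ _ ρ A x hF h3 hA a ha
  have cj : ∀ (i : ℕ), ∀ c ∈ A, x ^ i * c * (x ^ i)⁻¹ ∈ A := fun i c hc => by
    induction i with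
    | zero => simpa using hc
    | succ i ih => convert hF.conj _ ih using 1; group
  let F : Subgroup G :=
    { carrier := {g | ∃ c ∈ A, ∃ i : ℕ, g = c * x ^ i}
      one_mem' := ⟨1, one_mem A, 0, by simp⟩
      mul_mem' := by
        rintro _ _ ⟨c, hc, i, rfl⟩ ⟨d, hd, j, rfl⟩
        exact ⟨_, mul_mem hc (cj i d hd), i + j, by group⟩
      inv_mem' := by
        rintro _ ⟨c, hc, i, rfl⟩
        refine ⟨_, cj (2 * i) _ (inv_mem hc), 2 * i, ?_⟩
        have e : x ^ (2 * i) * x ^ i = 1 := by rw [← pow_add, show 2 * i + i = 3 * i by ring, pow_mul, hF.cube, one_pow]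
        rw [inv_mul_cancel_right, mul_inv_rev, inv_eq_of_mul_eq_one_left e] }
  have hle : A ≤ F := fun c hc => ⟨c, hc, 0, by simp⟩
  let y : F := ⟨x, 1, one_mem A, 1, by simp⟩
  have hc : Nat.card (A.subgroupOf F) = Nat.card A := Nat.card_congr (subgroupOfEquivOfLe hle).toEquiv
  have hF' : FrC (A.subgroupOf F) y :=
    ⟨fun c hc d hd => Subtype.ext (hF.comm _ hc _ hd), hc ▸ hF.cop, Subtype.ext hF.cube, fun c hc => hF.conj _ hc,
      fun c hc => Subtype.ext (hF.norm _ hc)⟩
  have := h (MonoidHom.id F) Function.surjective_id (K := K) (fun n hn => ⟨0, by simpa using hn⟩) (ι := Bool)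
    (fun i => cond i 3 1) (fun i => cond i y ⟨a, hle ha⟩) (fun _ => 1) 1 (by
      rintro (_ | _)
      · exact ⟨_, hA, Subtype.ext (congrArg Subtype.val (pow_card_eq_one' (x := (⟨a, ha⟩ : A))) :)⟩
      · exact ⟨3, by exact_mod_cast h3, hF'.cube⟩)
    (fun W _ _ _ σ hs => by
      have := BadL.core σ hF' (hc ▸ hA) (fun ⟨g, c, hc, i, e⟩ => ⟨⟨c, hle hc⟩, hc, i, Subtype.ext e⟩) hs
        (a := ⟨a, hle ha⟩) ha
      simp only [Fintype.sum_bool, cond_true, cond_false, MonoidHom.id_apply]
      omega) V (ρ.comp F.subtype)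
  simp only [Fintype.sum_bool, cond_true, cond_false] at this
  change (1 : ℤ) * _ ≤ 3 * (ed ρ x 1 : ℤ) + 1 * (ed ρ a 1 : ℤ) at this
  omega

end CL.Fix6
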