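/-
Project FIX6, step C11: `SL₂(11)` in characteristic 11.
-/
import Cfsg.Agent.Fix6.C11b

set_option autoImplicit false
open Module

namespace CL.Fix6

universe v w

theorem rank_step {K : Type*} [Field K] {W : Type*} [AddCommGroup W] [Module K W] [FiniteDimensional K W]
    (U : Submodule K W) (f : End K W) (E : Submodule K W) (h : ∀ x ∈ U, f x ∈ E) :
    finrank K U ≤ finrank K (U ⊓ LinearMap.ker f : Submodule K W) + finrank K E := by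
  have e := LinearMap.finrank_range_add_finrank_ker (f.domRestrict U)
  rw [LinearMap.ker_domRestrict, ← Submodule.finrank_map_subtype_eq, Submodule.map_comap_subtype] at e
  have : finrank K (LinearMap.range (f.domRestrict U)) ≤ finrank K E :=
    Submodule.finrank_mono (by rintro _ ⟨x, rfl⟩; exact h x x.2)
  omega

namespace C

variable {K : Type*} [Field K] [CharP K 11] {W : Type*} [AddCommGroup W] [Module K W]
  {σ : Representation K (SL 11) W}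

theorem rel2 {l : List (ℕ × ℕ)} {g c d : ℕ} {r : List (List (ℕ × ℕ) × ℕ × ℕ)} (hc : Chk ((l, 2, d) :: r))
    (hd : dcd 2 d = [(1, g), (11 - c, 1332)]) (h11 : c ≤ 11) {x : SL 11} (hx : mat g = x.1) {v : W}
    (hv : ∀ q ∈ r, ev σ q.1 v = 0) : ev σ l v ∈ End.eigenspace (σ x) (c : K) := by
  have h := rel (σ := σ) hc hv
  rw [hd] at h
  simp only [ev, List.map_cons, List.map_nil, List.sum_cons, List.sum_nil, add_zero, one_smul, F_eq σ x hx,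
    F_eq σ (g := 1332) 1 (by decide), map_one, LinearMap.add_apply, LinearMap.smul_apply, End.one_apply] at h
  rw [← Nat.cast_smul_eq_nsmul K, Nat.cast_sub h11, CharP.cast_eq_zero, zero_sub, neg_smul, add_neg_eq_zero] at h
  exact mem_ed.2 h

end C

open C in
theorem c11 : C11.{v, w} := by
  intro K _ _ W _ _ _ σ hb
  let x0 : SL 11 := ⟨mat 7969, by decide⟩
  let x1 : SL 11 := ⟨mat 582, by decide⟩
  let x2 : SL 11 := ⟨mat 5232, by decide⟩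
  let x3 : SL 11 := ⟨mat 7562, by decide⟩
  let u : SL 11 := ⟨mat 1343, by decide⟩
  let t : SL 11 := ⟨mat 7988, by decide⟩
  let E : ℕ → Submodule K W := fun c => End.eigenspace (σ u) ((1 : ℕ) : K) ⊓ End.eigenspace (σ t) (c : K)
  let U4 := ⊤ ⊓ LinearMap.ker (ev σ e0) ⊓ LinearMap.ker (ev σ e1) ⊓ LinearMap.ker (ev σ e2) ⊓ LinearMap.ker (ev σ e3)
  have nil : ∀ v : W, ∀ q ∈ ([] : List (List (ℕ × ℕ) × ℕ × ℕ)), ev σ q.1 v = 0 := fun _ _ h => absurd h List.not_mem_nil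
  have s0 := rank_step ⊤ (ev σ e0) _ fun v _ => rel2 (x := x0) (c := 1) f0 rfl (by norm_num) rfl (nil v)
  have s1 := rank_step (⊤ ⊓ LinearMap.ker (ev σ e0)) (ev σ e1) _
    fun v _ => rel2 (x := x1) (c := 1) f1 rfl (by norm_num) rfl (nil v)
  have s2 := rank_step (⊤ ⊓ LinearMap.ker (ev σ e0) ⊓ LinearMap.ker (ev σ e1)) (ev σ e2) _
    fun v _ => rel2 (x := x2) (c := 1) f2 rfl (by norm_num) rfl (nil v)
  have s3 := rank_step (⊤ ⊓ LinearMap.ker (ev σ e0) ⊓ LinearMap.ker (ev σ e1) ⊓ LinearMap.ker (ev σ e2)) (ev σ e3) _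
    fun v _ => rel2 (x := x3) (c := 1) f3 rfl (by norm_num) rfl (nil v)
  have s4 := rank_step U4 (ev σ a0) (E 7) fun v ⟨⟨⟨⟨_, h0⟩, h1⟩, h2⟩, h3⟩ =>
    ⟨rel2 c0 rfl (by norm_num) rfl (by
      simp only [r0, List.forall_mem_cons]; exact ⟨h0, h1, h2, h3, nil v⟩), rel2 d0 rfl (by norm_num) rfl (nil v)⟩
  have s5 := rank_step (U4 ⊓ LinearMap.ker (ev σ a0)) (ev σ a1) (E 7) fun v ⟨⟨⟨⟨⟨_, h0⟩, h1⟩, h2⟩, h3⟩, h4⟩ =>
    ⟨rel2 c1 rfl (by norm_num) rfl (by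
      simp only [r1, List.forall_mem_cons]; exact ⟨h4, h0, h1, h2, h3, nil v⟩), rel2 d1 rfl (by norm_num) rfl (nil v)⟩
  have s6 := rank_step (U4 ⊓ LinearMap.ker (ev σ a0) ⊓ LinearMap.ker (ev σ a1)) (ev σ a2) (E 5)
    fun v ⟨⟨⟨⟨⟨⟨_, h0⟩, h1⟩, h2⟩, h3⟩, _⟩, _⟩ =>
    ⟨rel2 c2 rfl (by norm_num) rfl (by
      simp only [r2, List.forall_mem_cons]; exact ⟨h0, h1, h2, h3, nil v⟩), rel2 d2 rfl (by norm_num) rfl (nil v)⟩
  have s7 := rank_step (U4 ⊓ LinearMap.ker (ev σ a0) ⊓ LinearMap.ker (ev σ a1) ⊓ LinearMap.ker (ev σ a2)) (ev σ a3) (E 2)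
    fun v ⟨⟨⟨⟨⟨⟨⟨_, h0⟩, h1⟩, h2⟩, h3⟩, h4⟩, h5⟩, _⟩ =>
    ⟨rel2 c3 rfl (by norm_num) rfl (by
      simp only [r3, List.forall_mem_cons]; exact ⟨h4, h5, h0, h1, h2, h3, nil v⟩),
      rel2 d3 rfl (by norm_num) rfl (nil v)⟩
  have s8 := rank_step (U4 ⊓ LinearMap.ker (ev σ a0) ⊓ LinearMap.ker (ev σ a1) ⊓ LinearMap.ker (ev σ a2) ⊓
    LinearMap.ker (ev σ a3)) (ev σ a4) (E 2) fun v ⟨⟨⟨⟨⟨⟨⟨⟨_, h0⟩, h1⟩, h2⟩, h3⟩, h4⟩, h5⟩, _⟩, _⟩ =>
    ⟨rel2 c4 rfl (by norm_num) rfl (by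
      simp only [r4, List.forall_mem_cons]; exact ⟨h4, h5, h0, h1, h2, h3, nil v⟩),
      rel2 d4 rfl (by norm_num) rfl (nil v)⟩
  have s9 := rank_step (U4 ⊓ LinearMap.ker (ev σ a0) ⊓ LinearMap.ker (ev σ a1) ⊓ LinearMap.ker (ev σ a2) ⊓
    LinearMap.ker (ev σ a3) ⊓ LinearMap.ker (ev σ a4)) (ev σ a5) (E 5)
    fun v ⟨⟨⟨⟨⟨⟨⟨⟨⟨_, h0⟩, h1⟩, h2⟩, h3⟩, _⟩, _⟩, h6⟩, _⟩, _⟩ =>
    ⟨rel2 c5 rfl (by norm_num) rfl (by
      simp only [r5, List.forall_mem_cons]; exact ⟨h6, h0, h1, h2, h3, nil v⟩), rel2 d5 rfl (by norm_num) rfl (nil v)⟩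
  have s10 : U4 ⊓ LinearMap.ker (ev σ a0) ⊓ LinearMap.ker (ev σ a1) ⊓ LinearMap.ker (ev σ a2) ⊓
      LinearMap.ker (ev σ a3) ⊓ LinearMap.ker (ev σ a4) ⊓ LinearMap.ker (ev σ a5) = ⊥ := by
    rw [eq_bot_iff]
    rintro v ⟨⟨⟨⟨⟨⟨⟨⟨⟨⟨_, h0⟩, h1⟩, h2⟩, h3⟩, h4⟩, h5⟩, h6⟩, h7⟩, h8⟩, h9⟩
    have h := rel (σ := σ) c6 (v := v) (by
      simp only [r6, List.forall_mem_cons]; exact ⟨h4, h5, h6, h7, h8, h9, h0, h1, h2, h3, nil v⟩)
    rw [show dcd 1 14653 = a6 from rfl] at h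
    simpa [ev, a6, F_eq σ (g := 1332) 1 (by decide)] using h
  rw [s10, finrank_bot] at s9
  have hne : ∀ a b : ℕ, a < 11 → b < 11 → a ≠ b → (a : K) ≠ b := fun a b ha hb hab e =>
    hab (CharP.natCast_injOn_Iio K 11 ha hb e)
  have hi := End.eigenspaces_iSupIndep (σ t)
  have d1 : E 7 ⊓ E 5 = ⊥ := disjoint_iff.1
    ((hi.pairwiseDisjoint (hne 7 5 (by norm_num) (by norm_num) (by norm_num))).mono inf_le_right inf_le_right)
  have d2 : (E 7 ⊔ E 5) ⊓ E 2 = ⊥ := disjoint_iff.1 ((hi ((2 : ℕ) : K)).symm.mono (sup_le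
    (inf_le_right.trans (le_iSup₂_of_le ((7 : ℕ) : K) (hne 7 2 (by norm_num) (by norm_num) (by norm_num)) le_rfl))
    (inf_le_right.trans (le_iSup₂_of_le ((5 : ℕ) : K) (hne 5 2 (by norm_num) (by norm_num) (by norm_num)) le_rfl))) inf_le_right)
  have e1 := Submodule.finrank_sup_add_finrank_inf_eq (E 7) (E 5)
  have e2 := Submodule.finrank_sup_add_finrank_inf_eq (E 7 ⊔ E 5) (E 2)
  rw [d1, finrank_bot] at e1
  rw [d2, finrank_bot] at e2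
  have e3 : finrank K (E 7 ⊔ E 5 ⊔ E 2 : Submodule K W) ≤ finrank K (End.eigenspace (σ u) ((1 : ℕ) : K)) :=
    Submodule.finrank_mono (sup_le (sup_le inf_le_left inf_le_left) inf_le_left)
  have b0 := hb x0 fun e => (by decide : mat 7969 ≠ 1) (congrArg Subtype.val e)
  have b1 := hb x1 fun e => (by decide : mat 582 ≠ 1) (congrArg Subtype.val e)
  have b2 := hb x2 fun e => (by decide : mat 5232 ≠ 1) (congrArg Subtype.val e)
  have b3 := hb x3 fun e => (by decide : mat 7562 ≠ 1) (congrArg Subtype.val e)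
  have b4 := hb u fun e => (by decide : mat 1343 ≠ 1) (congrArg Subtype.val e)
  rw [finrank_top] at s0
  unfold ed at b0 b1 b2 b3 b4
  rw [Nat.cast_one] at s0 s1 s2 s3 e3
  change _ ≤ finrank K U4 + _ at s3
  omega

end CL.Fix6
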