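/-
Project FIX6, step DEV: reduction to simple modules.
-/
import Cfsg.Agent.Fix6.Defs
import Cfsg.Agent.Perm.Module

set_option autoImplicit false
open Module Subgroup

namespace CL.Fix6

universe u u' v w

section

variable {K : Type*} [Field K] {G : Type*} [Group G] {V : Type*} [AddCommGroup V] [Module K V]

theorem mem_ed {T : End K V} {l : K} {x : V} : x ∈ End.eigenspace T l ↔ T x = l • x := End.mem_eigenspace_iff

theorem pow_eig {T : End K V} {l : K} {x : V} (h : T x = l • x) (n : ℕ) : (T ^ n) x = l ^ n • x := by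
  induction n with
  | zero => simp
  | succ n ih => rw [pow_succ, End.mul_apply, h, map_smul, ih, smul_smul, pow_succ, mul_comm]

theorem ed_add [FiniteDimensional K V] (ρ : Representation K G V) (U : Submodule K V) (hU : ∀ g, U ≤ U.comap (ρ g))
    {g : G} {m : ℕ} (hm : (m : K) ≠ 0) (hg : g ^ m = 1) (l : K) :
    ed ρ g l = ed (ρ.subrepresentation U hU) g l + ed (ρ.quotient U hU) g l := by
  have h := LinearMap.finrank_range_add_finrank_ker (U.mkQ.domRestrict (End.eigenspace (ρ g) l))
  have e1 : LinearMap.range (U.mkQ.domRestrict (End.eigenspace (ρ g) l)) = End.eigenspace (ρ.quotient U hU g) l := by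
    have hq : ∀ x : V, ρ.quotient U hU g (U.mkQ x) = U.mkQ (ρ g x) := fun x => rfl
    rw [LinearMap.range_domRestrict]
    refine le_antisymm ?_ fun y hy => ?_
    · rintro _ ⟨x, hx, rfl⟩
      rw [mem_ed, hq, mem_ed.1 hx, map_smul]
    · obtain ⟨x, rfl⟩ := U.mkQ_surjective y
      have hp : ∀ j, U.mkQ (ρ (g ^ j) x) = l ^ j • U.mkQ x := fun j => by
        rw [← pow_eig (mem_ed.1 hy) j, ← map_pow]; rfl
      by_cases hl : l ^ m = 1
      · have hl0 : l ≠ 0 := fun e => by
          rw [e, zero_pow (by rintro rfl; simp at hm)] at hl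
          exact zero_ne_one hl
        refine ⟨(m : K)⁻¹ • ∑ j ∈ Finset.range m, l⁻¹ ^ j • ρ (g ^ j) x, ?_, ?_⟩
        · have e := (Finset.sum_range_succ (fun j => l⁻¹ ^ j • ρ (g ^ j) x) m).symm.trans
            (Finset.sum_range_succ' (fun j => l⁻¹ ^ j • ρ (g ^ j) x) m)
          rw [hg, inv_pow, hl, inv_one, pow_zero, pow_zero, add_left_inj] at e
          rw [SetLike.mem_coe, mem_ed, map_smul, smul_comm, map_sum]
          congr 1
          conv_rhs => rw [e, Finset.smul_sum]
          refine Finset.sum_congr rfl fun j _ => ?_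
          rw [map_smul, smul_smul, pow_succ', mul_inv_cancel_left₀ hl0, pow_succ', map_mul, End.mul_apply]
        · simp only [map_smul, map_sum, hp, smul_smul, ← mul_pow, inv_mul_cancel₀ hl0, one_pow, one_smul,
            Finset.sum_const, Finset.card_range]
          rw [← Nat.cast_smul_eq_nsmul K, smul_smul, inv_mul_cancel₀ hm, one_smul]
      · have e := hp m
        rw [hg, map_one, End.one_apply, ← sub_eq_zero] at e
        have e' : (1 - l ^ m) • U.mkQ x = 0 := by rw [sub_smul, one_smul, e]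
        rw [(smul_eq_zero.1 e').resolve_left (sub_ne_zero.2 (Ne.symm hl))]
        exact zero_mem _
  have e2 : End.eigenspace (ρ.subrepresentation U hU g) l = (End.eigenspace (ρ g) l).comap U.subtype := by
    ext x
    rw [Submodule.mem_comap, mem_ed, mem_ed, Subtype.ext_iff]; rfl
  rw [e1, LinearMap.ker_domRestrict, Submodule.ker_mkQ, ← Submodule.finrank_map_subtype_eq,
    Submodule.map_comap_subtype] at h
  rw [ed, ed, ed, e2, ← h, add_comm, ← Submodule.finrank_map_subtype_eq U, Submodule.map_comap_subtype, inf_comm]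

/-- A normal subgroup of characteristic power order acts trivially on a simple module. -/
theorem triv_of_simp [Finite G] [FiniteDimensional K V] (ρ : Representation K G V) (h : Simp ρ) (N : Subgroup G)
    [N.Normal] (hN : ∀ n ∈ N, ∃ k, n ^ ringExpChar K ^ k = 1) : ∀ n ∈ N, ρ n = 1 := by
  obtain ⟨q, hq⟩ := ExpChar.exists K
  rw [ringExpChar.eq K q] at hN
  rcases hq with _ | hp
  · intro n hn
    obtain ⟨k, e⟩ := hN n hn
    rw [one_pow, pow_one] at e
    rw [e, map_one]
  have : Fact q.Prime := ⟨hp⟩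
  have hP : IsPGroup q N := fun n => by
    obtain ⟨k, e⟩ := hN n n.2
    exact ⟨k, Subtype.ext e⟩
  have := h.1
  obtain ⟨x, -, hx, hf⟩ := CL.Perm.exists_ne_zero_fixed_of_isPGroup hP (ρ.comp N.subtype) ⊤ (fun _ _ _ => trivial)
    top_ne_bot
  let U : Submodule K V := ⨅ n : N, End.eigenspace (ρ n) 1
  have hm : ∀ y, y ∈ U ↔ ∀ n ∈ N, ρ n y = y := fun y => by
    simp only [U, Submodule.mem_iInf, mem_ed, one_smul, Subtype.forall]
  rcases h.2 U (fun g y hy => (hm _).2 fun n hn => by
    have e : n * g = g * (g⁻¹ * n * g⁻¹⁻¹) := by group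
    rw [← End.mul_apply, ← map_mul, e, map_mul, End.mul_apply,
      (hm y).1 hy _ (Normal.conj_mem inferInstance n hn g⁻¹)]) with e | e
  · exact absurd (e ▸ (hm x).2 fun n hn => hf ⟨n, hn⟩ : x ∈ (⊥ : Submodule K V)) hx
  · exact fun n hn => LinearMap.ext fun y => (hm y).1 (e ▸ trivial) n hn

end

theorem dev : Dev.{u, u', v, w} := by
  intro G Γ _ _ _ π hπ K _ hN ι _ c g l c₀ hg hs V _ _ _ ρ
  induction hn : finrank K V using Nat.strong_induction_on generalizing V with
  | _ n ih =>
  subst hn
  rcases subsingleton_or_nontrivial V with h0 | h0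
  · have e : ∀ i, ed ρ (g i) (l i) = 0 := fun i => finrank_zero_of_subsingleton
    simp [e, finrank_zero_of_subsingleton]
  by_cases h : Simp ρ
  · have ht := triv_of_simp ρ h π.ker hN
    have hk : π.ker ≤ (MonoidHom.toHomUnits ρ).ker := fun n hn => Units.ext (ht n hn)
    let σ : Representation K Γ V := (Units.coeHom _).comp (π.liftOfSurjective hπ ⟨MonoidHom.toHomUnits ρ, hk⟩)
    have hσ : ∀ x, σ (π x) = ρ x := fun x => by
      simp only [σ, MonoidHom.comp_apply, MonoidHom.liftOfSurjective, MonoidHom.liftOfRightInverse_comp_apply]; rfl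
    have := hs V σ ⟨h0, fun U hU => h.2 U fun x y hy => hσ x ▸ hU (π x) y hy⟩
    have e : ∀ i, ed σ (π (g i)) (l i) = ed ρ (g i) (l i) := fun i => by unfold ed; rw [hσ]
    simpa only [e] using this
  · obtain ⟨U, hU, h1, h2⟩ : ∃ U : Submodule K V, (∀ g, ∀ x ∈ U, ρ g x ∈ U) ∧ U ≠ ⊥ ∧ U ≠ ⊤ := by
      by_contra hc
      exact h ⟨h0, fun U hU => by by_contra h'; exact hc ⟨U, hU, not_or.1 h'⟩⟩
    have hU' : ∀ g, U ≤ U.comap (ρ g) := hU
    have e := U.finrank_quotient_add_finrank
    have p1 : 0 < finrank K U := Nat.pos_of_ne_zero fun e => h1 (Submodule.finrank_eq_zero.1 e)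
    have p2 := Submodule.finrank_lt h2
    have i1 := ih _ p2 U (ρ.subrepresentation U hU') rfl
    have i2 := ih _ (show finrank K (V ⧸ U) < finrank K V by omega) (V ⧸ U) (ρ.quotient U hU') rfl
    have e2 : ∑ i, c i * ed ρ (g i) (l i) = ∑ i, c i * ed (ρ.subrepresentation U hU') (g i) (l i) +
        ∑ i, c i * ed (ρ.quotient U hU') (g i) (l i) := by
      rw [← Finset.sum_add_distrib]
      refine Finset.sum_congr rfl fun i _ => ?_
      obtain ⟨m, hm, hm'⟩ := hg i
      rw [ed_add ρ U hU' hm hm']; push_cast; ring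
    rw [e2, ← e]; push_cast; linarith

end CL.Fix6
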