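/-
Project FIX6, step C11, part 1: checking identities in the group algebra of `SL₂(11)`.
-/
import Cfsg.Agent.Fix6.Dev

set_option autoImplicit false
open Module

namespace CL.Fix6.C

/-- Evaluate `n` first. -/
noncomputable def frc {α : Type} (n : ℕ) (f : ℕ → α) : α :=
  Nat.rec (motive := fun _ => α) (f (nat_lit 0)) (fun k _ => f k) (Nat.add n (nat_lit 1))

theorem frc_eq {α : Type} (n : ℕ) (f : ℕ → α) : frc n f = f n := rfl

/-- the product of coded matrices -/
def qm (g h : ℕ) : ℕ :=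
  (g % 11 * (h % 11) + g / 11 % 11 * (h / 121 % 11)) % 11 +
    11 * ((g % 11 * (h / 11 % 11) + g / 11 % 11 * (h / 1331 % 11)) % 11) +
    121 * ((g / 121 % 11 * (h % 11) + g / 1331 % 11 * (h / 121 % 11)) % 11) +
    1331 * ((g / 121 % 11 * (h / 11 % 11) + g / 1331 % 11 * (h / 1331 % 11)) % 11)

/-- the coded matrix -/
def mat (g : ℕ) : Matrix (Fin 2) (Fin 2) (ZMod 11) :=
  !![(g % 11 : ℕ), (g / 11 % 11 : ℕ); (g / 121 % 11 : ℕ), (g / 1331 % 11 : ℕ)]

/-- the determinant -/
def dt (g : ℕ) : ℕ := (g % 11 * (g / 1331 % 11) + 10 * (g / 11 % 11 * (g / 121 % 11))) % 11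

/-- a short index -/
def idx (g : ℕ) : ℕ := if g % 11 = 0 then g % 121 + 121 * (g / 1331 % 11) else g % 1331

/-- the inverse of `idx` -/
def dec (i : ℕ) : ℕ :=
  if i % 11 = 0 then i % 121 + 121 * ((11 - (i / 11 % 11) ^ 9 % 11) % 11) + 1331 * (i / 121)
  else i + 1331 * ((1 + i / 11 % 11 * (i / 121)) * (i % 11) ^ 9 % 11)

theorem idx_lt (g : ℕ) : idx g < 1331 := by unfold idx; split_ifs <;> omega

theorem dec_idx : ∀ a < 11, ∀ b < 11, ∀ c < 11, ∀ d < 11, dt (a + 11 * b + 121 * c + 1331 * d) = 1 →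
    dec (idx (a + 11 * b + 121 * c + 1331 * d)) = a + 11 * b + 121 * c + 1331 * d := by decide +kernel

theorem det_iff (g : ℕ) : (mat g).det = 1 ↔ dt g = 1 := by
  have h := ZMod.natCast_eq_natCast_iff' (g % 11 * (g / 1331 % 11) + 10 * (g / 11 % 11 * (g / 121 % 11))) 1 11
  rw [dt, ← show 1 % 11 = 1 from rfl, ← h, mat, Matrix.det_fin_two_of]
  push_cast
  rw [show (10 : ZMod 11) = -1 from rfl, neg_one_mul, sub_eq_add_neg]

theorem mat_qm (g h : ℕ) : mat (qm g h) = mat g * mat h := by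
  have e : ∀ a b c d : ℕ, a < 11 → b < 11 → c < 11 → d < 11 →
      mat (a + 11 * b + 121 * c + 1331 * d) = !![(a : ZMod 11), b; c, d] := fun a b c d ha hb hc hd => by
    rw [mat, show (a + 11 * b + 121 * c + 1331 * d) % 11 = a by omega,
      show (a + 11 * b + 121 * c + 1331 * d) / 11 % 11 = b by omega,
      show (a + 11 * b + 121 * c + 1331 * d) / 121 % 11 = c by omega,
      show (a + 11 * b + 121 * c + 1331 * d) / 1331 % 11 = d by omega]
  rw [qm, e _ _ _ _ (Nat.mod_lt _ (by norm_num)) (Nat.mod_lt _ (by norm_num)) (Nat.mod_lt _ (by norm_num))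
    (Nat.mod_lt _ (by norm_num)), mat, mat, Matrix.mul_fin_two]
  simp only [ZMod.natCast_mod, Nat.cast_add, Nat.cast_mul]

/-- add `c h l` -/
noncomputable def addL (c h : ℕ) (l : List (ℕ × ℕ)) : ℕ → ℕ :=
  List.rec (motive := fun _ => ℕ → ℕ) (fun n => n)
    (fun p _ ih n => frc (qm h p.2) fun g =>
      frc (Nat.add (Nat.add n (Nat.shiftLeft (c * p.1 % 11) (16 * idx g))) 1) ih) l

/-- add the product of the packed sum `d` with `l` -/
noncomputable def mulAdd (l : List (ℕ × ℕ)) (fuel : ℕ) : ℕ → ℕ → ℕ :=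
  Nat.rec (motive := fun _ => ℕ → ℕ → ℕ) (fun _ n => n)
    (fun _ ih d n => frc (d % 262144 / 11) fun h => frc (if dt h = 1 then d % 262144 % 11 else 0) fun c =>
      frc (d / 262144) fun d' => frc (addL c h l n) fun n' => ih d' n') fuel

/-- all digits are divisible by 11 -/
noncomputable def allz (fuel : ℕ) : ℕ → Bool :=
  Nat.rec (motive := fun _ => ℕ → Bool) (fun _ => true)
    (fun _ ih n => Bool.rec false (frc (n / 65536) ih) (Nat.beq (n % 65536 % 11) 0)) fuel

/-- the packed sum -/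
def dcd : ℕ → ℕ → List (ℕ × ℕ)
  | 0, _ => []
  | n + 1, d => (d % 262144 % 11, d % 262144 / 11) :: dcd n (d / 262144)

theorem sum_succ (N : ℕ) (f : ℕ → ℕ) :
    f 0 + 65536 * ∑ i ∈ Finset.range N, f (i + 1) * 65536 ^ i = ∑ i ∈ Finset.range (N + 1), f i * 65536 ^ i := by
  rw [Finset.sum_range_succ', Finset.mul_sum, pow_zero, mul_one, add_comm]
  congr 1
  exact Finset.sum_congr rfl fun i _ => by ring

theorem allz_spec : ∀ (N : ℕ) (f : ℕ → ℕ), (∀ i, f i < 65536) → allz N (∑ i ∈ Finset.range N, f i * 65536 ^ i) = true →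
    ∀ i < N, 11 ∣ f i
  | 0, _, _, _, _, h => absurd h (Nat.not_lt_zero _)
  | N + 1, f, hf, h, i, hi => by
    rw [← sum_succ] at h
    change Bool.rec false (allz N (_ / 65536)) (Nat.beq (_ % 65536 % 11) 0) = true at h
    have h0 := hf 0
    rw [Nat.add_mul_mod_self_left, Nat.add_mul_div_left _ _ (by norm_num), Nat.mod_eq_of_lt h0, Nat.div_eq_of_lt h0,
      zero_add] at h
    cases hb : Nat.beq (f 0 % 11) 0 with
    | false => rw [hb] at h; exact absurd h (by simp)
    | true =>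
      rw [hb] at h
      cases i with
      | zero => exact Nat.dvd_of_mod_eq_zero (Nat.eq_of_beq_eq_true hb)
      | succ i => exact allz_spec N (fun i => f (i + 1)) (fun i => hf _) h i (by omega)

variable {K : Type*} [Field K] [CharP K 11] {W : Type*} [AddCommGroup W] [Module K W]
  (σ : Representation K (SL 11) W)

/-- the operator of a coded matrix -/
noncomputable def F (g : ℕ) : End K W := if h : (mat g).det = 1 then σ ⟨mat g, h⟩ else 0

/-- the operator of a formal sum -/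
noncomputable def ev (l : List (ℕ × ℕ)) : End K W := (l.map fun p => p.1 • F σ p.2).sum

omit [CharP K 11] in
theorem F_eq {g : ℕ} (x : SL 11) (h : mat g = x.1) : F σ g = σ x := by
  rw [F, dif_pos (h ▸ x.2)]
  congr 1
  exact Subtype.ext h

omit [CharP K 11] in
theorem F_qm (g : ℕ) {h : ℕ} (hh : (mat h).det = 1) : F σ (qm g h) = F σ g * F σ h := by
  by_cases hg : (mat g).det = 1
  · let x : SL 11 := ⟨mat g, hg⟩
    let y : SL 11 := ⟨mat h, hh⟩
    rw [F_eq σ (x * y) (mat_qm g h), map_mul, F_eq σ x rfl, F_eq σ y rfl]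
  · rw [F, dif_neg (by rwa [mat_qm, Matrix.det_mul, hh, mul_one]), F, dif_neg hg, zero_mul]

theorem smul_mod (c : ℕ) (x : End K W) : (c % 11) • x = c • x := by
  conv_rhs => rw [← Nat.mod_add_div c 11, add_smul, mul_smul, ← Nat.cast_smul_eq_nsmul K 11, CharP.cast_eq_zero,
    zero_smul, add_zero]

/-- `n` is a packed form of `x` with digits at most `t` -/
def Rp (N n t : ℕ) (x : End K W) : Prop :=
  ∃ f : ℕ → ℕ, n = ∑ i ∈ Finset.range N, f i * 65536 ^ i ∧ (∀ i, f i ≤ t) ∧
    x = ∑ i ∈ Finset.range N, f i • F σ (dec i)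

omit [CharP K 11] in
theorem F_zero : F σ (dec 0) = 0 := dif_neg (by rw [det_iff]; decide)

variable {σ} {N : ℕ}

omit [CharP K 11] in
theorem Rp.zero : Rp σ N 0 0 0 := ⟨fun _ => 0, by simp, fun _ => le_rfl, by simp⟩

omit [CharP K 11] in
theorem Rp.add {n t : ℕ} {x : End K W} (h : Rp σ N n t x) {c i : ℕ} (hi : i < N) :
    Rp σ N (n + c * 65536 ^ i) (t + c) (x + c • F σ (dec i)) := by
  obtain ⟨f, h1, h2, h3⟩ := h
  refine ⟨fun j => f j + if j = i then c else 0, ?_, fun j => ?_, ?_⟩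
  · simp only [add_mul, Finset.sum_add_distrib, ite_mul, zero_mul, Finset.sum_ite_eq', Finset.mem_range, hi, if_true]
    rw [← h1]
  · have := h2 j
    dsimp only
    split_ifs <;> omega
  · simp only [add_smul, Finset.sum_add_distrib, ite_smul, zero_smul, Finset.sum_ite_eq', Finset.mem_range, hi, if_true]
    rw [← h3]

omit [CharP K 11] in
theorem Rp.mono {n t t' : ℕ} {x : End K W} (h : Rp σ N n t x) (ht : t ≤ t') : Rp σ N n t' x := by
  obtain ⟨f, h1, h2, h3⟩ := h
  exact ⟨f, h1, fun i => (h2 i).trans ht, h3⟩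

theorem Rp.addL (hN : 1331 ≤ N) {c h : ℕ} (hc : c = 0 ∨ dt h = 1) : ∀ (l : List (ℕ × ℕ)), (∀ p ∈ l, dt p.2 = 1) →
    ∀ {n t : ℕ} {x : End K W}, Rp σ N n t x → Rp σ N (addL c h l n) (t + 11 * l.length) (x + c • F σ h * ev σ l)
  | [], _, n, _, _, hx => by
    change Rp σ N n _ _
    simpa [ev] using hx
  | p :: l, hl, n, t, x, hx => by
    have h0 := ((hx.add (c := c * p.1 % 11) ((idx_lt (qm h p.2)).trans_le hN)).add (c := 1) (i := 0) (by omega)).mono
      (t' := t + 11) (by omega)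
    have hp := (det_iff _).2 (hl p List.mem_cons_self)
    have e0 : (c * p.1 % 11) • F σ (dec (idx (qm h p.2))) = (c * p.1) • (F σ h * F σ p.2) := by
      rcases hc with rfl | hc
      · simp
      · have hd : dt (qm h p.2) = 1 := by rw [← det_iff, mat_qm, Matrix.det_mul, hp, (det_iff _).2 hc, mul_one]
        rw [smul_mod, ← F_qm σ h hp]
        congr 2
        exact dec_idx _ (Nat.mod_lt _ (by norm_num)) _ (Nat.mod_lt _ (by norm_num)) _ (Nat.mod_lt _ (by norm_num)) _
          (Nat.mod_lt _ (by norm_num)) hd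
    rw [e0, F_zero, smul_zero, add_zero, pow_zero, mul_one, show 65536 = 2 ^ 16 from rfl, ← pow_mul,
      ← Nat.shiftLeft_eq] at h0
    have h1 := Rp.addL hN hc l (fun q hq => hl q (List.mem_cons_of_mem _ hq)) h0
    have e1 : t + 11 * (p :: l).length = t + 11 + 11 * l.length := by rw [List.length_cons]; ring
    have e2 : x + c • F σ h * ev σ (p :: l) = x + (c * p.1) • (F σ h * F σ p.2) + c • F σ h * ev σ l := by
      simp only [ev, List.map_cons, List.sum_cons, mul_add, smul_mul_smul_comm, add_assoc]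
    rw [e1, e2]
    exact h1

theorem Rp.mulAdd (hN : 1331 ≤ N) (l : List (ℕ × ℕ)) (hl : ∀ p ∈ l, dt p.2 = 1) :
    ∀ (fuel d : ℕ) {n t : ℕ} {x : End K W},
    Rp σ N n t x → Rp σ N (mulAdd l fuel d n) (t + 11 * l.length * fuel) (x + ev σ (dcd fuel d) * ev σ l)
  | 0, _, n, _, _, hx => by
    change Rp σ N n _ _
    simpa [ev, dcd] using hx
  | fuel + 1, d, n, t, x, hx => by
    have h1 := Rp.mulAdd hN l hl fuel (d / 262144) (hx.addL hN
      (c := if dt (d % 262144 / 11) = 1 then d % 262144 % 11 else 0) (h := d % 262144 / 11)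
      (by split_ifs with h <;> simp [h]) l hl)
    have e0 : (if dt (d % 262144 / 11) = 1 then d % 262144 % 11 else 0) • F σ (d % 262144 / 11) =
        (d % 262144 % 11) • F σ (d % 262144 / 11) := by
      split_ifs with h
      · rfl
      · rw [F, dif_neg (by rwa [det_iff]), smul_zero, smul_zero]
    have e1 : t + 11 * l.length * (fuel + 1) = t + 11 * l.length + 11 * l.length * fuel := by ring
    have e2 : x + ev σ (dcd (fuel + 1) d) * ev σ l = x + (d % 262144 % 11) • F σ (d % 262144 / 11) * ev σ l +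
        ev σ (dcd fuel (d / 262144)) * ev σ l := by
      simp only [ev, dcd, List.map_cons, List.sum_cons, add_mul, add_assoc]
    rw [e1, e2, ← e0]
    exact h1

theorem Rp.eq_zero {n t : ℕ} {x : End K W} (h : Rp σ (N + 1) n t x) (ht : t < 65536)
    (hz : allz N (n / 65536) = true) : x = 0 := by
  obtain ⟨f, rfl, h2, rfl⟩ := h
  have e : (∑ i ∈ Finset.range (N + 1), f i * 65536 ^ i) / 65536 = ∑ i ∈ Finset.range N, f (i + 1) * 65536 ^ i := by
    rw [← sum_succ, Nat.add_mul_div_left _ _ (by norm_num), Nat.div_eq_of_lt ((h2 0).trans_lt ht), zero_add]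
  rw [e] at hz
  rw [Finset.sum_range_succ', F_zero, smul_zero, add_zero]
  refine Finset.sum_eq_zero fun i hi => ?_
  rw [← smul_mod, Nat.mod_eq_zero_of_dvd (allz_spec _ (fun i => f (i + 1)) (fun j => (h2 _).trans_lt ht) hz i
    (Finset.mem_range.1 hi)), zero_smul]

/-- a sum of products -/
noncomputable def tot (r : List (List (ℕ × ℕ) × ℕ × ℕ)) : ℕ :=
  List.rec (motive := fun _ => ℕ) 0 (fun p _ ih => frc ih (mulAdd p.1 p.2.1 p.2.2)) r

theorem rp_tot (hN : 1331 ≤ N) : ∀ r : List (List (ℕ × ℕ) × ℕ × ℕ), (∀ p ∈ r, ∀ q ∈ p.1, dt q.2 = 1) →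
    Rp σ N (tot r) (r.map fun p => 11 * p.1.length * p.2.1).sum (r.map fun p => ev σ (dcd p.2.1 p.2.2) * ev σ p.1).sum
  | [], _ => Rp.zero
  | p :: r, h => by
    have h1 := (rp_tot hN r fun q hq => h q (List.mem_cons_of_mem _ hq)).mulAdd hN p.1 (h p List.mem_cons_self)
      p.2.1 p.2.2
    rw [List.map_cons, List.map_cons, List.sum_cons, List.sum_cons, add_comm, add_comm (_ * _)]
    exact h1

/-- The check. -/
def Chk (r : List (List (ℕ × ℕ) × ℕ × ℕ)) : Prop :=
  (∀ s ∈ r, ∀ q ∈ s.1, dt q.2 = 1) ∧ (r.map fun s => 11 * s.1.length * s.2.1).sum < 65536 ∧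
    allz 1330 (tot r / 65536) = true

noncomputable instance (r : List (List (ℕ × ℕ) × ℕ × ℕ)) : Decidable (Chk r) := by unfold Chk; infer_instance

theorem rel {p : List (ℕ × ℕ) × ℕ × ℕ} {r : List (List (ℕ × ℕ) × ℕ × ℕ)} (hc : Chk (p :: r)) {v : W}
    (hv : ∀ q ∈ r, ev σ q.1 v = 0) : ev σ (dcd p.2.1 p.2.2) (ev σ p.1 v) = 0 := by
  have h := congrArg (· v) ((rp_tot (σ := σ) (N := 1330 + 1) le_rfl _ hc.1).eq_zero hc.2.1 hc.2.2)
  have e : (r.map fun p => ev σ (dcd p.2.1 p.2.2) * ev σ p.1).sum v = 0 := by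
    clear h hc
    induction r with
    | nil => rfl
    | cons q r ih =>
      rw [List.map_cons, List.sum_cons, LinearMap.add_apply, End.mul_apply, hv q List.mem_cons_self, map_zero,
        ih fun q hq => hv q (List.mem_cons_of_mem _ hq), add_zero]
  simpa only [List.map_cons, List.sum_cons, LinearMap.add_apply, End.mul_apply, e, add_zero, LinearMap.zero_apply]
    using h

end CL.Fix6.C
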