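/-
Project FIX6, step CG: simple modules of `GL₂(p)` in cross characteristic.
-/
import Cfsg.Agent.Fix6.Defs

set_option autoImplicit false
open Module Subgroup Polynomial

namespace CL.Fix6

universe v w

namespace CG

section Lin

variable {K : Type*} [Field K] {W : Type*} [AddCommGroup W] [Module K W] [FiniteDimensional K W]

theorem ker_mul_le (f g : End K W) :
    finrank K (LinearMap.ker (f * g)) ≤ finrank K (LinearMap.ker f) + finrank K (LinearMap.ker g) := by
  have h1 := LinearMap.finrank_range_add_finrank_ker (g.domRestrict (LinearMap.ker (f * g)))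
  have h2 : finrank K (LinearMap.range (g.domRestrict (LinearMap.ker (f * g)))) ≤ finrank K (LinearMap.ker f) := by
    apply Submodule.finrank_mono
    rintro _ ⟨⟨x, hx⟩, rfl⟩
    simpa using hx
  have h3 : finrank K (LinearMap.ker (g.domRestrict (LinearMap.ker (f * g)))) ≤ finrank K (LinearMap.ker g) := by
    rw [← Submodule.finrank_map_subtype_eq]
    apply Submodule.finrank_mono
    rintro _ ⟨⟨x, hx⟩, hx', rfl⟩
    simpa using hx'
  omega

omit [FiniteDimensional K W] in
theorem eig_eq (f : End K W) (a : K) : f.eigenspace a = LinearMap.ker (f - algebraMap K (End K W) a) := by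
  ext x
  simp [sub_eq_zero, Module.algebraMap_end_apply]

theorem ker_aeval_le [IsAlgClosed K] (f : End K W) (hf : ∀ l, finrank K (f.eigenspace l) ≤ 1) (n : ℕ) :
    ∀ P : K[X], P ≠ 0 → P.natDegree = n → finrank K (LinearMap.ker (aeval f P)) ≤ n := by
  induction n with
  | zero =>
    intro P hP hd
    rw [natDegree_eq_zero] at hd
    obtain ⟨c, rfl⟩ := hd
    have hc : c ≠ 0 := fun h => hP (by simp [h])
    have : LinearMap.ker (aeval f (C c)) = ⊥ := by
      rw [eq_bot_iff]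
      intro x hx
      simpa [Module.algebraMap_end_apply, hc] using hx
    rw [this]; simp
  | succ n ih =>
    intro P hP hd
    obtain ⟨a, ha⟩ := IsAlgClosed.exists_root P (by
      rw [degree_eq_natDegree hP, hd]; exact_mod_cast Nat.succ_ne_zero n)
    obtain ⟨Q, rfl⟩ := dvd_iff_isRoot.2 ha
    have hQ : Q ≠ 0 := right_ne_zero_of_mul hP
    rw [natDegree_mul (X_sub_C_ne_zero a) hQ, natDegree_X_sub_C] at hd
    have h1 := ih Q hQ (by omega)
    have h2 := ker_mul_le (aeval f (X - C a)) (aeval f Q)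
    have h3 := hf a
    rw [eig_eq] at h3
    rw [map_mul]
    have h4 : aeval f (X - C a) = f - algebraMap K (End K W) a := by simp
    rw [h4] at h2 ⊢
    omega

/-- a non-trivial eigenvalue of an element of order `p` -/
theorem exists_eig [IsAlgClosed K] (f : End K W) (p : ℕ) (hp : (p : K) ≠ 0) (hf : f ^ p = 1) (h1 : f ≠ 1) :
    ∃ (l : K) (x : W), l ≠ 1 ∧ l ^ p = 1 ∧ x ≠ 0 ∧ f x = l • x := by
  have hinv : ∀ x ∈ LinearMap.range (f - 1), f x ∈ LinearMap.range (f - 1) := by
    rintro _ ⟨y, rfl⟩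
    exact ⟨f y, by simp⟩
  have : Nontrivial (LinearMap.range (f - 1)) := by
    rw [Submodule.nontrivial_iff_ne_bot]
    intro h
    rw [LinearMap.range_eq_bot, sub_eq_zero] at h
    exact h1 h
  obtain ⟨l, hl⟩ := End.exists_eigenvalue (f.restrict hinv)
  obtain ⟨⟨x, y, rfl⟩, hx⟩ := hl.exists_hasEigenvector
  have hx0 : (f - 1) y ≠ 0 := fun h => hx.2 (Subtype.ext h)
  have hx1 : f ((f - 1) y) = l • (f - 1) y := congrArg Subtype.val hx.apply_eq_smul
  have hpow : ∀ k : ℕ, (f ^ k) ((f - 1) y) = l ^ k • (f - 1) y := by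
    intro k
    induction k with
    | zero => simp
    | succ k ih => rw [pow_succ', End.mul_apply, ih, map_smul, hx1, smul_smul, pow_succ]
  refine ⟨l, (f - 1) y, ?_, ?_, hx0, hx1⟩
  · rintro rfl
    have h2 : (∑ i ∈ Finset.range p, f ^ i) * (f - 1) = 0 := by rw [geom_sum_mul, hf, sub_self]
    have h3 := LinearMap.congr_fun h2 y
    rw [End.mul_apply, LinearMap.sum_apply] at h3
    simp only [hpow, one_pow, one_smul, Finset.sum_const, Finset.card_range, LinearMap.zero_apply] at h3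
    rw [← Nat.cast_smul_eq_nsmul K, smul_eq_zero] at h3
    exact h3.elim hp hx0
  · have h2 := hpow p
    rw [hf, End.one_apply] at h2
    have h3 : (l ^ p - 1) • (f - 1) y = 0 := by rw [sub_smul, one_smul, ← h2, sub_self]
    rw [smul_eq_zero] at h3
    exact sub_eq_zero.1 (h3.resolve_right hx0)

end Lin

section Grp

variable {p : ℕ} [Fact p.Prime]

/-- `GL₂(p)` -/
abbrev GG (p : ℕ) := GL (Fin 2) (ZMod p)

/-- the element of order three -/
def xx (p : ℕ) [Fact p.Prime] : GG p := Matrix.SpecialLinearGroup.toGL (xa 1)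

/-- the transvection -/
def ug (p : ℕ) [Fact p.Prime] : GG p := Matrix.SpecialLinearGroup.toGL (uu p)

theorem xx_val : ((xx p : GG p) : Matrix (Fin 2) (Fin 2) (ZMod p)) = !![0, -1; 1, -1] := by
  rw [xx, Matrix.SpecialLinearGroup.coe_GL_coe_matrix]; simp [xa]

theorem ug_val : ((ug p : GG p) : Matrix (Fin 2) (Fin 2) (ZMod p)) = !![1, 1; 0, 1] := by
  rw [ug, Matrix.SpecialLinearGroup.coe_GL_coe_matrix]; simp [uu]

theorem ug_pow (k : ℕ) : ((ug p ^ k : GG p) : Matrix (Fin 2) (Fin 2) (ZMod p)) = !![1, (k : ZMod p); 0, 1] := by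
  induction k with
  | zero => simp [Matrix.one_fin_two]
  | succ k ih => rw [pow_succ, Units.val_mul, ih, ug_val]; simp [add_comm]

theorem ug_pow_p : ug p ^ p = 1 := by
  ext : 1
  rw [ug_pow]; simp [Matrix.one_fin_two]

theorem xx_sq : ((xx p ^ 2 : GG p) : Matrix (Fin 2) (Fin 2) (ZMod p)) = !![-1, 1; -1, 0] := by
  rw [pow_two, Units.val_mul, xx_val]; simp

theorem xx_cube : xx p ^ 3 = 1 := by
  ext : 1
  rw [pow_succ, Units.val_mul, xx_sq, xx_val]; simp [Matrix.one_fin_two]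

/-- a matrix with non-zero determinant -/
noncomputable def mk2 (a b c d : ZMod p) (h : a * d - b * c ≠ 0) : GG p :=
  Matrix.GeneralLinearGroup.mkOfDetNeZero !![a, b; c, d] (by rwa [Matrix.det_fin_two_of])

theorem mk2_val (a b c d : ZMod p) (h : a * d - b * c ≠ 0) :
    ((mk2 a b c d h : GG p) : Matrix (Fin 2) (Fin 2) (ZMod p)) = !![a, b; c, d] := rfl

theorem det_ne (g : GG p) : g 0 0 * g 1 1 - g 0 1 * g 1 0 ≠ 0 := by
  have := g.det_ne_zero
  rwa [Matrix.det_fin_two] at this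

theorem norm_ne (h3 : p % 3 = 2) (a b : ZMod p) (h : a ^ 2 - a * b + b ^ 2 = 0) : a = 0 ∧ b = 0 := by
  by_cases hb : b = 0
  · subst hb
    exact ⟨by simpa using h, rfl⟩
  exfalso
  have h1 : (-a / b) ^ 2 + (-a / b) + 1 = 0 := by field_simp; linear_combination h
  set z := -a / b
  have h2 : z ^ 3 = 1 := by linear_combination (z - 1) * h1
  have hz : z ≠ 0 := by rintro h0; rw [h0] at h2; simp at h2
  have h4 : z ^ (p - 1) = 1 := ZMod.pow_card_sub_one_eq_one hz
  have hp2 := (Fact.out : p.Prime).two_le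
  have h5 : p - 1 = 3 * ((p - 1) / 3) + 1 := by omega
  rw [h5, pow_succ, pow_mul, h2, one_pow, one_mul] at h4
  rw [h4] at h1
  have h6 : ((3 : ℕ) : ZMod p) = 0 := by push_cast; linear_combination h1
  rw [ZMod.natCast_eq_zero_iff] at h6
  have := Nat.le_of_dvd (by norm_num) h6
  have h7 : p = 2 := by omega
  subst h7
  norm_num at h6

/-- the non-split torus -/
def TT (p : ℕ) [Fact p.Prime] : Subgroup (GG p) := centralizer {xx p}

theorem mem_TT (g : GG p) : g ∈ TT p ↔ g 0 1 = -g 1 0 ∧ g 1 1 = g 0 0 - g 1 0 := by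
  rw [TT, mem_centralizer_singleton_iff, Matrix.GeneralLinearGroup.ext_iff]
  simp only [Units.val_mul, xx_val, Fin.forall_fin_two, Matrix.mul_apply, Fin.sum_univ_two]
  simp
  constructor
  · rintro ⟨⟨h1, h2⟩, h3, h4⟩
    exact ⟨h1, by linear_combination h3⟩
  · rintro ⟨h1, h2⟩
    exact ⟨⟨h1, by linear_combination -h1 + h2⟩, by linear_combination h2, by linear_combination -h1⟩

theorem TT_cyclic (h3 : p % 3 = 2) : IsCyclic (TT p) := by
  obtain ⟨ω, hω⟩ : ∃ ω : AlgebraicClosure (ZMod p), ω ^ 2 + ω + 1 = 0 := by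
    obtain ⟨ω, hω⟩ := IsAlgClosed.exists_root (X ^ 2 + X + 1 : (AlgebraicClosure (ZMod p))[X]) (by
      have : (X ^ 2 + X + 1 : (AlgebraicClosure (ZMod p))[X]).degree = 2 := by compute_degree!
      rw [this]; norm_num)
    exact ⟨ω, by simpa using hω⟩
  let ι := algebraMap (ZMod p) (AlgebraicClosure (ZMod p))
  let f : TT p →* AlgebraicClosure (ZMod p) :=
    { toFun := fun g => ι (g.1 0 0) + ι (g.1 1 0) * ω
      map_one' := by simp
      map_mul' := fun g h => by
        obtain ⟨g1, g2⟩ := (mem_TT _).1 g.2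
        simp only [Subgroup.coe_mul, Units.val_mul, Matrix.mul_apply, Fin.sum_univ_two, g1, g2, map_add, map_mul,
          map_neg, map_sub]
        linear_combination -(ι (g.1 1 0) * ι (h.1 1 0)) * hω }
  refine isCyclic_of_injective_ringHom f fun g h hgh => ?_
  have h1 : ι (g.1 0 0) + ι (g.1 1 0) * ω = ι (h.1 0 0) + ι (h.1 1 0) * ω := hgh
  have h2 : ι ((g.1 0 0 - h.1 0 0) ^ 2 - (g.1 0 0 - h.1 0 0) * (g.1 1 0 - h.1 1 0) + (g.1 1 0 - h.1 1 0) ^ 2) = 0 := by
    simp only [map_add, map_sub, map_mul, map_pow]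
    linear_combination (ι (g.1 0 0) - ι (h.1 0 0) - (ι (g.1 1 0) - ι (h.1 1 0)) * (ω + 1)) * h1 +
      (ι (g.1 1 0) - ι (h.1 1 0)) ^ 2 * hω
  rw [map_eq_zero] at h2
  obtain ⟨h4, h5⟩ := norm_ne h3 _ _ h2
  obtain ⟨g1, g2⟩ := (mem_TT _).1 g.2
  obtain ⟨k1, k2⟩ := (mem_TT _).1 h.2
  rw [sub_eq_zero] at h4 h5
  apply Subtype.ext
  rw [Matrix.GeneralLinearGroup.ext_iff]
  simp only [Fin.forall_fin_two]
  exact ⟨⟨h4, by rw [g1, k1, h5]⟩, h5, by rw [g2, k2, h4, h5]⟩

theorem card_TT : Nat.card (TT p) + 1 ≤ p * p := by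
  classical
  let f : Option (TT p) → ZMod p × ZMod p := fun o => o.elim (0, 0) fun g => (g.1 0 0, g.1 1 0)
  have hne : ∀ g : TT p, (g.1 0 0, g.1 1 0) ≠ (0, 0) := by
    intro g h
    simp only [Prod.mk.injEq] at h
    apply det_ne g.1
    rw [h.1, h.2]; simp
  have hf : Function.Injective f := by
    rintro (_ | g) (_ | h) hgh
    · rfl
    · exact absurd hgh.symm (hne h)
    · exact absurd hgh (hne g)
    · simp only [f, Option.elim, Prod.mk.injEq] at hgh
      obtain ⟨h4, h5⟩ := hgh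
      obtain ⟨g1, g2⟩ := (mem_TT _).1 g.2
      obtain ⟨k1, k2⟩ := (mem_TT _).1 h.2
      congr 1
      apply Subtype.ext
      rw [Matrix.GeneralLinearGroup.ext_iff]
      simp only [Fin.forall_fin_two]
      exact ⟨⟨h4, by rw [g1, k1, h5]⟩, h5, by rw [g2, k2, h4, h5]⟩
  have := Nat.card_le_card_of_injective f hf
  rwa [Nat.card_prod, Nat.card_zmod, Finite.card_option] at this

/-- scalars -/
abbrev sc (c : (ZMod p)ˣ) : GG p := Matrix.GeneralLinearGroup.scalar (Fin 2) c

theorem sc_comm (c : (ZMod p)ˣ) (g : GG p) : Commute (sc c) g := Matrix.GeneralLinearGroup.scalar_commute c g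

/-- scalars times powers of `x` -/
def BB (p : ℕ) [Fact p.Prime] : Subgroup (TT p) where
  carrier := {g | ∃ (c : (ZMod p)ˣ) (i : ℕ), g.1 = sc c * xx p ^ i}
  one_mem' := ⟨1, 0, by simp⟩
  mul_mem' := by
    rintro g h ⟨c, i, hg⟩ ⟨d, j, hh⟩
    refine ⟨c * d, i + j, ?_⟩
    rw [Subgroup.coe_mul, hg, hh, sc, sc, sc, map_mul, pow_add, mul_assoc, mul_assoc, ← mul_assoc (xx p ^ i),
      ← (sc_comm d _).eq, mul_assoc]
  inv_mem' := by
    rintro g ⟨c, i, hg⟩
    refine ⟨c⁻¹, 2 * i, ?_⟩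
    rw [Subgroup.coe_inv, hg, inv_eq_iff_mul_eq_one, mul_assoc, ← mul_assoc (xx p ^ i), ← (sc_comm c⁻¹ _).eq,
      mul_assoc, ← pow_add, show i + 2 * i = 3 * i by ring, pow_mul, xx_cube, one_pow, mul_one, sc, sc, ← map_mul,
      mul_inv_cancel, map_one]

theorem card_BB : (p - 1) * 3 ≤ Nat.card (BB p) := by
  have hm : ∀ (c : (ZMod p)ˣ) (i : ℕ), sc c * xx p ^ i ∈ TT p := fun c i =>
    mul_mem (mem_centralizer_singleton_iff.2 (sc_comm c _).eq)
      (pow_mem (mem_centralizer_singleton_iff.2 rfl) i)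
  let f : (ZMod p)ˣ × Fin 3 → BB p := fun ci => ⟨⟨sc ci.1 * xx p ^ (ci.2 : ℕ), hm _ _⟩, ci.1, ci.2, rfl⟩
  have hf : Function.Injective f := by
    rintro ⟨c, i⟩ ⟨d, j⟩ h
    have h1 : sc c * xx p ^ (i : ℕ) = sc d * xx p ^ (j : ℕ) := congrArg (fun z => z.1.1) h
    rw [Matrix.GeneralLinearGroup.ext_iff] at h1
    have hc := c.ne_zero
    have hd := d.ne_zero
    fin_cases i <;> fin_cases j <;>
      simp only [Units.val_mul, pow_zero, pow_one, xx_val, xx_sq, Fin.forall_fin_two, Matrix.mul_apply,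
        Fin.sum_univ_two, Matrix.GeneralLinearGroup.coe_scalar] at h1 <;>
      simp_all [Units.ext_iff]
  have := Nat.card_le_card_of_injective f hf
  rwa [Nat.card_prod, Nat.card_units, Nat.card_zmod, Nat.card_fin] at this

theorem index_BB : 3 * (BB p).index ≤ p + 1 := by
  have h1 := (BB p).card_mul_index
  have h2 := card_TT (p := p)
  have h3 := card_BB (p := p)
  have hp2 := (Fact.out : p.Prime).two_le
  have h4 : (p - 1) * (3 * (BB p).index) ≤ Nat.card (TT p) := by
    rw [← h1, ← mul_assoc]; exact Nat.mul_le_mul_right _ h3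
  obtain ⟨q, rfl⟩ : ∃ q, p = q + 1 := ⟨p - 1, by omega⟩
  simp only [Nat.add_sub_cancel] at h4
  by_contra hc
  have : q * (q + 1 + 1 + 1) ≤ q * (3 * (BB (q + 1)).index) := Nat.mul_le_mul_left _ (by omega)
  nlinarith

/-- the anti-automorphism -/
noncomputable def st (g : GG p) : GG p :=
  mk2 (g 0 0) (-g 1 0) (-g 0 1) (g 1 1) (by have := det_ne g; intro h; apply this; linear_combination h)

theorem st_mul (g h : GG p) : st (g * h) = st h * st g := by
  rw [Matrix.GeneralLinearGroup.ext_iff]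
  simp only [st, Units.val_mul, mk2_val, Fin.forall_fin_two, Matrix.mul_apply, Fin.sum_univ_two]
  simp
  refine ⟨⟨?_, ?_⟩, ?_, ?_⟩ <;> ring

theorem st_st (g : GG p) : st (st g) = g := by
  rw [Matrix.GeneralLinearGroup.ext_iff]
  simp [st, mk2_val, Fin.forall_fin_two]

theorem st_conj (h3 : p % 3 = 2) (g : GG p) : ∃ s ∈ TT p, st g = s * g * s⁻¹ := by
  by_cases hb : g 0 1 + g 1 0 = 0
  · refine ⟨1, one_mem _, ?_⟩
    rw [one_mul, inv_one, mul_one, Matrix.GeneralLinearGroup.ext_iff]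
    simp only [st, mk2_val, Fin.forall_fin_two]
    simp
    exact ⟨by linear_combination -hb, by linear_combination -hb⟩
  · refine ⟨mk2 (g 1 1 - g 0 0 + g 1 0) (-(g 0 1 + g 1 0)) (g 0 1 + g 1 0)
      (g 1 1 - g 0 0 + g 1 0 - (g 0 1 + g 1 0)) fun h => hb (norm_ne h3 (g 1 1 - g 0 0 + g 1 0) _
        (by linear_combination h)).2, ?_, ?_⟩
    · rw [mem_TT]
      simp [mk2_val]
    · rw [eq_mul_inv_iff_mul_eq, Matrix.GeneralLinearGroup.ext_iff]
      simp only [st, Units.val_mul, mk2_val, Fin.forall_fin_two, Matrix.mul_apply, Fin.sum_univ_two]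
      simp
      refine ⟨⟨?_, ?_⟩, ?_, ?_⟩ <;> ring

variable {K : Type*} [Field K] {W : Type*} [AddCommGroup W] [Module K W] [FiniteDimensional K W]

omit [FiniteDimensional K W] in
theorem xx_of_ug (τ : Representation K (GG p) W) (h : τ (ug p) = 1) : τ (xx p) = 1 := by
  let s : GG p := mk2 0 1 1 0 (by simp)
  have h1 : ug p * xx p * ug p * ug p = s * ug p * s⁻¹ := by
    rw [eq_mul_inv_iff_mul_eq]
    ext : 1
    simp only [Units.val_mul, ug_val, xx_val, s, mk2_val]
    simp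
  have h2 := congrArg τ h1
  simp only [map_mul, h, one_mul, mul_one] at h2
  rw [h2, ← map_mul, mul_inv_cancel, map_one]

theorem dim_ge [IsAlgClosed K] (hp : (p : K) ≠ 0) (τ : Representation K (GG p) W) (h : τ (ug p) ≠ 1) :
    p - 1 ≤ finrank K W := by
  obtain ⟨l, x, hl1, hlp, hx0, hx⟩ := exists_eig (τ (ug p)) p hp (by rw [← map_pow, ug_pow_p, map_one]) h
  have hprim : IsPrimitiveRoot l p := by
    have := orderOf_eq_prime hlp hl1
    rw [← this]; exact IsPrimitiveRoot.orderOf l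
  have hpow : ∀ k : ℕ, τ (ug p ^ k) x = l ^ k • x := by
    intro k
    induction k with
    | zero => simp
    | succ k ih => rw [pow_succ', map_mul, End.mul_apply, ih, map_smul, hx, smul_smul, pow_succ]
  have hex : ∀ i : Fin (p - 1), ∃ y, End.HasEigenvector (τ (ug p)) (l ^ (i.1 + 1)) y := by
    intro i
    have hi : ((i.1 + 1 : ℕ) : ZMod p) ≠ 0 := by
      rw [Ne, ZMod.natCast_eq_zero_iff]
      intro hd
      have := Nat.le_of_dvd (by omega) hd
      have := i.2
      omega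
    let s : GG p := mk2 ((i.1 + 1 : ℕ) : ZMod p) 0 0 1 (by simpa using hi)
    have h1 : ug p * s⁻¹ = s⁻¹ * ug p ^ (i.1 + 1) := by
      rw [eq_inv_mul_iff_mul_eq, ← mul_assoc, mul_inv_eq_iff_eq_mul]
      ext : 1
      simp only [Units.val_mul, ug_pow, ug_val, s, mk2_val]
      simp
    refine ⟨τ s⁻¹ x, End.mem_eigenspace_iff.2 ?_, fun h0 => hx0 ?_⟩
    · rw [← End.mul_apply, ← map_mul, h1, map_mul, End.mul_apply, hpow, map_smul]
    · have := congrArg (τ s) h0
      rwa [← End.mul_apply, ← map_mul, mul_inv_cancel, map_one, map_zero, End.one_apply] at this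
  choose y hy using hex
  have hli := End.eigenvectors_linearIndependent' (τ (ug p)) (fun i : Fin (p - 1) => l ^ (i.1 + 1)) (by
    intro i j hij
    have := hprim.pow_inj (by have := i.2; omega) (by have := j.2; omega) hij
    exact Fin.ext (by omega)) y hy
  simpa using hli.fintype_card_le_finrank

theorem schur [IsAlgClosed K] (τ : Representation K (GG p) W) (hτ : Simp τ) (c : (ZMod p)ˣ) :
    ∃ μ : K, ∀ x, τ (sc c) x = μ • x := by
  have := hτ.1
  obtain ⟨μ, hμ⟩ := End.exists_eigenvalue (τ (sc c))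
  refine ⟨μ, fun x => End.mem_eigenspace_iff.1 ?_⟩
  rw [(hτ.2 (End.eigenspace (τ (sc c)) μ) fun g y hy => ?_).resolve_left hμ]
  · trivial
  · rw [End.mem_eigenspace_iff] at hy ⊢
    rw [← End.mul_apply, ← map_mul, (sc_comm c g).eq, map_mul, End.mul_apply, hy, map_smul]

end Grp

end CG

open CG in
theorem crossG_of (hGK : GK.{0, v, w}) : CrossG.{v, w} := by
  intro p _ hp11 h3 K _ _ hp _ W _ _ _ τ hτ
  change finrank K W ≤ 6 * ed τ (xx p) 1
  by_cases hu : τ (ug p) = 1
  · have h1 : End.eigenspace (τ (xx p)) 1 = ⊤ := by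
      rw [eq_top_iff]
      intro x _
      rw [End.mem_eigenspace_iff, xx_of_ug τ hu]; simp
    rw [ed, h1, finrank_top]
    omega
  have hd := dim_ge hp τ hu
  have := TT_cyclic h3
  obtain ⟨t, ht⟩ := IsCyclic.exists_generator (α := TT p)
  have hone := hGK τ hτ t.1 st st_mul st_st fun g => by
    obtain ⟨s, hs, hg⟩ := st_conj h3 g
    obtain ⟨k, hk⟩ := ht ⟨s, hs⟩
    exact ⟨s, ⟨k, congrArg Subtype.val hk⟩, hg⟩
  have : (BB p).Normal := by
    let := IsCyclic.commGroup (α := TT p)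
    exact Subgroup.normal_of_isMulCommutative _
  obtain ⟨c, i, hci⟩ := (BB p).pow_index_mem t
  obtain ⟨μ, hμ⟩ := schur τ hτ c
  have hm0 : (BB p).index ≠ 0 := Subgroup.index_ne_zero_of_finite
  have hE : ∀ η : K, finrank K (End.eigenspace (τ (xx p)) η) ≤ (BB p).index := by
    intro η
    refine le_trans (Submodule.finrank_mono fun x hx => ?_)
      (ker_aeval_le (τ t.1) hone _ (X ^ (BB p).index - C (μ * η ^ i)) (X_pow_sub_C_ne_zero (by omega) _)
        natDegree_X_pow_sub_C)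
    rw [End.mem_eigenspace_iff] at hx
    have hpow : ∀ k : ℕ, τ (xx p ^ k) x = η ^ k • x := by
      intro k
      induction k with
      | zero => simp
      | succ k ih => rw [pow_succ', map_mul, End.mul_apply, ih, map_smul, hx, smul_smul, pow_succ]
    rw [LinearMap.mem_ker, map_sub, map_pow, aeval_X, aeval_C, LinearMap.sub_apply, ← map_pow,
      ← Subgroup.coe_pow, hci, map_mul, End.mul_apply, hpow, hμ, smul_smul, Module.algebraMap_end_apply, sub_self]
  obtain ⟨ω, hω⟩ : ∃ ω : K, ω ^ 2 + ω + 1 = 0 := by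
    obtain ⟨ω, hω⟩ := IsAlgClosed.exists_root (X ^ 2 + X + 1 : K[X]) (by
      have : (X ^ 2 + X + 1 : K[X]).degree = 2 := by compute_degree!
      rw [this]; norm_num)
    exact ⟨ω, by simpa using hω⟩
  have hz : (τ (xx p) - algebraMap K (End K W) 1) * ((τ (xx p) - algebraMap K (End K W) ω) *
      (τ (xx p) - algebraMap K (End K W) (ω ^ 2))) = 0 := by
    have h1 : ((X - C 1) * ((X - C ω) * (X - C (ω ^ 2))) : K[X]) = X ^ 3 - 1 := by
      have h2 : (C ω : K[X]) ^ 2 + C ω + 1 = 0 := by simpa using congrArg C hω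
      rw [map_pow, map_one]
      linear_combination (-X ^ 2 + C ω * X + 1 - C ω) * h2
    have h2 := congrArg (aeval (τ (xx p))) h1
    simp only [map_mul, map_sub, aeval_X, aeval_C, map_pow (aeval (τ (xx p))), map_one (aeval (τ (xx p)))] at h2
    rw [h2, ← map_pow, xx_cube, map_one, sub_self]
  have h1 := ker_mul_le (τ (xx p) - algebraMap K (End K W) 1) ((τ (xx p) - algebraMap K (End K W) ω) *
      (τ (xx p) - algebraMap K (End K W) (ω ^ 2)))
  have h2 := ker_mul_le (τ (xx p) - algebraMap K (End K W) ω) (τ (xx p) - algebraMap K (End K W) (ω ^ 2))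
  rw [hz, LinearMap.ker_zero, finrank_top] at h1
  rw [← eig_eq] at h1
  rw [← eig_eq, ← eig_eq] at h2
  have h4 := hE ω
  have h5 := hE (ω ^ 2)
  have h6 := index_BB (p := p)
  unfold ed
  omega

end CL.Fix6

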