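/-
Project FIX6: the Gelfand-Kazhdan trick and induction from `SL₂(p)` to `GL₂(p)` (helper47).
-/
import Cfsg.Agent.Fix6.Defs

set_option autoImplicit false
open Module Subgroup

namespace CL.Fix6

universe u v w

section GK

variable {Γ : Type u} [Group Γ] {K : Type v} [Field K] {W : Type w} [AddCommGroup W] [Module K W]
  {σ : Representation K Γ W}

/-- the orbit map of a vector -/
noncomputable def gkA (σ : Representation K Γ W) (w : W) : (Γ →₀ K) →ₗ[K] W :=
  Finsupp.linearCombination K fun g => σ g w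

theorem gkA_single (w : W) (g : Γ) (c : K) : gkA σ w (Finsupp.single g c) = c • σ g w := by simp [gkA]

theorem gkA_shift (h : Γ) (w : W) (a : Γ →₀ K) : σ h (gkA σ w a) = gkA σ w (Finsupp.mapDomain (h * ·) a) := by
  induction a using Finsupp.induction_linear with
  | zero => simp
  | add a b ha hb => rw [map_add, map_add, ha, hb, Finsupp.mapDomain_add, map_add]
  | single g c => rw [Finsupp.mapDomain_single, gkA_single, gkA_single, map_smul, map_mul, End.mul_apply]

theorem Simp.gkA_surj (hs : Simp σ) {w : W} (hw : w ≠ 0) : Function.Surjective (gkA σ w) :=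
  LinearMap.range_eq_top.1 ((hs.2 _ (by
    rintro h _ ⟨a, rfl⟩
    exact ⟨_, (gkA_shift h w a).symm⟩)).resolve_left fun e => hw ((Submodule.eq_bot_iff _).1 e w
      ⟨Finsupp.single 1 1, by simp [gkA_single]⟩))

theorem Simp.gk_sep (hs : Simp σ) {φ : Dual K W} (hφ : φ ≠ 0) {x : W} (hx : ∀ h, φ (σ h x) = 0) : x = 0 := by
  let U : Submodule K W := ⨅ h, LinearMap.ker (φ ∘ₗ σ h)
  have hU : ∀ y, y ∈ U ↔ ∀ h, φ (σ h y) = 0 := fun y => by simp [U]
  rcases hs.2 U (fun g y hy => (hU _).2 fun h => by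
    rw [← End.mul_apply, ← map_mul]; exact (hU _).1 hy _) with e | e
  · exact (Submodule.eq_bot_iff _).1 e x ((hU x).2 hx)
  · exact absurd (LinearMap.ext fun y => by simpa using (hU y).1 (e.ge trivial) 1) hφ

theorem gk_conj {t : Γ} {l : K} (hl : l ≠ 0) {φ : Dual K W} (hφ : ∀ x, φ (σ t x) = l * φ x) {w : W}
    (hw : σ t w = l • w) {s : Γ} (hs : s ∈ zpowers t) (g : Γ) : φ (σ (s * g * s⁻¹) w) = φ (σ g w) := by
  have h1 : ∀ g, φ (σ (t * g * t⁻¹) w) = φ (σ g w) := fun g => by
    have e : σ t⁻¹ w = l⁻¹ • w := by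
      have : σ t⁻¹ (σ t w) = w := by rw [← End.mul_apply, ← map_mul, inv_mul_cancel, map_one, End.one_apply]
      rw [hw, map_smul] at this
      rw [eq_inv_smul_iff₀ hl, this]
    rw [map_mul, map_mul, End.mul_apply, End.mul_apply, hφ, e, map_smul, map_smul, smul_eq_mul,
      mul_inv_cancel_left₀ hl]
  let H : Subgroup Γ :=
    { carrier := {s | ∀ g, φ (σ (s * g * s⁻¹) w) = φ (σ g w)}
      one_mem' := fun g => by simp
      mul_mem' := fun {a b} ha hb g => by
        rw [← hb g, ← ha (b * g * b⁻¹)]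
        simp only [mul_assoc, mul_inv_rev]
      inv_mem' := fun {a} ha g => by
        rw [← ha (a⁻¹ * g * a⁻¹⁻¹)]
        simp only [mul_assoc, inv_inv, mul_inv_cancel, mul_inv_cancel_left, mul_one] }
  exact (zpowers_le.2 (show t ∈ H from h1) hs :) g

end GK

theorem gk : GK.{u, v, w} := fun {Γ} _ {K} _ _ {W} _ _ _ σ hs t st hm hi hc l => by
  have := hs.1
  by_cases h0 : End.eigenspace (σ t) l = ⊥
  · rw [ed, h0, finrank_bot]; exact zero_le_one
  obtain ⟨w, hw, w0⟩ := (Submodule.ne_bot_iff _).1 h0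
  have hl : l ≠ 0 := fun e => w0 (by
    have : σ t⁻¹ (σ t w) = w := by rw [← End.mul_apply, ← map_mul, inv_mul_cancel, map_one, End.one_apply]
    rw [← this, End.mem_eigenspace_iff.1 hw, e, zero_smul, map_zero])
  obtain ⟨φ, hφ0, hφ⟩ := Submodule.exists_le_ker_of_lt_top (LinearMap.range (σ t - l • 1)) (lt_top_iff_ne_top.2 fun e =>
    w0 ((LinearMap.injective_iff_surjective.2 (LinearMap.range_eq_top.1 e)) (by
      simp [End.mem_eigenspace_iff.1 hw])))
  have hφ' : ∀ x, φ (σ t x) = l * φ x := fun x => by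
    have := hφ ⟨x, rfl⟩
    simpa [sub_eq_zero] using this
  let ψ : (Γ →₀ K) →ₗ[K] Dual K W := Finsupp.linearCombination K fun g => φ ∘ₗ σ (st g)
  have key : ∀ x ∈ End.eigenspace (σ t) l, ∀ h a, φ (σ h (gkA σ x a)) = ψ a (σ (st h) x) := fun x hx h a => by
    induction a using Finsupp.induction_linear with
    | zero => simp
    | add a b ha hb => simp only [map_add, ha, hb, LinearMap.add_apply]
    | single g c =>
      obtain ⟨s, h1, h2⟩ := hc (h * g)
      have := gk_conj hl hφ' (End.mem_eigenspace_iff.1 hx) h1 (h * g)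
      rw [← h2, hm, map_mul, map_mul, End.mul_apply, End.mul_apply] at this
      simp [gkA_single, ψ, this]
  have hker : ∀ x ∈ End.eigenspace (σ t) l, ∀ a, gkA σ w a = 0 → gkA σ x a = 0 := fun x hx a ha => by
    have h1 : ψ a = 0 := LinearMap.ext fun y => by
      obtain ⟨b, rfl⟩ := hs.gkA_surj w0 y
      induction b using Finsupp.induction_linear with
      | zero => simp
      | add b b' hb hb' => rw [map_add, map_add, hb, hb']; simp
      | single g c =>
        have := key w hw (st g) a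
        rw [ha, hi, map_zero, map_zero] at this
        simp [gkA_single, ← this]
    exact hs.gk_sep hφ0 fun h => by rw [key x hx, h1, LinearMap.zero_apply]
  refine finrank_le_one (⟨w, hw⟩ : End.eigenspace (σ t) l) fun ⟨x, hx⟩ => ?_
  obtain ⟨s, hs'⟩ := (gkA σ w).exists_rightInverse_of_surjective (LinearMap.range_eq_top.2 (hs.gkA_surj w0))
  let θ : End K W := gkA σ x ∘ₗ s
  have hθ : ∀ a, θ (gkA σ w a) = gkA σ x a := fun a => by
    have := hker x hx (s (gkA σ w a) - a) (by rw [map_sub, ← LinearMap.comp_apply, hs']; simp)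
    rwa [map_sub, sub_eq_zero] at this
  obtain ⟨μ, hμ⟩ := End.exists_eigenvalue θ
  have h2 := (hs.2 (End.eigenspace θ μ) fun g y hy => by
    obtain ⟨a, rfl⟩ := hs.gkA_surj w0 y
    rw [End.mem_eigenspace_iff] at hy ⊢
    rw [gkA_shift, hθ, ← gkA_shift, ← gkA_shift, ← hθ, hy, map_smul]).resolve_left hμ
  refine ⟨μ, Subtype.ext ?_⟩
  have h3 := hθ (Finsupp.single 1 1)
  simp only [gkA_single, map_one, End.one_apply, one_smul] at h3
  exact (End.mem_eigenspace_iff.1 (h2.ge trivial : w ∈ End.eigenspace θ μ)).symm.trans h3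

section CI

variable {p : ℕ} [Fact p.Prime]

/-- `diag(a, 1)` -/
def ciD (a : (ZMod p)ˣ) : GL (Fin 2) (ZMod p) :=
  ⟨!![(a : ZMod p), 0; 0, 1], !![((a⁻¹ : (ZMod p)ˣ) : ZMod p), 0; 0, 1],
    by simp [Matrix.one_fin_two, -ZMod.inv_coe_unit], by simp [Matrix.one_fin_two, -ZMod.inv_coe_unit]⟩

theorem det_ciD (a : (ZMod p)ˣ) : Matrix.GeneralLinearGroup.det (ciD a) = a :=
  Units.ext (by simp [ciD, Matrix.det_fin_two, -ZMod.inv_coe_unit])

/-- the cocycle -/
def ciC (g : GL (Fin 2) (ZMod p)) (a : (ZMod p)ˣ) : SL p :=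
  ⟨(ciD a * g * (ciD (a * Matrix.GeneralLinearGroup.det g))⁻¹).val, by
    rw [← Matrix.GeneralLinearGroup.val_det_apply, map_mul, map_mul, map_inv, det_ciD, det_ciD, mul_inv_cancel,
      Units.val_one]⟩

theorem ciC_one (a : (ZMod p)ˣ) : ciC 1 a = 1 := Subtype.ext (by simp [ciC])

theorem ciC_mul (g h : GL (Fin 2) (ZMod p)) (a : (ZMod p)ˣ) :
    ciC (g * h) a = ciC g a * ciC h (a * Matrix.GeneralLinearGroup.det g) := Subtype.ext (by
  rw [Matrix.SpecialLinearGroup.coe_mul]
  simp only [ciC, ← Units.val_mul, map_mul, mul_assoc, inv_mul_cancel_left])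

theorem det_xa : Matrix.GeneralLinearGroup.det (Matrix.SpecialLinearGroup.toGL (xa (1 : (ZMod p)ˣ))) = 1 :=
  Units.ext (by simp)

theorem ciC_xa (a : (ZMod p)ˣ) : ciC (Matrix.SpecialLinearGroup.toGL (xa 1)) a = xa a := Subtype.ext (by
  have e : (Matrix.SpecialLinearGroup.toGL (xa (1 : (ZMod p)ˣ))).val = (xa (1 : (ZMod p)ˣ)).1 := rfl
  simp only [ciC, det_xa, mul_one, Units.val_mul, e]
  ext i j
  fin_cases i <;> fin_cases j <;> simp [ciD, xa, Matrix.mul_apply, Fin.sum_univ_two, Matrix.vecMul, dotProduct,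
    -ZMod.inv_coe_unit])

variable {K : Type v} [Field K] {W : Type w} [AddCommGroup W] [Module K W]

/-- the induced representation -/
def ciRep (σ : Representation K (SL p) W) : Representation K (GL (Fin 2) (ZMod p)) ((ZMod p)ˣ → W) where
  toFun g := LinearMap.pi fun a => σ (ciC g a) ∘ₗ LinearMap.proj (a * Matrix.GeneralLinearGroup.det g)
  map_one' := by ext f a; simp [ciC_one]
  map_mul' g h := LinearMap.ext fun f => funext fun a => by simp [ciC_mul, mul_assoc]

end CI

theorem crossI : CrossI.{v, w} := fun p _ {K} _ h W _ _ _ σ => by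
  have h1 := h _ (ciRep σ)
  rw [finrank_pi_fintype, Finset.sum_const, Finset.card_univ, ZMod.card_units, smul_eq_mul] at h1
  refine h1.trans ?_
  rw [← Finset.mul_sum]
  refine Nat.mul_le_mul_left _ ?_
  let E := End.eigenspace (ciRep σ (Matrix.SpecialLinearGroup.toGL (xa 1))) (1 : K)
  let f : E →ₗ[K] ∀ a : (ZMod p)ˣ, End.eigenspace (σ (xa a)) (1 : K) := LinearMap.pi fun a =>
    (LinearMap.proj a ∘ₗ E.subtype).codRestrict _ fun x => by
      have := congrFun (End.mem_eigenspace_iff.1 x.2) a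
      rw [End.mem_eigenspace_iff]
      simpa [ciRep, det_xa, ciC_xa] using this
  have hf : Function.Injective f := fun x y e => Subtype.ext (funext fun a => congrArg Subtype.val (congrFun e a))
  have := LinearMap.finrank_le_finrank_of_injective hf
  rwa [finrank_pi_fintype] at this

end CL.Fix6
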