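/-
Project FIX6, step KER: a Frattini kernel gives a Frobenius configuration.
-/
import Cfsg.Agent.Fix6.Defs
import Cfsg.Agent.Even.Blk1
import Cfsg.Agent.Known.SL2Norm2
import Cfsg.Agent.Cls.SLnCard
import Cfsg.Agent.Grp.PGroupCyc
import Cfsg.Agent.Grp.Supersolv
import Cfsg.Agent.S0262
import Cfsg.Agent.S0088

set_option autoImplicit false

open Cfsg Subgroup CL.Even CL.Grp
open scoped commutatorElement

namespace CL.Fix6

universe u

namespace KerP

variable {G : Type u} [Group G]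

theorem eq_one {H : Type*} [Group H] {y : H} {n : ℕ} (hn : Odd n) (h1 : y ^ n = 1) (h2 : y * y = 1) : y = 1 := by
  obtain ⟨k, rfl⟩ := hn
  rwa [pow_succ, pow_mul, sq, h2, one_pow, one_mul] at h1

theorem central (h : OneInv G) {z : G} (hz : z * z = 1) : z ∈ center G := mem_center_iff.2 fun g => by
  by_cases e : z = 1
  · simp [e]
  · exact mul_inv_eq_iff_eq_mul.1 (h _ _ (by rw [conj_mul, hz, mul_one, mul_inv_cancel]) hz (by simpa using e) e)

theorem exists_lift [Finite G] {Γ : Type*} [Group Γ] {π : G →* Γ} (hs : Function.Surjective π) (T : Subgroup Γ)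
    (h : (Nat.card π.ker).Coprime (Nat.card T)) : ∃ ψ : T →* G, ∀ t, π (ψ t) = t := by
  let ξ := π.subgroupComap T
  have hξ := π.subgroupComap_surjective_of_surjective T hs
  have hk : Nat.card ξ.ker = Nat.card π.ker := Nat.card_congr
    ⟨fun x => ⟨x.1, congrArg Subtype.val x.2⟩, fun x => ⟨⟨x, ker_le_comap _ _ x.2⟩, Subtype.ext x.2⟩, fun _ => rfl,
      fun _ => rfl⟩
  obtain ⟨K, hK⟩ := exists_right_complement'_of_coprime (N := ξ.ker) (by
    rwa [hk, index_ker, MonoidHom.range_eq_top.2 hξ, card_top])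
  let e := MulEquiv.ofBijective (ξ.comp K.subtype) ⟨(injective_iff_map_eq_one _).2 fun a ha =>
    Subtype.ext (disjoint_def.1 hK.disjoint ha a.2), fun t => by
      obtain ⟨g, rfl⟩ := hξ t
      obtain ⟨⟨c, k⟩, rfl⟩ := hK.2 g
      exact ⟨k, by simp [show ξ c = 1 from c.2, ξ]⟩⟩
  exact ⟨((T.comap π).subtype.comp K.subtype).comp e.symm.toMonoidHom, fun t =>
    congrArg Subtype.val (e.apply_symm_apply t)⟩

/-- the Frobenius configuration from an eigenvector -/
theorem frc [Finite G] {M : Subgroup G} [hM : M.Normal] {r : ℕ} (hr : r.Prime) (r2 : Odd r) (r3 : r ≠ 3) (hp : IsPGroup r M)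
    (hc : ∀ a ∈ M, ∀ b ∈ M, ⁅a, b⁆ ∈ center G) {X L m : G} (hX : X ^ 3 = 1) (hm : m ∈ M) (m1 : m ≠ 1)
    (h1 : L * m * L⁻¹ = m) (h2 : X⁻¹ * L * X * m * (X⁻¹ * L * X)⁻¹ = m⁻¹) :
    ∃ (A : Subgroup G) (x : G), A ≠ ⊥ ∧ IsPGroup r A ∧ FrC A x := by
  have := Fact.mk hr
  have od : ∀ a ∈ M, a * a = 1 → a = 1 := fun a ha => by
    obtain ⟨k, hk⟩ := hp ⟨a, ha⟩
    exact eq_one r2.pow (congrArg Subtype.val hk)
  have hX' : X * X * X = 1 := by rw [← hX, pow_three, mul_assoc]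
  obtain ⟨n, hn⟩ : ∃ n, n = X * m * X⁻¹ := ⟨_, rfl⟩
  obtain ⟨o, ho⟩ : ∃ o, o = X * n * X⁻¹ := ⟨_, rfl⟩
  have e3 : X * o * X⁻¹ = m := by
    rw [ho, hn]
    calc _ = X * X * X * m * (X * X * X)⁻¹ := by group
      _ = m := by rw [hX']; group
  have nM : n ∈ M := hn ▸ hM.conj_mem m hm X
  have oM : o ∈ M := ho ▸ hM.conj_mem n nM X
  have h3 : L * n * L⁻¹ = n⁻¹ := by
    rw [hn, conj_inv, ← h2]; group
  have c1 : Commute m n := commutatorElement_eq_one_iff_commute.1 (od _ (commutator_le_left M ⊤ (commutator_mem_commutator hm (mem_top n))) (by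
    have k := hc m hm n nM
    calc _ = ⁅m, n⁆ * (L * ⁅m, n⁆ * L⁻¹) := by rw [mem_center_iff.1 k L, mul_inv_cancel_right]
      _ = ⁅m, n⁆ * (n⁻¹ * ⁅m, n⁆⁻¹ * n) := by
        rw [conjugate_commutatorElement, h1, h3]; simp only [commutatorElement_def]; group
      _ = 1 := by rw [mem_center_iff.1 (inv_mem k) n⁻¹]; group))
  have c2 : Commute n o := by rw [ho]; nth_rw 1 [hn]; exact c1.conj X
  have c3 : Commute o m := by rw [← e3]; nth_rw 1 [ho]; exact c2.conj X
  have hle : closure {m * n⁻¹, n * o⁻¹} ≤ M := (closure_le _).2 (by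
    rintro _ (rfl | rfl)
    exacts [mul_mem hm (inv_mem nM), mul_mem nM (inv_mem oM)])
  have c4 : Commute (m * n⁻¹) (n * o⁻¹) :=
    (c1.mul_right c3.symm.inv_right).mul_left ((Commute.refl n).mul_right c2.inv_right).inv_left
  have comm : ∀ a ∈ closure {m * n⁻¹, n * o⁻¹}, ∀ b ∈ closure {m * n⁻¹, n * o⁻¹}, a * b = b * a := fun a ha b hb => by
    refine mem_centralizer_iff.1 (show b ∈ centralizer (closure {m * n⁻¹, n * o⁻¹} : Subgroup G) from ?_) a ha
    rw [centralizer_closure]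
    refine (closure_le _).2 ?_ hb
    rintro _ (rfl | rfl) _ (rfl | rfl)
    exacts [rfl, c4.symm, c4, rfl]
  have a1 : X * (m * n⁻¹) * X⁻¹ = n * o⁻¹ := by rw [← conj_mul, ← conj_inv, ← hn, ← ho]
  have a2 : X * (n * o⁻¹) * X⁻¹ = o * m⁻¹ := by rw [← conj_mul, ← conj_inv, ← ho, e3]
  have conj : ∀ a ∈ closure {m * n⁻¹, n * o⁻¹}, X * a * X⁻¹ ∈ closure {m * n⁻¹, n * o⁻¹} := fun a ha =>
    (closure_le ((closure {m * n⁻¹, n * o⁻¹}).comap (MulAut.conj X).toMonoidHom)).2 (by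
      rintro _ (rfl | rfl)
      · exact show X * (m * n⁻¹) * X⁻¹ ∈ Subgroup.closure _ from a1 ▸ subset_closure (.inr rfl)
      · refine show X * (n * o⁻¹) * X⁻¹ ∈ Subgroup.closure _ from ?_
        rw [a2, show o * m⁻¹ = (m * n⁻¹ * (n * o⁻¹))⁻¹ by group]
        exact inv_mem (mul_mem (subset_closure (by simp)) (subset_closure (by simp)))) ha
  obtain ⟨k, hk⟩ := IsPGroup.iff_card.1 (hp.to_le hle)
  refine ⟨_, X, fun e => m1 (od m hm ?_), hp.to_le hle, comm,
    hk ▸ ((Nat.coprime_primes Nat.prime_three hr).2 r3.symm).pow_right k, hX, conj, fun a ha => ?_⟩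
  · have e1 : m = n := mul_inv_eq_one.1 (mem_bot.1 (e.le (subset_closure (by simp))))
    rw [← e1, h1] at h3
    exact mul_eq_one_iff_eq_inv.2 h3
  induction ha using closure_induction with
  | mem a ha =>
    rcases ha with rfl | rfl
    · rw [a1, a2]; group
    · rw [a2, ← conj_mul, ← conj_inv, e3, ← hn]; group
  | one => simp
  | mul a b ha hb iha ihb =>
    rw [← conj_mul, ← conj_mul]
    have k1 := comm b hb _ (conj a ha)
    have k2 := comm _ (conj b hb) _ (conj _ (conj a ha))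
    have k3 := comm b hb _ (conj _ (conj a ha))
    generalize X * (X * a * X⁻¹) * X⁻¹ = a'' at *
    generalize X * (X * b * X⁻¹) * X⁻¹ = b'' at *
    generalize X * a * X⁻¹ = a' at *
    generalize X * b * X⁻¹ = b' at *
    calc _ = a * (b * a') * (b' * a'') * b'' := by group
      _ = a * a' * (b * a'') * b' * b'' := by rw [k1, k2]; group
      _ = a * a' * a'' * (b * b' * b'') := by rw [k3]; group
      _ = 1 := by rw [iha, ihb, one_mul]
  | inv a ha iha =>
    rw [← conj_inv, ← conj_inv, ← mul_inv_rev, ← mul_inv_rev, inv_eq_one, ← comm a ha _ (conj a ha),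
      ← comm _ (mul_mem ha (conj a ha)) _ (conj _ (conj a ha)), iha]

/-- an eigenvector modulo the centre lifts -/
theorem eig {M : Subgroup G} [hM : M.Normal] {r : ℕ} (r2 : Odd r) (hp : IsPGroup r M) {I L c : G}
    (hI : I * I ∈ center G) (hL : L * L ∈ center G) (hIL : ⁅L, I⁆ ∈ center G) (hc : c ∈ M)
    (c1 : QuotientGroup.mk' (center G) c ≠ 1)
    (h1 : QuotientGroup.mk' (center G) (I * c * I⁻¹) = QuotientGroup.mk' (center G) c⁻¹)
    (h2 : QuotientGroup.mk' (center G) (L * c * L⁻¹) = QuotientGroup.mk' (center G) c) :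
    ∃ m ∈ M, m ≠ 1 ∧ I * m * I⁻¹ = m⁻¹ ∧ L * m * L⁻¹ = m := by
  have k := mul_mem (inv_mem hc) (hM.conj_mem c hc L)
  have k1 : c⁻¹ * (L * c * L⁻¹) ∈ center G := QuotientGroup.eq.1 h2.symm
  obtain ⟨j, hj⟩ := hp ⟨_, k⟩
  have k2 := eq_one r2.pow (congrArg Subtype.val hj) (show c⁻¹ * (L * c * L⁻¹) * (c⁻¹ * (L * c * L⁻¹)) = 1 by
    calc _ = c⁻¹ * (L * c * L⁻¹) * (L * (c⁻¹ * (L * c * L⁻¹)) * L⁻¹) := by
          rw [mem_center_iff.1 k1 L, mul_inv_cancel_right]
      _ = c⁻¹ * (L * L * c) * (L * L)⁻¹ := by group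
      _ = 1 := by rw [← mem_center_iff.1 hL c]; group)
  have k3 : L * c * L⁻¹ = c := (inv_mul_eq_one.1 k2).symm
  refine ⟨c⁻¹ * (I * c * I⁻¹), mul_mem (inv_mem hc) (hM.conj_mem c hc I), fun e => c1 ?_, ?_, ?_⟩
  · obtain ⟨j, hj⟩ := hp ⟨_, hc⟩
    refine eq_one (r2.pow (n := j)) (by rw [← map_pow, show c ^ r ^ j = 1 from congrArg Subtype.val hj, map_one]) ?_
    rw [← inv_mul_eq_one.1 e, map_inv] at h1
    exact mul_eq_one_iff_eq_inv.2 h1
  · calc _ = I * c⁻¹ * I⁻¹ * (I * I * c) * (I * I)⁻¹ := by group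
      _ = _ := by rw [← mem_center_iff.1 hI c]; group
  · calc _ = (L * c * L⁻¹)⁻¹ * (⁅L, I⁆ * (I * (L * c * L⁻¹) * I⁻¹)) * ⁅L, I⁆⁻¹ := by
          simp only [commutatorElement_def]; group
      _ = _ := by rw [k3, ← mem_center_iff.1 hIL]; group

variable [Finite G] {p : ℕ} [hp : Fact p.Prime] {π : G →* SL p} (c : Cov π) (p7 : 7 ≤ p)
include c

omit hp in
theorem normal_syl {r : ℕ} [Fact r.Prime] {R : Subgroup G} (h : IsSylowIn r R π.ker) : R.Normal := by
  have h1 := congrArg (map π) (frattini_sup h le_top le_normalizer_of_normal)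
  rw [Subgroup.map_sup, (Subgroup.map_eq_bot_iff _).2 le_rfl, sup_bot_eq, top_inf_eq, map_top_of_surjective _ c.surj] at h1
  exact normalizer_eq_top_iff.1 (c.min _ h1)

include p7

omit c in
theorem gen : 3 ≤ Fintype.card (Fin 2) ∨ ∃ a : ZMod p, a ≠ 0 ∧ a ^ 2 ≠ 1 := by
  refine .inr ⟨2, fun e => ?_, fun e => ?_⟩
  · have := Nat.le_of_dvd two_pos ((ZMod.natCast_eq_zero_iff 2 p).1 (by exact_mod_cast e))
    omega
  · have := Nat.le_of_dvd three_pos ((ZMod.natCast_eq_zero_iff 3 p).1 (by push_cast; linear_combination e))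
    omega

omit [Finite G] in
theorem perfect : _root_.commutator G = ⊤ := c.min _ (by
  rw [_root_.commutator_def, map_commutator, map_top_of_surjective _ c.surj]
  exact CL.SLn.commutator_eq_top (gen p7))

theorem eq_bot {r : ℕ} [hr : Fact r.Prime] (r2 : r ≠ 2) {R : Subgroup G} (h : IsSylowIn r R π.ker)
    (hc : R ≤ center G) : R = ⊥ := by
  obtain ⟨S, hS⟩ := h.isPGroup.exists_le_sylow
  obtain ⟨S', hS'⟩ := (S.isPGroup'.map π).exists_le_sylow
  have : IsCyclic (S' : Subgroup (SL p)) := by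
    by_cases e : r = p
    · subst e
      obtain ⟨k, hk⟩ := IsPGroup.iff_card.1 S'.isPGroup'
      have h1 := card_subgroup_dvd_card (S' : Subgroup (SL r))
      rw [CL.SLn.card_SL_two, ZMod.card, hk] at h1
      refine isCyclic_of_card_dvd_prime (p := r) (hk ▸ Nat.Coprime.dvd_of_dvd_mul_right (Nat.Coprime.pow_left k ?_) h1)
      rw [hr.1.coprime_iff_not_dvd]
      exact fun d => hr.1.one_lt.ne' (Nat.dvd_one.1 ((Nat.dvd_sub_iff_right (Nat.one_le_pow _ _ hr.1.pos)
        (dvd_pow_self r two_ne_zero)).1 d))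
    · exact Cfsg.Agent.S0262.result p r r2 e S'
  have h1 : (S : Subgroup G) ⊓ π.ker = R := h.eq_of_le S.isPGroup'.to_inf_left (le_inf hS h.le) inf_le_right
  have h2 := Cfsg.Agent.S0088.result (S : Subgroup G) (MonoidHom.isMulCommutative_of_isCyclic_of_ker_le_center
    ((π.comp (S : Subgroup G).subtype).codRestrict (S' : Subgroup (SL p)) fun x => hS' ⟨x, x.2, rfl⟩) fun x hx =>
      mem_center_iff.2 fun y => Subtype.ext (mem_center_iff.1 (hc (h1.le ⟨x.2, congrArg Subtype.val hx⟩)) y))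
    S.card_coprime_index
  exact eq_bot_iff.2 ((le_inf (le_inf hS (perfect c p7 ▸ le_top)) hc).trans h2.le)

theorem not_three (h3 : NoRk G 3) : ¬ 3 ∣ Nat.card π.ker := fun hd => by
  obtain ⟨R, hR⟩ := exists_isSylowIn (p := 3) π.ker
  have := normal_syl c hR
  have : IsCyclic R := (isCyclic_or_nonempty_quaternion_of_forall_ea hR.isPGroup fun E hE hc => by
    obtain ⟨x, hx, x1⟩ := E.bot_or_exists_ne_one.resolve_left fun e => by simp [e] at hc
    have := card_le_of_le (show E ≤ zpowers x from fun y hy => by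
      obtain ⟨i, hi⟩ := h3 x y (congrArg Subtype.val (hE.2 x hx)) (congrArg Subtype.val (hE.2 y hy))
        (congrArg Subtype.val (CL.Loc.ea_mul_comm hE hx hy)) fun e => x1 (Subtype.ext e)
      exact ⟨i, Subtype.ext hi⟩)
    rw [Nat.card_zpowers, orderOf_eq_prime (hE.2 x hx) x1] at this
    omega).resolve_right fun e => by omega
  have h1 := eq_bot c p7 (by norm_num) hR fun x hx => mem_center_iff.2 fun g =>
    (mem_centralizer_iff.1 (commutator_le_centralizer_of_isCyclic R (perfect c p7 ▸ mem_top g)) x hx).symm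
  exact hR.not_dvd (by rwa [h1, relIndex_bot_left])

theorem exists_IJX (h1 : OneInv G) (h3 : NoRk G 3) : ∃ I J X : G, π I ∉ center (SL p) ∧ I * I ∈ center G ∧
    J * J = I * I ∧ J * I = I * I * (I * J) ∧ X ^ 3 = 1 ∧ X * I * X⁻¹ = J ∧ X * J * X⁻¹ = I * J := by
  have hodd : Odd (Fintype.card (ZMod p)) := by rw [ZMod.card]; exact hp.1.odd_of_ne_two (by omega)
  obtain ⟨i, j, hi, hj, hij⟩ := CL.SL2.exists_quaternion_pair (F := ZMod p) p
  obtain ⟨t, t3, -, ti, tj⟩ := CL.GL2.exists_order_three_of_pair (CL.GL2.two_ne_zero_of_odd hodd) hi hj hij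
  have e1 : j * i = i * i * (i * j) := by rw [hij, hi, CL.GL2.neg_one_mul_SL]
  have i4 : i * i * (i * i) = 1 := by rw [hi, CL.GL2.neg_one_mul_SL, neg_neg]
  have n1 : zpowers j ≤ 𝒩(zpowers i) := zpowers_le.2 (mem_norm_of_cj_le ((MonoidHom.map_zpowers _ i).le.trans
    (zpowers_le.2 (show j * i * j⁻¹ ∈ _ by
      rw [e1, ← mul_assoc, mul_inv_cancel_right]
      exact mul_mem (mul_mem (mem_zpowers i) (mem_zpowers i)) (mem_zpowers i)))))
  have n2 : zpowers t ≤ 𝒩(zpowers j ⊔ zpowers i) := zpowers_le.2 (mem_norm_of_cj_le (by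
    rw [cj_sup]
    exact sup_le ((MonoidHom.map_zpowers _ j).le.trans (zpowers_le.2 (show t * j * t⁻¹ ∈ _ from
      tj ▸ mul_mem (mem_sup_right (mem_zpowers i)) (mem_sup_left (mem_zpowers j)))))
      ((MonoidHom.map_zpowers _ i).le.trans (zpowers_le.2 (show t * i * t⁻¹ ∈ _ from
        ti.symm ▸ mem_sup_left (mem_zpowers j))))))
  have d : Nat.card (zpowers t ⊔ (zpowers j ⊔ zpowers i) : Subgroup (SL p)) ∣ 3 * (2 ^ 2 * 2 ^ 2) := by
    refine (card_sup_dvd n2).trans (mul_dvd_mul ?_ ((card_sup_dvd n1).trans (mul_dvd_mul ?_ ?_))) <;>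
      rw [Nat.card_zpowers, orderOf_dvd_iff_pow_eq_one]
    · exact t3
    · rw [sq, pow_mul, sq, sq, hj, ← hi, i4]
    · rw [sq, pow_mul, sq, sq, i4]
  obtain ⟨ψ, hψ⟩ := exists_lift c.surj _ (Nat.Coprime.coprime_dvd_right d (Nat.Coprime.mul_right
    ((Nat.Prime.coprime_iff_not_dvd Nat.prime_three).2 (not_three c p7 h3)).symm
    (Nat.Coprime.mul_right (c.odd.coprime_two_right.pow_right 2) (c.odd.coprime_two_right.pow_right 2))))
  refine ⟨ψ ⟨i, mem_sup_right (mem_sup_right (mem_zpowers i))⟩, ψ ⟨j, mem_sup_right (mem_sup_left (mem_zpowers j))⟩,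
    ψ ⟨t, mem_sup_left (mem_zpowers t)⟩, fun e => ?_, central h1 ?_, ?_, ?_, ?_, ?_, ?_⟩
  · rw [hψ] at e
    have := (mem_center_iff.1 e j).symm.trans e1
    rw [hi] at this
    exact CL.GL2.one_ne_neg_one_SL hodd (right_eq_mul.1 this).symm
  all_goals simp only [← map_mul, ← map_inv, ← map_pow]
  · exact (congrArg ψ (Subtype.ext i4)).trans (map_one ψ)
  · exact congrArg ψ (Subtype.ext (hj.trans hi.symm))
  · exact congrArg ψ (Subtype.ext e1)
  · exact (congrArg ψ (Subtype.ext t3)).trans (map_one ψ)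
  · exact congrArg ψ (Subtype.ext ti)
  · exact congrArg ψ (Subtype.ext tj)

end KerP

open KerP in
theorem ker : Ker.{u} := by
  intro G _ _ p π hp p7 c h1 h3 r hr hd
  have := Fact.mk hp
  have := Fact.mk hr
  have r3 : r ≠ 3 := fun e => not_three c p7 h3 (e ▸ hd)
  have r2 : Odd r := c.odd.of_dvd_nat hd
  refine ⟨r3, ?_⟩
  obtain ⟨I, J, X, hI, I2, J2, JI, X3, XI, XJ⟩ := exists_IJX c p7 h1 h3
  obtain ⟨R, hR⟩ := exists_isSylowIn (p := r) π.ker
  have := normal_syl c hR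
  obtain ⟨u, hu, hu', h4⟩ := exists_fix_mod (U₀ := center G) hR.isPGroup hR.isPGroup le_normalizer fun e =>
    hR.not_dvd (by rwa [eq_bot c p7 (by rintro rfl; exact absurd r2 (by decide)) hR e, relIndex_bot_left])
  obtain ⟨M, hM⟩ : ∃ M, M = R ⊓ cmod R (center G) := ⟨_, rfl⟩
  have nM : M.Normal := normalizer_eq_top_iff.1 (eq_top_iff.2 (hM ▸ le_norm_inf le_normalizer_of_normal
    (le_norm_cmod le_normalizer_of_normal le_normalizer_of_normal)))
  have pM : IsPGroup r M := hM ▸ hR.isPGroup.to_inf_left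
  have cM : ∀ a ∈ M, ∀ b ∈ M, ⁅a, b⁆ ∈ center G := fun a ha b hb => (hM.le hb).2.2 a (hM.le ha).1
  have nC : (cmod M (center G)).Normal := normalizer_eq_top_iff.1 (eq_top_iff.2
    (le_norm_cmod le_normalizer_of_normal le_normalizer_of_normal))
  obtain ⟨m, hm, h5⟩ : ∃ m ∈ M, ⁅m, I⁆ ∉ center G := by
    by_contra! e
    have := nC.map π c.surj
    rcases CL.SLn.normal_le_center_or_eq_top (gen p7) ((cmod M (center G)).map π) with k | k
    · exact hI (k ⟨I, ⟨le_normalizer_of_normal (mem_top I), e⟩, rfl⟩)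
    have k1 : ⁅⁅M, (⊤ : Subgroup G)⁆, ⊤⁆ = ⊥ := commutator_eq_bot_iff_le_centralizer.2
      ((commutator_le_of_le_cmod (c.min _ k).ge).trans (center_le_centralizer _))
    have k2 := commutator_commutator_eq_bot_of_rotate (commutator_comm M ⊤ ▸ k1) k1
    rw [← _root_.commutator_def, perfect c p7, commutator_eq_bot_iff'] at k2
    exact hu' (mem_center_iff.2 fun g => comm_of_mem (k2 (hM.ge ⟨hu, le_normalizer_of_normal (mem_top u), h4⟩))
      (mem_top g))
  have ha : ⁅m, I⁆ ∈ M := commutator_le_left M ⊤ (commutator_mem_commutator hm (mem_top I))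
  have Ia : I * ⁅m, I⁆ * I⁻¹ = ⁅m, I⁆⁻¹ := by
    calc _ = I * m * I⁻¹ * (I * I * m⁻¹) * (I * I)⁻¹ := by simp only [commutatorElement_def]; group
      _ = _ := by rw [← mem_center_iff.1 I2]; simp only [commutatorElement_def]; group
  generalize ⁅m, I⁆ = a at ha Ia h5
  have cJ : ⁅J, I⁆ = I * I := by rw [commutatorElement_def, JI]; group
  have ha' := nM.conj_mem a ha J
  have Ia' : I * (J * a * J⁻¹) * I⁻¹ = (J * a * J⁻¹)⁻¹ := by
    calc _ = ⁅J, I⁆⁻¹ * (J * (I * a * I⁻¹) * J⁻¹ * ⁅J, I⁆) := by simp only [commutatorElement_def]; group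
      _ = _ := by rw [Ia, cJ, mem_center_iff.1 I2]; group
  have Ja' : J * (J * a * J⁻¹) * J⁻¹ = a := by
    calc _ = J * J * a * (J * J)⁻¹ := by group
      _ = _ := by rw [J2, ← mem_center_iff.1 I2, mul_inv_cancel_right]
  obtain ⟨b, hb⟩ : ∃ b, b = J * a * J⁻¹ := ⟨_, rfl⟩
  rw [← hb] at ha' Ia' Ja'
  have q : Commute (QuotientGroup.mk' (center G) a) (QuotientGroup.mk' (center G) b) := by
    rw [← commutatorElement_eq_one_iff_commute, ← map_commutatorElement]
    exact (QuotientGroup.eq_one_iff _).2 (cM a ha b ha')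
  by_cases e : QuotientGroup.mk' (center G) (a * b) = 1
  · obtain ⟨n, hn, n1, k1, k2⟩ := eig (L := I * J) r2 pM I2 (by
        rw [show I * J * (I * J) = I * (J * I) * J by group, JI,
          show I * (I * I * (I * J)) * J = I * I * (I * I) * (J * J) by group, J2]
        exact mul_mem (mul_mem I2 I2) I2)
      (by rwa [show ⁅I * J, I⁆ = I * ⁅J, I⁆ * I⁻¹ by simp only [commutatorElement_def]; group, cJ, ← mul_assoc,
        mul_inv_cancel_right]) (mul_mem ha (inv_mem ha')) (fun k => by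
        obtain ⟨j, hj⟩ := pM ⟨a, ha⟩
        rw [map_mul, map_inv, mul_inv_eq_one] at k
        rw [map_mul, ← k] at e
        exact h5 ((QuotientGroup.eq_one_iff a).1 (eq_one (r2.pow (n := j)) (by
          rw [← QuotientGroup.mk_pow, show a ^ r ^ j = 1 from congrArg Subtype.val hj]; rfl) e)))
      (by rw [← conj_mul, ← conj_inv, Ia, Ia', mul_inv_rev, inv_inv]
          simp only [map_mul, map_inv]; exact q.inv_left)
      (by rw [show I * J * (a * b⁻¹) * (I * J)⁻¹ = I * (J * a * J⁻¹) * I⁻¹ * (I * (J * b * J⁻¹) * I⁻¹)⁻¹ by group,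
            ← hb, Ja', Ia, Ia', inv_inv]
          simp only [map_mul, map_inv]; exact q.inv_right.symm)
    refine frc (L := I * J) hr r2 r3 pM cM X3 hn n1 k2 ?_
    rw [show X⁻¹ * (I * J) * X = J by rw [← XJ]; group]
    calc _ = I⁻¹ * (I * J * n * (I * J)⁻¹) * I := by group
      _ = I⁻¹ * (I * n * I⁻¹)⁻¹ * I := by rw [k2, k1, inv_inv]
      _ = _ := by group
  · obtain ⟨n, hn, n1, k1, k2⟩ := eig (L := J) r2 pM I2 (J2 ▸ I2) (cJ ▸ I2) (mul_mem ha ha') e
      (by rw [← conj_mul, Ia, Ia', mul_inv_rev]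
          simp only [map_mul, map_inv]; exact q.inv_inv)
      (by rw [← conj_mul, ← hb, Ja']
          simp only [map_mul]; exact q.symm)
    exact frc hr r2 r3 pM cM X3 hn n1 k2 (by rwa [show X⁻¹ * J * X = I by rw [← XI]; group])

end CL.Fix6
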