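/-
Project FIX6: the steps LIFT and RAISE.
-/
import Cfsg.Agent.Fix6.Defs
import Cfsg.Agent.Cls.SLnCard
import Cfsg.Agent.Grp.Gaschutz
import Cfsg.Agent.Grp.PGroupFrattini
import Cfsg.Agent.Grp.Frattini
import Cfsg.Agent.Grp.Coprime2

set_option autoImplicit false
open Module Subgroup Polynomial
open scoped IsMulCommutative

namespace CL.Fix6

universe u v w

section RaiseSec

variable {K : Type v} [Field K] {V : Type w} [AddCommGroup V] [Module K V] [FiniteDimensional K V]

theorem rz_one (T e : End K V) (β : K) (h : T * e = β • (e * T)) (l : K) :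
    finrank K (T.eigenspace l) ≤
      finrank K (T.eigenspace l ⊓ LinearMap.ker e : Submodule K V) + finrank K (T.eigenspace (β * l)) := by
  have h1 := LinearMap.finrank_range_add_finrank_ker (e.domRestrict (T.eigenspace l))
  have h2 : finrank K (LinearMap.range (e.domRestrict (T.eigenspace l))) ≤ finrank K (T.eigenspace (β * l)) := by
    refine Submodule.finrank_mono ?_
    rintro _ ⟨x, rfl⟩
    have hx := End.mem_eigenspace_iff.1 x.2
    rw [End.mem_eigenspace_iff]
    have := LinearMap.congr_fun h x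
    simp only [End.mul_apply, LinearMap.smul_apply, hx, map_smul] at this
    simp only [LinearMap.domRestrict_apply, this, smul_smul]
  have h3 : finrank K (LinearMap.ker (e.domRestrict (T.eigenspace l))) =
      finrank K (T.eigenspace l ⊓ LinearMap.ker e : Submodule K V) := by
    rw [LinearMap.ker_domRestrict, ← Submodule.finrank_map_subtype_eq, Submodule.map_comap_subtype]
  omega

theorem rz_two (T e : End K V) (β : K) (h : T * e = β • (e * T)) (F : Submodule K V) (hF : LinearMap.ker e ≤ F)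
    {l l' : K} (hl : l ≠ l') :
    finrank K (T.eigenspace l) + finrank K (T.eigenspace l') ≤
      finrank K F + finrank K (T.eigenspace (β * l)) + finrank K (T.eigenspace (β * l')) := by
  have h1 := rz_one T e β h l
  have h2 := rz_one T e β h l'
  have h3 := Submodule.finrank_sup_add_finrank_inf_eq (T.eigenspace l ⊓ LinearMap.ker e)
    (T.eigenspace l' ⊓ LinearMap.ker e)
  have h4 : (T.eigenspace l ⊓ LinearMap.ker e) ⊓ (T.eigenspace l' ⊓ LinearMap.ker e) = ⊥ := by
    rw [eq_bot_iff]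
    rintro x ⟨⟨h5, -⟩, h6, -⟩
    have h5 := End.mem_eigenspace_iff.1 h5
    have h6 := End.mem_eigenspace_iff.1 h6
    have : (l - l') • x = 0 := by rw [sub_smul, ← h5, ← h6, sub_self]
    exact (smul_eq_zero.1 this).resolve_left (sub_ne_zero.2 hl)
  have h5 : finrank K (T.eigenspace l ⊓ LinearMap.ker e ⊔ T.eigenspace l' ⊓ LinearMap.ker e : Submodule K V) ≤
      finrank K F := Submodule.finrank_mono (sup_le (inf_le_right.trans hF) (inf_le_right.trans hF))
  rw [h4, finrank_bot] at h3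
  omega

omit [FiniteDimensional K V] in
theorem rz_ker (Y : End K V) (N r : ℕ) (hN : aeval Y ((X - C 1 : K[X]) ^ N) = 0) (Q : K[X]) (hQ : Q.eval 1 ≠ 0) :
    LinearMap.ker (aeval Y (Q * (X - C 1) ^ r)) ≤ LinearMap.ker (aeval Y ((X - C 1 : K[X]) ^ r)) := by
  have hc : IsCoprime ((X - C 1 : K[X]) ^ N) Q := by
    refine IsCoprime.pow_left ?_
    rw [(irreducible_X_sub_C (1 : K)).coprime_iff_not_dvd, dvd_iff_isRoot]
    exact hQ
  obtain ⟨A, B, hAB⟩ := hc
  intro x hx
  rw [LinearMap.mem_ker] at hx ⊢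
  have : ((X - C 1 : K[X]) ^ r) = A * (X - C 1) ^ r * (X - C 1) ^ N + B * (Q * (X - C 1) ^ r) := by
    linear_combination (-(X - C 1 : K[X]) ^ r) * hAB
  rw [this, map_add, map_mul, hN, mul_zero, zero_add, map_mul, End.mul_apply, hx, map_zero]

theorem raise : Raise.{u, v, w} := by
  intro G _ K _ p hp _ V _ _ _ ρ t y m k ht hy hty hm0 hm1
  have hp1 : p - 1 + 1 = p := Nat.sub_add_cancel hp.out.one_le
  have hα : (m : K) ^ (p - 1) = 1 := by
    have h1 : (m : K) ^ p = m := by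
      have := map_natCast (frobenius K p) m
      rwa [frobenius_def] at this
    have h2 : (m : K) ^ (p - 1) * m = 1 * m := by rw [← pow_succ, hp1, h1, one_mul]
    exact mul_right_cancel₀ hm0 h2
  have hconj : ∀ j n : ℕ, t ^ j * y ^ n * (t ^ j)⁻¹ = y ^ (n * m ^ j) := by
    intro j
    induction j with
    | zero => simp
    | succ j ih =>
      intro n
      have : t * y ^ (n * m ^ j) * t⁻¹ = y ^ (n * m ^ (j + 1)) := by
        rw [← conj_pow, hty, ← pow_mul]; congr 1; ring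
      rw [← this, ← ih]; group
  have hym : y ^ m ^ (p - 1) = y := by
    have := hconj (p - 1) 1
    rw [ht] at this
    simpa using this.symm
  set E : K[X] := ∑ j ∈ Finset.range (p - 1), C ((m : K)⁻¹ ^ j) * X ^ m ^ j with hE
  have hE1 : E.eval 1 = 0 := by
    simp only [hE, eval_finsetSum, eval_mul, eval_C, eval_pow, eval_X, one_pow, mul_one]
    rw [geom_sum_eq (by rwa [Ne, inv_eq_one]), inv_pow, hα]; simp
  have hE2 : (derivative E).eval 1 = -1 := by
    simp only [hE, derivative_sum, derivative_C_mul, derivative_X_pow, eval_finsetSum, eval_mul, eval_C, eval_pow,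
      eval_X, one_pow, mul_one, Nat.cast_pow]
    rw [Finset.sum_congr rfl (g := fun _ => (1 : K)) fun j _ => by rw [← mul_pow, inv_mul_cancel₀ hm0, one_pow]]
    rw [Finset.sum_const, Finset.card_range, nsmul_eq_mul, mul_one, Nat.cast_sub hp.out.one_le,
      CharP.cast_eq_zero K p]; simp
  obtain ⟨Q, hQ⟩ : (X - C 1 : K[X]) ∣ E := dvd_iff_isRoot.2 hE1
  have hQ1 : Q.eval 1 ≠ 0 := by
    rw [hQ] at hE2
    simp at hE2
    rw [hE2]; simp
  have hXp : ∀ n : ℕ, aeval (ρ y) ((X - C 1 : K[X]) ^ p ^ n) = ρ (y ^ p ^ n) - 1 := by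
    intro n
    rw [sub_pow_char_pow]; simp
  have hN : aeval (ρ y) ((X - C 1 : K[X]) ^ p ^ k) = 0 := by rw [hXp, hy, map_one, sub_self]
  have hint : ρ t * aeval (ρ y) E = (m : K) • (aeval (ρ y) E * ρ t) := by
    have h1 : ∀ j : ℕ, ρ t * ρ y ^ m ^ j = ρ y ^ m ^ (j + 1) * ρ t := by
      intro j
      have := hconj 1 (m ^ j)
      rw [← map_pow, ← map_pow, ← map_mul, ← map_mul, pow_succ, ← pow_one m, pow_one m, ← pow_one m] 
      congr 1
      rw [pow_one m] at this ⊢
      rw [← this]; group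
    let f : ℕ → End K V := fun j => ((m : K) * (m : K)⁻¹ ^ j) • (ρ y ^ m ^ j * ρ t)
    have h2 : ρ t * aeval (ρ y) E = ∑ j ∈ Finset.range (p - 1), f (j + 1) := by
      simp only [hE, map_sum, map_mul, aeval_C, map_pow, aeval_X, Finset.mul_sum, f]
      refine Finset.sum_congr rfl fun j _ => ?_
      rw [← map_pow, ← Algebra.smul_def, mul_smul_comm, h1]
      congr 1
      rw [pow_succ', ← mul_assoc, mul_inv_cancel₀ hm0, one_mul]
    have h3 : (m : K) • (aeval (ρ y) E * ρ t) = ∑ j ∈ Finset.range (p - 1), f j := by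
      simp only [hE, map_sum, map_mul, aeval_C, map_pow, aeval_X, Finset.sum_mul, Finset.smul_sum, f]
      refine Finset.sum_congr rfl fun j _ => ?_
      rw [← map_pow, ← Algebra.smul_def, smul_mul_assoc, smul_smul]
    have h4 : f (p - 1) = f 0 := by
      simp only [f]
      rw [← map_pow, hym, inv_pow, hα]; simp
    have h5 := (Finset.sum_range_succ f (p - 1)).symm.trans (Finset.sum_range_succ' f (p - 1))
    rw [h4] at h5
    rw [h2, h3, add_right_cancel h5]
  have hint2 : ρ t * aeval (ρ y) (E ^ 2) = ((m : K) ^ 2) • (aeval (ρ y) (E ^ 2) * ρ t) := by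
    rw [map_pow, sq, sq, ← mul_assoc, hint, smul_mul_assoc, mul_assoc, hint, mul_smul_comm, smul_smul, mul_assoc]
  have hk1 : LinearMap.ker (aeval (ρ y) E) ≤ End.eigenspace (ρ y) 1 := by
    have := rz_ker (ρ y) _ 1 hN Q hQ1
    rw [pow_one, mul_comm, ← hQ] at this
    intro x hx
    have h1 := this hx
    rw [End.mem_eigenspace_iff]
    simpa [sub_eq_zero] using h1
  have hk2 : LinearMap.ker (aeval (ρ y) (E ^ 2)) ≤ End.eigenspace (ρ (y ^ p)) 1 := by
    have := rz_ker (ρ y) _ 2 hN (Q ^ 2) (by simpa using hQ1)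
    rw [← mul_pow, mul_comm, ← hQ] at this
    intro x hx
    have h1 := this hx
    rw [End.mem_eigenspace_iff]
    have h2 := hXp 1
    rw [pow_one] at h2
    have h3 : (X - C 1 : K[X]) ^ p = (X - C 1) ^ (p - 2) * (X - C 1) ^ 2 := by
      rw [← pow_add, Nat.sub_add_cancel hp.out.two_le]
    have h4 := LinearMap.congr_fun h2 x
    rw [h3, map_mul, End.mul_apply, LinearMap.mem_ker.1 h1, map_zero] at h4
    simpa [sub_eq_zero] using h4.symm
  refine ⟨fun l => ?_, fun l l' hl => ⟨rz_two _ _ _ hint _ hk1 hl, rz_two _ _ _ hint2 _ hk2 hl⟩⟩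
  have h1 := rz_one _ _ _ hint l
  have h2 : finrank K (End.eigenspace (ρ t) l ⊓ LinearMap.ker (aeval (ρ y) E) : Submodule K V) ≤
      finrank K (End.eigenspace (ρ y) 1) := Submodule.finrank_mono (inf_le_right.trans hk1)
  unfold ed
  omega

end RaiseSec

section LiftSec

theorem lf_ab {A : Type u} [CommGroup A] {p : ℕ} [hp : Fact p.Prime] (hA : ∀ x : A, x ^ p = 1) (τ : A →* A)
    (hτ : ∀ x, τ^[p - 1] x = x) (χ : A →* Multiplicative (ZMod p)) (c : ZMod p) (hc : c ≠ 0)
    (hχ : ∀ x, (χ (τ x)).toAdd = c * (χ x).toAdd) {x : A} (hx : χ x ≠ 1) : ∃ y, χ y ≠ 1 ∧ τ y = y ^ c.val := by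
  have hmod : ∀ (z : A) (a b : ℕ), (a : ZMod p) = b → z ^ a = z ^ b := fun z a b h =>
    pow_eq_pow_of_modEq ((ZMod.natCast_eq_natCast_iff _ _ _).1 h) (hA z)
  have hit : ∀ j : ℕ, (χ (τ^[j] x)).toAdd = c ^ j * (χ x).toAdd := by
    intro j
    induction j with
    | zero => simp
    | succ j ih => rw [Function.iterate_succ_apply', hχ, ih]; ring
  refine ⟨∏ j ∈ Finset.range (p - 1), (τ^[j] x) ^ (c⁻¹ ^ j).val, ?_, ?_⟩
  · intro h
    have h1 := congrArg Multiplicative.toAdd h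
    simp only [map_prod, map_pow, toAdd_prod, toAdd_pow, hit, nsmul_eq_mul, ZMod.natCast_val, ZMod.cast_id', id,
      toAdd_one] at h1
    rw [Finset.sum_congr rfl (g := fun _ => (χ x).toAdd) fun j _ => by
      rw [← mul_assoc, ← mul_pow, inv_mul_cancel₀ hc, one_pow, one_mul]] at h1
    rw [Finset.sum_const, Finset.card_range, nsmul_eq_mul, Nat.cast_sub hp.out.one_le, CharP.cast_eq_zero] at h1
    apply hx
    have : (χ x).toAdd = 0 := by simpa using h1
    simpa using this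
  · let f : ℕ → A := fun j => (τ^[j] x) ^ (c * c⁻¹ ^ j).val
    have h2 : τ (∏ j ∈ Finset.range (p - 1), (τ^[j] x) ^ (c⁻¹ ^ j).val) = ∏ j ∈ Finset.range (p - 1), f (j + 1) := by
      rw [map_prod]
      refine Finset.prod_congr rfl fun j _ => ?_
      simp only [f]
      rw [map_pow, Function.iterate_succ_apply', pow_succ', ← mul_assoc, mul_inv_cancel₀ hc, one_mul]
    have h3 : (∏ j ∈ Finset.range (p - 1), (τ^[j] x) ^ (c⁻¹ ^ j).val) ^ c.val = ∏ j ∈ Finset.range (p - 1), f j := by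
      rw [← Finset.prod_pow]
      refine Finset.prod_congr rfl fun j _ => ?_
      rw [← pow_mul]
      refine hmod _ _ _ ?_
      simp [mul_comm]
    have h4 : f (p - 1) = f 0 := by
      simp only [f]
      rw [hτ, inv_pow, ZMod.pow_card_sub_one_eq_one hc]; simp
    have h5 := (Finset.prod_range_succ f (p - 1)).symm.trans (Finset.prod_range_succ' f (p - 1))
    rw [h4] at h5
    rw [h2, h3, mul_right_cancel h5]

theorem lf_cyc {p : ℕ} [hp : Fact p.Prime] (c : ZMod p) (hc : c ≠ 0) (n : ℕ) :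
    ∀ (Q : Type u) [Group Q] [Finite Q], Nat.card Q = n → IsPGroup p Q → ∀ (τ : Q →* Q), (∀ x, τ^[p - 1] x = x) →
      ∀ (χ : Q →* Multiplicative (ZMod p)), (∀ x, (χ (τ x)).toAdd = c * (χ x).toAdd) → (∃ x, χ x ≠ 1) →
      ∃ y, χ y ≠ 1 ∧ τ y ∈ zpowers y := by
  induction n using Nat.strong_induction_on with
  | _ n ih =>
  intro Q _ _ hn hQ τ hτ χ hχ ⟨x, hx⟩
  have h1 : frattini Q ≤ (frattini Q).comap τ := map_le_iff_le_comap.1 (Grp.map_frattini_le_pGroup hQ τ)
  have h2 : frattini Q ≤ χ.ker := by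
    refine (Grp.frattini_le_iff_pGroup hQ).2 ⟨Abelianization.commutator_subset_ker χ, fun z => ?_⟩
    rw [MonoidHom.mem_ker, map_pow]
    apply Multiplicative.toAdd.injective
    simp
  have := Grp.isMulCommutative_quotient_frattini hQ
  let τ' := QuotientGroup.map (frattini Q) (frattini Q) τ h1
  have hτ' : ∀ (j : ℕ) (z : Q), τ'^[j] (z : Q ⧸ frattini Q) = ((τ^[j] z : Q) : Q ⧸ frattini Q) := by
    intro j z
    induction j with
    | zero => rfl
    | succ j ih => rw [Function.iterate_succ_apply', Function.iterate_succ_apply', ih]; rfl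
  obtain ⟨y, hy1, hy2⟩ := lf_ab (A := Q ⧸ frattini Q) (Grp.quotient_frattini_pow_eq_one hQ) τ'
    (fun z => by obtain ⟨z, rfl⟩ := QuotientGroup.mk_surjective z; rw [hτ', hτ])
    (QuotientGroup.lift (frattini Q) χ h2) c hc
    (fun z => by obtain ⟨z, rfl⟩ := QuotientGroup.mk_surjective z; exact hχ z) (x := (x : Q ⧸ frattini Q)) hx
  obtain ⟨y, rfl⟩ := QuotientGroup.mk_surjective y
  have hy3 : χ y ≠ 1 := hy1
  set H : Subgroup Q := frattini Q ⊔ zpowers y with hH
  by_cases hHt : H = ⊤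
  · exact ⟨y, hy3, by rw [Grp.eq_top_of_sup_eq_top_of_le_frattini le_rfl hHt]; trivial⟩
  have hinv : H ≤ H.comap τ := by
    refine sup_le (h1.trans (comap_mono le_sup_left)) ?_
    rw [zpowers_le, mem_comap]
    have h3 : ((τ y : Q) : Q ⧸ frattini Q) = ((y ^ c.val : Q) : Q ⧸ frattini Q) := hy2
    have h4 := QuotientGroup.eq.1 h3.symm
    have h5 : τ y = y ^ c.val * ((y ^ c.val)⁻¹ * τ y) := by group
    rw [h5]
    exact H.mul_mem (mem_sup_right (npow_mem_zpowers _ _)) (mem_sup_left h4)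
  let τH : H →* H := (τ.comp H.subtype).codRestrict H fun z => hinv z.2
  have hτH : ∀ (j : ℕ) (z : H), ((τH^[j] z : H) : Q) = τ^[j] z := by
    intro j z
    induction j with
    | zero => rfl
    | succ j ih => rw [Function.iterate_succ_apply', Function.iterate_succ_apply', ← ih]; rfl
  have hlt : Nat.card H < n := by
    rw [← hn]
    exact lt_of_le_of_ne (card_le_card_group H) fun h => hHt (eq_top_of_card_eq H h)
  obtain ⟨z, hz1, hz2⟩ := ih _ hlt H rfl (hQ.to_subgroup H) τH (fun z => Subtype.ext (by rw [hτH, hτ]))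
    (χ.comp H.subtype) (fun z => hχ z) ⟨⟨y, mem_sup_right (mem_zpowers y)⟩, hy3⟩
  refine ⟨z, hz1, ?_⟩
  obtain ⟨i, hi⟩ := mem_zpowers_iff.1 hz2
  exact ⟨i, congrArg Subtype.val hi⟩

/-- the unipotent subgroup -/
def uh (p : ℕ) : Multiplicative (ZMod p) →* SL p where
  toFun x := ⟨!![1, x.toAdd; 0, 1], by simp [Matrix.det_fin_two_of]⟩
  map_one' := by ext i j; fin_cases i <;> fin_cases j <;> simp
  map_mul' x y := Subtype.ext <| by
    show !![1, (x * y).toAdd; 0, 1] = !![1, x.toAdd; 0, 1] * !![1, y.toAdd; 0, (1 : ZMod p)]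
    simp [add_comm]

/-- the torus -/
def dh (p : ℕ) : (ZMod p)ˣ →* SL p where
  toFun := dd
  map_one' := by ext i j; fin_cases i <;> fin_cases j <;> simp [dd]
  map_mul' x y := Subtype.ext <| by
    show !![((x * y : (ZMod p)ˣ) : ZMod p), 0; 0, ((x * y)⁻¹ : (ZMod p)ˣ)] =
      !![(x : ZMod p), 0; 0, (x⁻¹ : (ZMod p)ˣ)] * !![(y : ZMod p), 0; 0, (y⁻¹ : (ZMod p)ˣ)]
    simp [mul_comm]

theorem uh_val (p : ℕ) (x : Multiplicative (ZMod p)) : (uh p x).1 = !![1, x.toAdd; 0, 1] := rfl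

theorem dd_val {p : ℕ} (a : (ZMod p)ˣ) : (dd a).1 = !![(a : ZMod p), 0; 0, (a⁻¹ : (ZMod p)ˣ)] := rfl

theorem uh_inj (p : ℕ) : Function.Injective (uh p) := by
  intro x y h
  exact congrArg (fun s : SL p => s.1 0 1) h

theorem dd_uh {p : ℕ} (a : (ZMod p)ˣ) (x : Multiplicative (ZMod p)) :
    dd a * uh p x * (dd a)⁻¹ = uh p (Multiplicative.ofAdd ((a : ZMod p) ^ 2 * x.toAdd)) := by
  rw [mul_inv_eq_iff_eq_mul]
  refine Subtype.ext ?_
  rw [Matrix.SpecialLinearGroup.coe_mul, Matrix.SpecialLinearGroup.coe_mul, uh_val, uh_val, dd_val, toAdd_ofAdd]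
  have : (a : ZMod p) ^ 2 * x.toAdd * (a⁻¹ : (ZMod p)ˣ) = a * x.toAdd := by
    rw [sq, mul_right_comm, mul_assoc (a : ZMod p), Units.mul_inv, mul_one]
  simp [this]

theorem lf_split {G : Type u} [Group G] [Finite G] {p : ℕ} [hp : Fact p.Prime] (π : G →* SL p) (hc : Cov π)
    (hN : IsPGroup p π.ker) {y : G} (hy : π y ≠ 1) (hyp : y ^ p = 1) : π.ker = ⊥ := by
  by_contra hne
  have := hN.isNilpotent
  have hlt := Grp.commutator_sup_lt_of_isNilpotent (bot_lt_iff_ne_bot.2 hne)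
  rw [sup_bot_eq] at hlt
  set D : Subgroup G := ⁅π.ker, π.ker⁆ with hD
  let π' : G ⧸ D →* SL p := QuotientGroup.lift D π hlt.le
  have hker : π'.ker = π.ker.map (QuotientGroup.mk' D) := QuotientGroup.ker_lift D π hlt.le
  have hsurj : Function.Surjective π' := fun s => by
    obtain ⟨g, rfl⟩ := hc.surj s
    exact ⟨g, rfl⟩
  have hcomm : IsMulCommutative π'.ker := by
    refine ⟨⟨fun a b => Subtype.ext ?_⟩⟩
    obtain ⟨a, ha⟩ := a
    obtain ⟨b, hb⟩ := b
    obtain ⟨a, rfl⟩ := QuotientGroup.mk_surjective a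
    obtain ⟨b, rfl⟩ := QuotientGroup.mk_surjective b
    refine QuotientGroup.eq.2 ?_
    have h1 := commutator_mem_commutator (π.ker.inv_mem (show b ∈ π.ker from hb))
      (π.ker.inv_mem (show a ∈ π.ker from ha))
    convert h1 using 1
    rw [commutatorElement_def]; group
  have hord : orderOf (π y) = p := orderOf_eq_prime (by rw [← map_pow, hyp, map_one]) hy
  have hU : π'.ker ⊔ zpowers (y : G ⧸ D) = (zpowers (π y)).comap π' := by
    rw [show π y = π' y from rfl, ← MonoidHom.map_zpowers, comap_map_eq, sup_comm]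
  have hidx : ((zpowers (π y)).comap π').index = p ^ 2 - 1 := by
    rw [index_comap_of_surjective _ hsurj]
    have h1 := (zpowers (π y)).card_mul_index
    rw [Nat.card_zpowers, hord, SLn.card_SL_two, ZMod.card] at h1
    exact Nat.eq_of_mul_eq_mul_left hp.out.pos h1
  have hK : IsPGroup p π'.ker := hker ▸ hN.map _
  obtain ⟨H, hH⟩ := Grp.gaschutz_exists π'.ker ((zpowers (π y)).comap π') (by
      obtain ⟨e, he⟩ := IsPGroup.iff_card.1 hK
      rw [he, hidx]
      refine Nat.Coprime.pow_left _ ?_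
      have h1 : p ^ 2 - 1 + 1 = p * p := by
        rw [Nat.sub_add_cancel (Nat.one_le_pow _ _ hp.out.pos), sq]
      rw [Nat.Prime.coprime_iff_not_dvd hp.out]
      intro h2
      exact hp.out.one_lt.ne' (Nat.dvd_one.1 ((Nat.dvd_add_right h2).1 (h1 ▸ dvd_mul_right p p))))
    (zpowers (y : G ⧸ D)) (by
      rw [eq_bot_iff]
      rintro _ ⟨⟨i, rfl⟩, h1⟩
      have h2 : π y ^ i = 1 := by
        have h3 : π' ((y : G ⧸ D) ^ i) = 1 := h1
        rwa [map_zpow] at h3
      obtain ⟨j, rfl⟩ := orderOf_dvd_iff_zpow_eq_one.2 h2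
      rw [hord, mem_bot]
      show (y : G ⧸ D) ^ ((p : ℤ) * j) = 1
      rw [zpow_mul, zpow_natCast, ← QuotientGroup.mk_pow, hyp]; simp) hU
  have hHt : H.comap (QuotientGroup.mk' D) = ⊤ := by
    refine hc.min _ (eq_top_iff.2 fun s _ => ?_)
    obtain ⟨g, rfl⟩ := hsurj s
    have hg : g ∈ π'.ker ⊔ H := hH.sup_eq_top ▸ mem_top g
    obtain ⟨k, hk, h, hh, rfl⟩ := mem_sup_of_normal_left.1 hg
    obtain ⟨h, rfl⟩ := QuotientGroup.mk_surjective h
    refine ⟨h, hh, ?_⟩
    rw [map_mul, MonoidHom.mem_ker.1 hk, one_mul]; rfl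
  refine hlt.not_ge fun g hg => ?_
  have h1 : (g : G ⧸ D) ∈ π'.ker ⊓ H := ⟨hg, show g ∈ H.comap (QuotientGroup.mk' D) from hHt ▸ mem_top g⟩
  rw [hH.disjoint.eq_bot, mem_bot] at h1
  exact (QuotientGroup.eq_one_iff g).1 h1

theorem lift : Lift.{u} := by
  intro G _ _ p π hp h5 hc hN a
  have : Fact p.Prime := ⟨hp⟩
  have hd : dd a ^ (p - 1) = 1 := by
    show dh p a ^ (p - 1) = 1
    rw [← map_pow, ZMod.units_pow_card_sub_one_eq_one, map_one]
  obtain ⟨y₀, hy₀⟩ := hc.surj (dd a)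
  obtain ⟨e, he⟩ := hN ⟨y₀ ^ (p - 1), by rw [MonoidHom.mem_ker, map_pow, hy₀, hd]⟩
  have he' : (y₀ ^ p ^ e) ^ (p - 1) = 1 := by
    rw [← pow_mul, mul_comm, pow_mul]; exact congrArg Subtype.val he
  have hπt : π (y₀ ^ p ^ e) = dd a := by
    rw [map_pow, hy₀]
    have h1 : dd a ^ p = dd a := by
      have h2 := pow_succ (dd a) (p - 1)
      rwa [Nat.sub_add_cancel hp.one_le, hd, one_mul] at h2
    clear he he'
    induction e with
    | zero => simp
    | succ e ih => rw [pow_succ', pow_mul, h1, ih]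
  set t := y₀ ^ p ^ e
  let P : Subgroup G := (uh p).range.comap π
  let χ : P →* Multiplicative (ZMod p) :=
    (MonoidHom.ofInjective (uh_inj p)).symm.toMonoidHom.comp ((π.comp P.subtype).codRestrict _ fun g => g.2)
  have hχ : ∀ g : P, uh p (χ g) = π g := fun g => MonoidHom.apply_ofInjective_symm (uh_inj p) _
  have hPp : IsPGroup p P := by
    intro g
    have h1 : (g : G) ^ p ∈ π.ker := by
      rw [MonoidHom.mem_ker, map_pow, ← hχ, ← map_pow]
      have : χ g ^ p = 1 := by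
        apply Multiplicative.toAdd.injective
        simp
      rw [this, map_one]
    obtain ⟨k, hk⟩ := hN ⟨_, h1⟩
    refine ⟨k + 1, Subtype.ext ?_⟩
    have h2 : ((g : G) ^ p) ^ p ^ k = 1 := congrArg Subtype.val hk
    show (g : G) ^ p ^ (k + 1) = 1
    rw [pow_succ', pow_mul, h2]
  have hinv : ∀ g : P, π (t * g * t⁻¹) = uh p (Multiplicative.ofAdd ((a : ZMod p) ^ 2 * (χ g).toAdd)) := by
    intro g
    rw [map_mul, map_mul, map_inv, hπt, ← hχ, dd_uh]
  let τ : P →* P := ((MulAut.conj t).toMonoidHom.comp P.subtype).codRestrict P fun g => ⟨_, (hinv g).symm⟩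
  have hτ : ∀ (j : ℕ) (g : P), ((τ^[j] g : P) : G) = t ^ j * g * (t ^ j)⁻¹ := by
    intro j g
    induction j with
    | zero => simp
    | succ j ih =>
      rw [Function.iterate_succ_apply']
      show t * (τ^[j] g : P) * t⁻¹ = _
      rw [ih]; group
  have hχτ : ∀ g, (χ (τ g)).toAdd = (a : ZMod p) ^ 2 * (χ g).toAdd := by
    intro g
    have := uh_inj p ((hχ (τ g)).trans (hinv g))
    rw [this]; rfl
  obtain ⟨x, hx⟩ := hc.surj (uh p (Multiplicative.ofAdd 1))
  obtain ⟨y, hy1, hy2⟩ := lf_cyc ((a : ZMod p) ^ 2) (pow_ne_zero 2 a.ne_zero) _ P rfl hPp τ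
    (fun g => Subtype.ext (by rw [hτ, he']; simp)) χ hχτ ⟨⟨x, _, hx.symm⟩, fun h => by
      have h1 := hχ ⟨x, _, hx.symm⟩
      rw [h] at h1
      have h2 := congrArg Multiplicative.toAdd (uh_inj p (h1.trans hx))
      exact zero_ne_one (α := ZMod p) h2⟩
  obtain ⟨m, hm⟩ := (mem_powers_iff_mem_zpowers.2 hy2)
  have hπy : π y ≠ 1 := fun h => hy1 (uh_inj p (by rw [hχ, h, map_one]))
  obtain ⟨k, hk⟩ := hPp y
  refine ⟨t, y, m, hπt, he', hπy, ⟨k, congrArg Subtype.val hk⟩, (congrArg Subtype.val hm).symm, ?_,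
    fun h1 h2 => h1 (lf_split π hc hN hπy h2)⟩
  have h1 := hχτ y
  rw [← hm] at h1
  simp only [map_pow, toAdd_pow, nsmul_eq_mul] at h1
  exact mul_right_cancel₀ (fun h => hy1 (by simpa using h)) h1

end LiftSec

end CL.Fix6
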