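/-
Project FIX6: counting the weights of the simple modules of `SL₂(p)` in characteristic `p`.
-/
import Cfsg.Agent.Fix6.Defs

set_option autoImplicit false
open Module Subgroup

namespace CL.Fix6

universe v w

namespace WtL

/-- the multiplicity of a weight -/
def mu (n k w : ℕ) : ℕ := ((Finset.range (k + 1)).filter fun j => (2 * j + n * (k + w) - k - w) % n = 0).card

theorem ed_eq {p : ℕ} [Fact p.Prime] {K : Type v} [Field K] [CharP K p] {a : (ZMod p)ˣ} (ha : orderOf a = p - 1)
    (k w : ℕ) [∀ j, Decidable (ZMod.castHom (dvd_refl p) K a ^ j * (ZMod.castHom (dvd_refl p) K a)⁻¹ ^ (k - j) =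
      ZMod.castHom (dvd_refl p) K a ^ w)] : ((Finset.range (k + 1)).filter fun j =>
      ZMod.castHom (dvd_refl p) K a ^ j * (ZMod.castHom (dvd_refl p) K a)⁻¹ ^ (k - j) =
        ZMod.castHom (dvd_refl p) K a ^ w).card = mu (p - 1) k w := by
  have h1 : 1 ≤ p - 1 := by have := (Fact.out : p.Prime).two_le; omega
  have h2 : orderOf (ZMod.castHom (dvd_refl p) K a) = p - 1 := by
    rw [← ha, ← orderOf_units]
    exact orderOf_injective (ZMod.castHom (dvd_refl p) K).toMonoidHom (RingHom.injective _) _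
  have h0 : ZMod.castHom (dvd_refl p) K a ≠ 0 := (map_ne_zero _).2 a.ne_zero
  generalize ZMod.castHom (dvd_refl p) K a = l at *
  generalize p - 1 = n at *
  refine congrArg Finset.card (Finset.filter_congr fun j hj => ?_)
  have h3 : j ≤ k := Nat.lt_succ_iff.1 (Finset.mem_range.1 hj)
  have h4 : k + w ≤ n * (k + w) := Nat.le_mul_of_pos_left _ h1
  have h5 : l ^ (n * (k + w)) = 1 := by rw [pow_mul, ← h2, pow_orderOf_eq_one, one_pow]
  rw [← Nat.dvd_iff_mod_eq_zero, ← h2, orderOf_dvd_iff_pow_eq_one, h2, inv_pow, mul_inv_eq_iff_eq_mul₀ (pow_ne_zero _ h0),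
    ← mul_left_inj' (pow_ne_zero (w + (k - j)) h0) (b := 1), one_mul, ← pow_add, ← pow_add,
    show 2 * j + n * (k + w) - k - w + (w + (k - j)) = j + n * (k + w) by omega, pow_add l j, h5, mul_one]

theorem third (k : ℕ) : (k + 1) / 3 + (if k % 3 = 0 then 1 else 0) ≤
    ((Finset.range (k + 1)).filter fun j => (j + 2 * (k - j)) % 3 = 0).card := by
  rw [← Finset.card_range (_ + _)]
  refine Finset.card_le_card_of_injOn (fun i => 3 * i + (2 * k) % 3) (fun i hi => ?_) fun i _ i' _ e => ?_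
  · simp only [Finset.coe_range, Set.mem_Iio, Finset.coe_filter, Finset.mem_range, Set.mem_setOf_eq] at hi ⊢
    split_ifs at hi <;> omega
  · simp only at e
    omega

theorem mu_eq {n k : ℕ} (w : ℕ) (hn : n % 2 = 0) (hk : k ≤ n) (h0 : 0 < w) (hw' : w < n) :
    mu n k w = (if w ≤ k ∧ (w + k) % 2 = 0 then 1 else 0) + (if n ≤ k + w ∧ (w + k) % 2 = 0 then 1 else 0) := by
  have h4 : k + w ≤ n * (k + w) := Nat.le_mul_of_pos_left _ (by omega)
  have h1 : ∀ j ≤ k, (2 * j + n * (k + w) - k - w) % n = 0 ↔ 2 * j = k + w ∨ 2 * j + n = k + w := fun j hj => by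
    rw [← Nat.dvd_iff_mod_eq_zero, ← Int.natCast_dvd_natCast, Nat.sub_sub, Nat.cast_sub (by omega)]
    push_cast
    rw [add_sub_right_comm, dvd_add_left (dvd_mul_right _ _)]
    refine ⟨fun ⟨c, hc⟩ => ?_, fun h => h.elim (fun e => ⟨0, by omega⟩) fun e => ⟨-1, by omega⟩⟩
    have : c < 1 := by nlinarith
    have : -2 < c := by nlinarith
    interval_cases c <;> omega
  rw [mu, Finset.filter_congr fun j hj => h1 j (Nat.lt_succ_iff.1 (Finset.mem_range.1 hj)), Finset.filter_or,
    Finset.card_union_of_disjoint (Finset.disjoint_filter.2 fun j _ e e' => by omega)]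
  congr 1
  · split_ifs with h
    · exact Finset.card_eq_one.2 ⟨(k + w) / 2, Finset.ext fun j => by
        simp only [Finset.mem_filter, Finset.mem_range, Finset.mem_singleton]; omega⟩
    · exact Finset.card_eq_zero.2 (Finset.filter_eq_empty_iff.2 fun j hj => by have := Finset.mem_range.1 hj; omega)
  · split_ifs with h
    · exact Finset.card_eq_one.2 ⟨(k + w - n) / 2, Finset.ext fun j => by
        simp only [Finset.mem_filter, Finset.mem_range, Finset.mem_singleton]; omega⟩
    · exact Finset.card_eq_zero.2 (Finset.filter_eq_empty_iff.2 fun j hj => by have := Finset.mem_range.1 hj; omega)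

end WtL

theorem wtA_of (h : Wts.{v, w}) : WtA.{v, w} := by
  intro p hp h7 h11 K _ _ _ W _ _ _ σ hs a l ha hl
  obtain ⟨k, hk, h1, h2, h3⟩ := h p (by omega) W σ hs
  subst hl
  have h4 := fun w => (h2 a _).trans (@WtL.ed_eq p _ K _ _ a ha k w fun _ => Classical.propDecidable _)
  have h5 := h4 1
  rw [pow_one] at h5
  rw [h1, h4, h4, h4, h5]
  refine le_trans ?_ (Nat.add_le_add_left (Nat.mul_le_mul_left 4 h3) _)
  rcases h7.eq_or_lt with rfl | h8
  · clear h1 h2 h3 h4 h5; revert k; decide +kernel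
  have h9 : 13 ≤ p := by
    by_contra h
    have := hp.out
    interval_cases p <;> first | omega | norm_num at this
  have h10 := hp.out.eq_two_or_odd.resolve_left (by omega)
  have h12 := WtL.third k
  rw [WtL.mu_eq 1 (by omega) (by omega) (by omega) (by omega), WtL.mu_eq 3 (by omega) (by omega) (by omega) (by omega),
    WtL.mu_eq 4 (by omega) (by omega) (by omega) (by omega), WtL.mu_eq 6 (by omega) (by omega) (by omega) (by omega)]
  clear h1 h2 h3 h4 h5
  obtain ⟨e1, e3, e4, e6⟩ : (1 + k) % 2 = 1 - k % 2 ∧ (3 + k) % 2 = 1 - k % 2 ∧ (4 + k) % 2 = k % 2 ∧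
    (6 + k) % 2 = k % 2 := by omega
  rw [e1, e3, e4, e6]
  obtain ⟨m, r, hr, e, e'⟩ : ∃ m r, r < 3 ∧ k = 3 * m + r ∧ k % 3 = r := ⟨k / 3, k % 3, by omega, by omega, rfl⟩
  rw [e'] at h12
  clear e1 e3 e4 e6 e'
  rcases Nat.mod_two_eq_zero_or_one k with h | h <;>
    simp only [h, Nat.sub_zero, Nat.sub_self, one_ne_zero, and_false, and_true, if_false] <;>
    interval_cases r <;> simp only [if_true, one_ne_zero, if_false, OfNat.ofNat_ne_zero] at h12 <;>
    split_ifs <;> omega

theorem wtB_of (h : Wts.{v, w}) : WtB.{v, w} := by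
  intro K _ _ _ W _ _ _ σ hs a l ha hl
  have hp : Fact (Nat.Prime 11) := ⟨by norm_num⟩
  obtain ⟨k, hk, h1, h2, h3⟩ := h 11 (by omega) W σ hs
  subst hl
  have h4 := fun w => (h2 a _).trans (@WtL.ed_eq 11 _ K _ _ a ha k w fun _ => Classical.propDecidable _)
  have h5 := h4 1
  rw [pow_one] at h5
  erw [h1, h4, h4, h4, h5]
  refine le_trans ?_ (Nat.add_le_add_left (Nat.mul_le_mul_left 5 h3) _)
  clear h1 h2 h3 h4 h5
  revert k; decide +kernel

end CL.Fix6
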