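/-
The simple modules of `SL₂(p)` in characteristic `p` (helper15).
-/
import Cfsg.Agent.Fix6.Defs
import Cfsg.Agent.Fgs.FixDimA

set_option autoImplicit false
set_option linter.unusedSectionVars false

open Module Matrix

namespace CL.Fix6.WtsP

universe v w

variable {p : ℕ} {K : Type v} [Field K]

/-- the upper unitriangular matrices -/
def up (b : ZMod p) : SL p := ⟨!![1, b; 0, 1], by simp [Matrix.det_fin_two_of]⟩

/-- the second kind of elements -/
def lw (j : ZMod p) : SL p := ⟨!![j, -1; 1, 0], by simp [Matrix.det_fin_two_of]⟩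

theorem cmul (g h : SL p) : (g * h).1 = g.1 * h.1 := rfl

theorem uu_pow (n : ℕ) : uu p ^ n = up (n : ZMod p) := by
  induction n with
  | zero => ext i j; fin_cases i <;> fin_cases j <;> simp [up]
  | succ n ih =>
    rw [pow_succ, ih]
    exact Subtype.ext ((cmul _ _).trans (by ext i j; fin_cases i <;> fin_cases j <;> simp [up, uu, add_comm]))

theorem dd_mul (a b : (ZMod p)ˣ) : dd (a * b) = dd a * dd b := by
  refine Subtype.ext (Eq.trans ?_ (cmul _ _).symm)
  ext i j; fin_cases i <;> fin_cases j <;> simp [dd, mul_comm]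

theorem dd_one : dd (1 : (ZMod p)ˣ) = 1 := by
  ext i j; fin_cases i <;> fin_cases j <;> simp [dd]

theorem dd_pow (a : (ZMod p)ˣ) (n : ℕ) : dd (a ^ n) = dd a ^ n := by
  induction n with
  | zero => simpa using dd_one
  | succ n ih => rw [pow_succ, pow_succ, dd_mul, ih]

theorem uu_mul_dd (a : (ZMod p)ˣ) : uu p * dd a = dd a * up ((a⁻¹ * a⁻¹ : (ZMod p)ˣ) : ZMod p) := by
  refine Subtype.ext ((cmul _ _).trans (Eq.trans ?_ (cmul _ _).symm))
  ext i j; fin_cases i <;> fin_cases j <;> simp [dd, uu, up]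

theorem row_mul (g h : SL p) : (g * h).1 1 = g.1 1 ᵥ* h.1 := Matrix.mul_apply_eq_vecMul _ _ _

theorem exists_up {g h : SL p} (e : g.1 1 = h.1 1) : ∃ b, g = up b * h := by
  have e1 : (g * h⁻¹).1 1 = (1 : SL p).1 1 := by rw [row_mul, e, ← row_mul, mul_inv_cancel]
  have e2 := (g * h⁻¹).2
  refine ⟨(g * h⁻¹).1 0 1, mul_inv_eq_iff_eq_mul.1 ?_⟩
  generalize g * h⁻¹ = u at e1 e2
  have k0 : u.1 1 0 = 0 := by simpa using congrFun e1 0
  have k1 : u.1 1 1 = 1 := by simpa using congrFun e1 1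
  rw [det_fin_two, k0, k1, mul_one, mul_zero, sub_zero] at e2
  ext i j; fin_cases i <;> fin_cases j <;> simp [up, k0, k1, e2]

theorem exists_fix {V : Type*} [AddCommGroup V] [Module K V] [Nontrivial V] [Fact p.Prime] [CharP K p] (T : End K V)
    (h : T ^ p = 1) : ∃ x, x ≠ 0 ∧ T x = x := by
  have : CharP (End K V) p := charP_of_injective_algebraMap (algebraMap K (End K V)).injective p
  have e : (T - 1) ^ p = 0 := by rw [sub_pow_char_of_commute _ (Commute.one_right T), h, one_pow, sub_self]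
  by_contra k
  push Not at k
  have i1 : Function.Injective (T - 1 : End K V) := (injective_iff_map_eq_zero _).2 fun x hx => by_contra fun h0 =>
    k x h0 (by simpa [sub_eq_zero] using hx)
  have i2 := Module.End.iterate_injective i1 p
  obtain ⟨x, hx⟩ := exists_ne (0 : V)
  exact hx (i2 (by rw [e]; simp))

theorem pow_pair_le {A : Type*} [CommRing A] [Algebra K A] (a b : A) (k : ℕ) : Submodule.span K {a, b} ^ k ≤
    Submodule.span K (Set.range fun j : Fin (k + 1) => a ^ (j : ℕ) * b ^ (k - j)) := by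
  induction k with
  | zero => rw [pow_zero, Submodule.one_eq_span, Submodule.span_singleton_le_iff_mem]
            exact Submodule.subset_span ⟨0, by simp⟩
  | succ k ih =>
    rw [pow_succ]
    refine (mul_le_mul_left ih _).trans ?_
    rw [Submodule.span_mul_span, Submodule.span_le]
    rintro _ ⟨_, ⟨j, rfl⟩, c, rfl | rfl, rfl⟩
    · exact Submodule.subset_span ⟨j.succ, by simp only [Fin.val_succ, Nat.add_sub_add_right]; ring⟩
    · refine Submodule.subset_span ⟨j.castSucc, ?_⟩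
      simp only [Fin.val_castSucc, Nat.succ_sub (Nat.lt_succ_iff.1 j.2), pow_succ, mul_assoc]

theorem mon_mem {A : Type*} [CommRing A] [Algebra K A] {L : Submodule K A} {a b : A} (ha : a ∈ L) (hb : b ∈ L)
    {k : ℕ} (j : Fin (k + 1)) : a ^ (j : ℕ) * b ^ (k - j) ∈ L ^ k := by
  have := Submodule.mul_mem_mul (Submodule.pow_mem_pow L ha j) (Submodule.pow_mem_pow L hb (k - j))
  rwa [← pow_add, Nat.add_sub_cancel' (Nat.lt_succ_iff.1 j.2)] at this

variable {W : Type w} [AddCommGroup W] [Module K W] [FiniteDimensional K W]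

open Classical in
theorem ed_eq {k : ℕ} (b : Basis (Fin (k + 1)) K W) {T : End K W} (μ : ℕ → K) (h : ∀ i, T (b i) = μ i • b i) (l : K) :
    finrank K (End.eigenspace T l) = ((Finset.range (k + 1)).filter fun j => μ j = l).card := by
  have := CL.Fgs.FD.fx_eq_card b (T := T - algebraMap K _ l + 1) (μ := fun i => μ i - l + 1) fun i => by
    simp [h, sub_smul, add_smul]
  rw [CL.Fgs.FD.fx, add_sub_cancel_right] at this
  rw [End.eigenspace_def, ← Algebra.algebraMap_eq_smul_one, this, Finset.card_filter, Finset.card_filter,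
    ← Fin.sum_univ_eq_sum_range fun j => if μ j = l then 1 else 0]
  simp [sub_eq_zero]

theorem exists_basis {V : Type*} [AddCommGroup V] [Module K V] {Φ : W →ₗ[K] V} (hΦ : Function.Injective Φ) {k : ℕ}
    (hd : finrank K W = k + 1) (m : Fin (k + 1) → V) (hm : ∀ j, m j ∈ LinearMap.range Φ)
    (hs : LinearMap.range Φ ≤ Submodule.span K (Set.range m)) : ∃ b : Basis (Fin (k + 1)) K W, ∀ j, Φ (b j) = m j := by
  choose w hw using hm
  refine ⟨basisOfTopLeSpanOfCardEqFinrank w (fun x _ => ?_) (by simp [hd]), fun j => by simp [hw]⟩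
  have : m = Φ ∘ w := funext fun j => (hw j).symm
  rw [this, Set.range_comp, ← Submodule.map_span] at hs
  obtain ⟨y, hy, e⟩ := hs ⟨x, rfl⟩
  exact hΦ e ▸ hy

variable [hp : Fact p.Prime] [CharP K p] (c : ZMod p →+* K)

theorem up_eq (b : ZMod p) : up b = uu p ^ b.val := by rw [uu_pow, ZMod.natCast_zmod_val]

theorem uu_pow_p : uu p ^ p = 1 := by rw [uu_pow, ZMod.natCast_self, ← Nat.cast_zero, ← uu_pow, pow_zero]

theorem exists_row {v : Fin 2 → ZMod p} (hv : v ≠ 0) : ∃ g : SL p, g.1 1 = v := by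
  by_cases h1 : v 1 = 0
  · have h0 : v 0 ≠ 0 := fun h => hv (by ext i; fin_cases i <;> simp [h, h1])
    exact ⟨⟨!![0, -(v 0)⁻¹; v 0, v 1], by simp [Matrix.det_fin_two_of, h0]⟩, by ext i; fin_cases i <;> simp⟩
  · exact ⟨⟨!![(v 1)⁻¹, 0; v 0, v 1], by simp [Matrix.det_fin_two_of, h1]⟩, by ext i; fin_cases i <;> simp⟩

theorem row_ne (g : SL p) : g.1 1 ≠ 0 := fun h => by
  have := g.2
  rw [det_fin_two, congrFun h 0, congrFun h 1] at this
  simp at this

theorem coef_zero {k : ℕ} (hk : k < p) (a : Fin (k + 1) → K) (h : ∀ j : ZMod p, ∑ i, a i * c j ^ (i : ℕ) = 0) :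
    a = 0 := by
  have hi : Function.Injective fun i : Fin (k + 1) => c ((i : ℕ) : ZMod p) := fun i j e => by
    have := (ZMod.natCast_eq_natCast_iff' _ _ _).1 (c.injective e)
    rw [Nat.mod_eq_of_lt (by omega), Nat.mod_eq_of_lt (by omega)] at this
    exact Fin.ext this
  exact Matrix.eq_zero_of_forall_index_sum_mul_pow_eq_zero hi fun j => h _

theorem exists_phi [IsAlgClosed K] [Nontrivial W] (σ : Representation K (SL p) W) :
    ∃ (φ : Dual K W) (k : ℕ), φ ≠ 0 ∧ 1 ≤ k ∧ k < p ∧ (∀ b w, φ (σ (up b) w) = φ w) ∧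
      ∀ (a : (ZMod p)ˣ) w, φ (σ (dd a⁻¹) w) = c a ^ k * φ w := by
  have h2 := hp.out.two_le
  have : NeZero (p - 1) := ⟨by omega⟩
  obtain ⟨a₀, ha₀⟩ := IsCyclic.exists_monoid_generator (α := (ZMod p)ˣ)
  have ho : orderOf a₀ = p - 1 := by
    rw [orderOf_eq_card_of_forall_mem_powers ha₀, Nat.card_eq_fintype_card, ZMod.card_units]
  have hr : IsPrimitiveRoot (c a₀) (p - 1) :=
    (IsPrimitiveRoot.coe_units_iff.2 (ho ▸ IsPrimitiveRoot.orderOf a₀)).map_of_injective c.injective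
  obtain ⟨ψ, h0, hψ⟩ := exists_fix (p := p) (σ.dual (uu p)) (by rw [← map_pow, uu_pow_p, map_one])
  have hu : ∀ φ, σ.dual (uu p) φ = φ → ∀ b, σ.dual (up b) φ = φ := fun φ h b => by
    rw [up_eq, map_pow, CL.Fgs.FD.pow_eigen _ (h.trans (one_smul K φ).symm), one_pow, one_smul]
  let E : Submodule K (Dual K W) := LinearMap.ker (σ.dual (uu p) - 1)
  have hE : ∀ φ ∈ E, σ.dual (dd a₀) φ ∈ E := fun φ h => CL.Fgs.FD.mem_fix.2 (by
    rw [← End.mul_apply, ← map_mul, uu_mul_dd, map_mul, End.mul_apply, hu φ (CL.Fgs.FD.mem_fix.1 h)])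
  have : Nontrivial E := ⟨⟨⟨ψ, CL.Fgs.FD.mem_fix.2 hψ⟩, 0, fun e => h0 (congrArg Subtype.val e)⟩⟩
  obtain ⟨μ, hμ⟩ := End.exists_eigenvalue (K := K) (V := E) ((σ.dual (dd a₀)).restrict hE)
  obtain ⟨φ, hφ⟩ := hμ.exists_hasEigenvector
  have e1 : σ.dual (dd a₀) φ = μ • (φ : Dual K W) := congrArg Subtype.val hφ.apply_eq_smul
  have n0 : (φ : Dual K W) ≠ 0 := fun e => hφ.2 (Subtype.ext e)
  have e2 : ∀ n : ℕ, σ.dual (dd (a₀ ^ n)) φ = μ ^ n • (φ : Dual K W) := fun n => by
    rw [dd_pow, map_pow, CL.Fgs.FD.pow_eigen _ e1]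
  have e3 : μ ^ (p - 1) = 1 := by
    have := e2 (p - 1)
    rw [← ho, pow_orderOf_eq_one, dd_one, map_one, End.one_apply, ho] at this
    exact smul_left_injective K n0 (this.symm.trans (one_smul K _).symm)
  obtain ⟨k, hk1, hk2, hk⟩ : ∃ k, 1 ≤ k ∧ k < p ∧ c a₀ ^ k = μ := by
    obtain ⟨i, hi, e⟩ := hr.eq_pow_of_pow_eq_one e3
    rcases i.eq_zero_or_pos with rfl | h
    · exact ⟨p - 1, by omega, by omega, by rw [← e, pow_zero, hr.pow_eq_one]⟩
    · exact ⟨i, h, by omega, e⟩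
  refine ⟨φ, k, n0, hk1, hk2, fun b w => ?_, fun a w => ?_⟩
  · conv_lhs => rw [← hu φ (CL.Fgs.FD.mem_fix.1 φ.2) b]
    rw [Representation.dual_apply, Dual.transpose_apply, LinearMap.comp_apply, ← End.mul_apply, ← map_mul,
      inv_mul_cancel, map_one, End.one_apply]
  · obtain ⟨n, rfl⟩ := ha₀ a
    have := LinearMap.congr_fun (e2 n) w
    rw [Representation.dual_apply, Dual.transpose_apply, LinearMap.comp_apply,
      ← eq_inv_of_mul_eq_one_left ((dd_mul _ _).symm.trans (by rw [inv_mul_cancel, dd_one]))] at this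
    rw [this, ← hk, Units.val_pow_eq_pow_val, map_pow, ← pow_mul, ← pow_mul, mul_comm n]
    rfl

theorem exists_Phi [IsAlgClosed K] (σ : Representation K (SL p) W) (hs : Simp σ) :
    ∃ (Φ : W →ₗ[K] ((Fin 2 → ZMod p) → K)) (k : ℕ), Function.Injective Φ ∧ 1 ≤ k ∧ k < p ∧
      (∀ g w v, Φ (σ g w) v = Φ w (v ᵥ* g.1)) ∧ ∀ w (a : ZMod p) v, Φ w (a • v) = c a ^ k * Φ w v := by
  classical
  have := hs.1
  obtain ⟨φ, k, n0, hk1, hk2, hu, hd⟩ := exists_phi c σ
  let Φ : W →ₗ[K] ((Fin 2 → ZMod p) → K) :=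
    LinearMap.pi fun v => if h : ∃ g : SL p, g.1 1 = v then φ ∘ₗ σ h.choose else 0
  have r : ∀ (g : SL p) w, Φ w (g.1 1) = φ (σ g w) := fun g w => by
    have h : ∃ g' : SL p, g'.1 1 = g.1 1 := ⟨g, rfl⟩
    obtain ⟨b, hb⟩ := exists_up h.choose_spec
    simp only [Φ, LinearMap.pi_apply, dif_pos h, LinearMap.comp_apply]
    rw [hb, map_mul, End.mul_apply, hu]
  have z : ∀ w, Φ w 0 = 0 := fun w => by
    simp only [Φ, LinearMap.pi_apply, dif_neg fun (⟨g, h⟩ : ∃ g : SL p, g.1 1 = 0) => row_ne g h, LinearMap.zero_apply]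
  have q : ∀ g w v, Φ (σ g w) v = Φ w (v ᵥ* g.1) := fun g w v => by
    by_cases hv : v = 0
    · rw [hv, zero_vecMul, z, z]
    · obtain ⟨h, rfl⟩ := exists_row hv
      rw [← row_mul, r, r, map_mul, End.mul_apply]
  refine ⟨Φ, k, LinearMap.ker_eq_bot.1 ((hs.2 _ fun g x hx => ?_).resolve_right fun e => n0 ?_), hk1, hk2, q,
    fun w a v => ?_⟩
  · exact funext fun v => by rw [q, LinearMap.mem_ker.1 hx]; rfl
  · refine LinearMap.ext fun w => ?_
    have := r 1 w
    rw [LinearMap.mem_ker.1 (e.ge Submodule.mem_top), map_one] at this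
    exact this.symm
  by_cases ha : a = 0
  · rw [ha, zero_smul, z, map_zero, zero_pow (by omega), zero_mul]
  by_cases hv : v = 0
  · rw [hv, smul_zero, z, mul_zero]
  obtain ⟨h, rfl⟩ := exists_row hv
  have e : a • h.1 1 = (dd (Units.mk0 a ha)⁻¹ * h).1 1 := by
    rw [row_mul]
    ext i
    simp [dd, vecMul, dotProduct]
  rw [e, r, r, map_mul, End.mul_apply, hd]
  rfl

/-- the coordinate functions -/
def co (i : Fin 2) : (Fin 2 → ZMod p) → K := fun v => c (v i)

theorem exists_top (h5 : 5 ≤ p) (σ : Representation K (SL p) W) [Nontrivial W]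
    {Φ : W →ₗ[K] ((Fin 2 → ZMod p) → K)} {k : ℕ} (hΦ : Function.Injective Φ) (hk1 : 1 ≤ k) (hk2 : k < p)
    (q : ∀ g w v, Φ (σ g w) v = Φ w (v ᵥ* g.1)) (hh : ∀ w (a : ZMod p) v, Φ w (a • v) = c a ^ k * Φ w v) :
    co c 0 ^ k ∈ LinearMap.range Φ ∨ ∃ w, w ≠ 0 ∧ ∀ g, σ g w = w := by
  classical
  obtain ⟨w, w0, hw⟩ := exists_fix (p := p) (σ (uu p)) (by rw [← map_pow, uu_pow_p, map_one])
  have hu : ∀ b, σ (up b) w = w := fun b => by
    rw [up_eq, map_pow, CL.Fgs.FD.pow_eigen _ (hw.trans (one_smul K w).symm), one_pow, one_smul]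
  have z0 : c 0 ^ k = 0 := by rw [map_zero, zero_pow (by omega)]
  obtain ⟨α, hα⟩ : ∃ α, α = Φ w ![0, 1] := ⟨_, rfl⟩
  obtain ⟨β, hβ⟩ : ∃ β, β = Φ w ![1, 0] := ⟨_, rfl⟩
  obtain ⟨ε, hε⟩ : ∃ ε, ε = ∑ t : ZMod p, c t ^ k := ⟨_, rfl⟩
  have f : ∀ v, Φ w v = c (v 0) ^ k * β + if v 0 = 0 then c (v 1) ^ k * α else 0 := fun v => by
    split_ifs with h
    · rw [h, z0, zero_mul, zero_add, hα, ← hh]
      exact congrArg _ (by ext i; fin_cases i <;> simp [h])
    · rw [add_zero, hβ, ← hh, ← congrArg (Φ · v) (hu (-(v 1 / v 0))), q]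
      refine congrArg _ ?_
      ext i; fin_cases i <;> simp [up, vecMul, dotProduct]
      field_simp
      ring
  have sc : ∀ (x : W) (γ : K), γ ≠ 0 → (∀ v, Φ x v = c (v 0) ^ k * γ) → co c 0 ^ k ∈ LinearMap.range Φ :=
    fun x γ h e => ⟨γ⁻¹ • x, funext fun v => by rw [map_smul, Pi.smul_apply, e, smul_eq_mul, Pi.pow_apply, co]; field_simp⟩
  by_cases h1 : α = 0
  · refine Or.inl (sc w β (fun h => w0 (hΦ (funext fun v => ?_))) fun v => by simp [f, h1])
    simp [f, h, h1]
  by_cases h2 : ε * β + (-1) ^ k * α = 0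
  · have hk : k = p - 1 := by
      by_contra h
      have := FiniteField.sum_pow_lt_card_sub_one (K := ZMod p) k (by rw [ZMod.card]; omega)
      rw [hε, ← Finset.sum_congr rfl fun t _ => map_pow c t k, ← map_sum, this] at h2
      simp [h1] at h2
    have o : ∀ t : ZMod p, c t ^ k = 1 - if t = 0 then 1 else 0 := fun t => by
      split_ifs with h
      · rw [h, z0, sub_self]
      · rw [← map_pow, hk, ZMod.pow_card_sub_one_eq_one h, map_one, sub_zero]
    have e1 : ε = -1 := by simp [hε, o]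
    have e2 : β = α := by
      rw [e1, hk, (hp.out.even_sub_one (by omega)).neg_one_pow] at h2
      linear_combination -h2
    have f2 : ∀ v, v ≠ 0 → Φ w v = α := fun v hv => by
      rw [f, o, o, e2]
      split_ifs with a b
      · exact absurd (by ext i; fin_cases i <;> simp [a, b]) hv
      all_goals ring
    refine Or.inr ⟨w, w0, fun g => hΦ (funext fun v => ?_)⟩
    by_cases hv : v = 0
    · rw [q, hv, zero_vecMul]
    · obtain ⟨h, rfl⟩ := exists_row hv
      rw [q, ← row_mul, f2 _ (row_ne _), f2 _ hv]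
  refine Or.inl (sc (∑ j, σ (lw j) w) _ h2 fun v => ?_)
  have e : ∀ j, Φ (σ (lw j) w) v = c (v 0 * j + v 1) ^ k * β +
      if v 0 * j + v 1 = 0 then c (-v 0) ^ k * α else 0 := fun j => by
    rw [q, f]
    simp [lw, vecMul, dotProduct]
  rw [map_sum, Finset.sum_apply, Finset.sum_congr rfl fun j _ => e j]
  by_cases h : v 0 = 0
  · simp [h, z0, show k ≠ 0 by omega]
  have e3 : ε = c (v 0) ^ k * ε := by
    rw [hε, Finset.mul_sum, ← Equiv.sum_comp (Equiv.mulLeft₀ (v 0) h)]
    simp [mul_pow]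
  refine (Equiv.sum_comp ((Equiv.mulLeft₀ (v 0) h).trans (Equiv.addRight (v 1))) fun t => c t ^ k * β +
      if t = 0 then c (-v 0) ^ k * α else 0).trans ?_
  rw [Finset.sum_add_distrib, ← Finset.sum_mul, ← hε, Finset.sum_ite_eq',
    if_pos (Finset.mem_univ _), map_neg, neg_pow]
  linear_combination β * e3

variable (K) in
/-- the action on functions -/
def ac (g : SL p) : ((Fin 2 → ZMod p) → K) →ₐ[K] ((Fin 2 → ZMod p) → K) where
  toFun f v := f (v ᵥ* g.1)
  map_one' := rfl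
  map_mul' _ _ := rfl
  map_zero' := rfl
  map_add' _ _ := rfl
  commutes' _ := rfl

theorem ac_co (g : SL p) (i : Fin 2) : ac K g (co c i) = c (g.1 0 i) • co c 0 + c (g.1 1 i) • co c 1 := by
  ext v
  change c ((v ᵥ* g.1) i) = _
  simp [co, vecMul, dotProduct, mul_comm]

theorem range_eq (σ : Representation K (SL p) W) (hs : Simp σ) {Φ : W →ₗ[K] ((Fin 2 → ZMod p) → K)} {k : ℕ}
    (hk2 : k < p) (q : ∀ g w, Φ (σ g w) = ac K g (Φ w)) (hx : co c 0 ^ k ∈ LinearMap.range Φ) :
    LinearMap.range Φ = Submodule.span K {co c 0, co c 1} ^ k := by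
  obtain ⟨L, hL⟩ : ∃ L, L = Submodule.span K {co c 0, co c 1} := ⟨_, rfl⟩
  have m0 : co c 0 ∈ L := hL ▸ Submodule.subset_span (by simp)
  have m1 : co c 1 ∈ L := hL ▸ Submodule.subset_span (by simp)
  have hi : ∀ g, L.map (ac K g).toLinearMap ≤ L := fun g => by
    nth_rewrite 1 [hL]
    rw [Submodule.map_span, Submodule.span_le]
    rintro _ ⟨_, rfl | rfl, rfl⟩ <;>
      exact (ac_co c g _).symm ▸ L.add_mem (L.smul_mem _ m0) (L.smul_mem _ m1)
  obtain ⟨x, hx⟩ := hx
  refine le_antisymm ?_ ((pow_pair_le _ _ k).trans (Submodule.span_le.2 ?_))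
  · rw [← hL]
    refine LinearMap.range_le_iff_comap.2 ((hs.2 _ fun g y hy => ?_).resolve_left fun e => ?_)
    · rw [Submodule.mem_comap, q]
      exact pow_le_pow_left' (hi g) k ((Submodule.map_pow L (ac K g) k).le ⟨_, hy, rfl⟩)
    · have : x = 0 := e.le (show Φ x ∈ _ from hx ▸ Submodule.pow_mem_pow L m0 k)
      have := congrFun (this ▸ hx) ![1, 0]
      simp [co] at this
  rintro _ ⟨i, rfl⟩
  refine (Subspace.forall_mem_dualAnnihilator_apply_eq_zero_iff _ _).1 fun ψ hψ => ?_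
  have := congrFun (coef_zero c hk2 (fun i => (k.choose i : K) * ψ (co c 0 ^ (i : ℕ) * co c 1 ^ (k - i)))
    fun j => ?_) i
  · refine (mul_eq_zero.1 this).resolve_left fun h => ?_
    have := (CharP.cast_eq_zero_iff K p _).1 h
    have h3 : p ∣ k.factorial := Nat.choose_mul_factorial_mul_factorial (Nat.lt_succ_iff.1 i.2) ▸
      (this.mul_right _).mul_right _
    exact absurd (hp.out.dvd_factorial.1 h3) (by omega)
  · rw [← (Submodule.mem_dualAnnihilator ψ).1 hψ _ ⟨σ (lw j) x, rfl⟩, q, hx, map_pow, ac_co, add_pow,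
      Finset.sum_range, map_sum]
    refine Finset.sum_congr rfl fun i _ => ?_
    rw [← smul_eq_mul, ← smul_eq_mul, ← map_smul, smul_eq_mul, mul_comm, ← smul_eq_mul, ← map_smul]
    congr 1
    ext v
    simp [lw]
    ring

theorem finrank_eq {Φ : W →ₗ[K] ((Fin 2 → ZMod p) → K)} {k : ℕ} (hΦ : Function.Injective Φ) (hk2 : k < p)
    (h : LinearMap.range Φ = Submodule.span K {co c 0, co c 1} ^ k) : finrank K W = k + 1 := by
  have li : LinearIndependent K fun j : Fin (k + 1) => co c 0 ^ (j : ℕ) * co c 1 ^ (k - j) :=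
    Fintype.linearIndependent_iff.2 fun a ha => congrFun (coef_zero c hk2 a fun j => by
      simpa [co] using congrFun ha ![j, 1])
  rw [← LinearMap.finrank_range_of_inj hΦ, h, le_antisymm (pow_pair_le _ _ k) (Submodule.span_le.2 (by
    rintro _ ⟨j, rfl⟩
    exact mon_mem (Submodule.subset_span (by simp)) (Submodule.subset_span (by simp)) j)), finrank_span_eq_card li,
    Fintype.card_fin]

end CL.Fix6.WtsP

namespace CL.Fix6

open WtsP

universe v w

theorem wts : Wts.{v, w} := by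
  intro p hp h5 K _ _ _ W _ _ _ σ hs
  classical
  have := hs.1
  generalize ZMod.castHom (dvd_refl p) K = c
  obtain ⟨Φ, k, hΦ, hk1, hk2, q, hh⟩ := exists_Phi c σ hs
  rcases exists_top c h5 σ hΦ hk1 hk2 q hh with hx | ⟨x, x0, hx⟩
  swap
  · have e : Submodule.span K {x} = ⊤ := (hs.2 _ fun g y hy => by
      obtain ⟨a, rfl⟩ := Submodule.mem_span_singleton.1 hy
      rwa [map_smul, hx]).resolve_left (by simpa using x0)
    have hd : finrank K W = 0 + 1 := by rw [← finrank_top, ← e, finrank_span_singleton x0]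
    obtain ⟨b, hb⟩ := exists_basis (Φ := LinearMap.id) Function.injective_id hd (fun _ => x) (fun _ => ⟨x, rfl⟩)
      (by simp [e])
    have t : ∀ g l, ed σ g l = ((Finset.range (0 + 1)).filter fun _ => (1 : K) = l).card := fun g l =>
      ed_eq b (fun _ => 1) (fun i => by rw [show b i = x from hb i, hx, one_smul]) l
    refine ⟨0, by omega, hd, fun a l => (t _ l).trans ?_, by rw [t]; simp [Finset.filter_singleton]⟩
    congr 1
    exact Finset.filter_congr fun j hj => by simp [Finset.mem_range.1 hj |> Nat.lt_one_iff.1]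
  have q' : ∀ g w, Φ (σ g w) = ac K g (Φ w) := fun g w => funext (q g w)
  have hr := range_eq c σ hs hk2 q' hx
  have hd := finrank_eq c hΦ hk2 hr
  have key : ∀ (l₁ l₂ : (Fin 2 → ZMod p) → K), Submodule.span K {l₁, l₂} = Submodule.span K {co c 0, co c 1} →
      ∀ g (μ ν : K), ac K g l₁ = μ • l₁ → ac K g l₂ = ν • l₂ → ∀ l,
      ed σ g l = ((Finset.range (k + 1)).filter fun j => μ ^ j * ν ^ (k - j) = l).card := by
    intro l₁ l₂ e g μ ν e1 e2 l
    obtain ⟨b, hb⟩ := exists_basis hΦ hd (fun j => l₁ ^ (j : ℕ) * l₂ ^ (k - j)) (fun j => by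
      rw [hr, ← e]
      exact mon_mem (Submodule.subset_span (by simp)) (Submodule.subset_span (by simp)) j)
      (by rw [hr, ← e]; exact pow_pair_le _ _ k)
    exact ed_eq b (fun j => μ ^ j * ν ^ (k - j)) (fun i => hΦ (by
      rw [q', map_smul, hb, map_mul, map_pow, map_pow, e1, e2, smul_pow, smul_pow, smul_mul_smul_comm])) l
  refine ⟨k, hk2, hd, fun a l => key _ _ rfl _ _ _ ?_ ?_ l, ?_⟩
  · rw [ac_co]
    simp only [dd, of_apply, cons_val', cons_val_zero, cons_val_one, cons_val_fin_one, map_zero, zero_smul, add_zero]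
  · rw [ac_co, ← map_inv₀, ← Units.val_inv_eq_inv_val]
    simp only [dd, of_apply, cons_val', cons_val_zero, cons_val_one, cons_val_fin_one, map_zero, zero_smul, zero_add]
  have hn : ∀ n : ℕ, 0 < n → n < 5 → (n : K) ≠ 0 := fun n h1 h2 h =>
    absurd (Nat.le_of_dvd h1 ((CharP.cast_eq_zero_iff K p n).1 h)) (by omega)
  have : NeZero (2 : K) := ⟨by exact_mod_cast hn 2 (by omega) (by omega)⟩
  obtain ⟨ω, hω⟩ := exists_quadratic_eq_zero (a := (1 : K)) (b := 1) (c := 1) one_ne_zero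
    (IsAlgClosed.exists_eq_mul_self _)
  have h3 : ω ^ 3 = 1 := by linear_combination (ω - 1) * hω
  have h4 : ω ^ 2 - ω ≠ 0 := fun h => hn 3 (by omega) (by omega) (by
    push_cast
    linear_combination (3 - 2 * ω) * hω + (2 * ω + 1) * h)
  obtain ⟨η, hη⟩ : ∃ η, (ω ^ 2 - ω) * η = 1 := ⟨_, mul_inv_cancel₀ h4⟩
  have m : ∀ {a b c : (Fin 2 → ZMod p) → K} (s t : K), c = s • a + t • b → c ∈ Submodule.span K {a, b} :=
    fun s t e => Submodule.mem_span_pair.2 ⟨s, t, e.symm⟩
  rw [key (co c 0 - ω • co c 1) (co c 0 - ω ^ 2 • co c 1) ?_ _ ω (ω ^ 2) ?_ ?_]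
  · refine Finset.card_le_card fun j hj => ?_
    rw [Finset.mem_filter] at hj ⊢
    obtain ⟨n, hn⟩ := Nat.dvd_of_mod_eq_zero hj.2
    exact ⟨hj.1, by rw [← pow_mul, ← pow_add, hn, pow_mul, h3, one_pow]⟩
  · refine le_antisymm (Submodule.span_le.2 ?_) (Submodule.span_le.2 ?_)
    · rintro _ (rfl | rfl)
      · exact m 1 (-ω) (by module)
      · exact m 1 (-ω ^ 2) (by module)
    · rintro _ (rfl | rfl)
      · refine m (ω ^ 2 * η) (-ω * η) ?_
        match_scalars
        · linear_combination -hη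
        · ring
      · refine m η (-η) ?_
        match_scalars
        · linear_combination -hη
        · ring
  · rw [map_sub, map_smul, ac_co, ac_co]
    simp only [xa, of_apply, cons_val', cons_val_zero, cons_val_one, cons_val_fin_one, map_zero, map_neg, map_one,
      inv_one, Units.val_one]
    match_scalars
    · ring
    · linear_combination hω
  · rw [map_sub, map_smul, ac_co, ac_co]
    simp only [xa, of_apply, cons_val', cons_val_zero, cons_val_one, cons_val_fin_one, map_zero, map_neg, map_one,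
      inv_one, Units.val_one]
    match_scalars
    · ring
    · linear_combination hω + ω * h3

end CL.Fix6
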